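import Mathlib
import Cfsg.Agent.Helper16.NGDefs

/-!
# CALL S4404 (helper16), piece LT

A `p`-group (`p ≥ 5`) of automorphisms of an elementary abelian 2-group of order at most 16 has
order at most 7.
-/

set_option autoImplicit false

namespace Cfsg.Agent.Helper85.NGLT
open Cfsg.Agent.Helper16.NG

section
variable {W : Type*} [CommGroup W]

/-- fixed points of a subgroup of automorphisms -/
def nglt_fix (T : Subgroup (MulAut W)) : Subgroup W where
  carrier := {w | ∀ t ∈ T, t w = w}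
  one_mem' := fun t _ => map_one t
  mul_mem' := fun {a b} ha hb t ht => by rw [map_mul, ha t ht, hb t ht]
  inv_mem' := fun {a} ha t ht => by rw [map_inv, ha t ht]

theorem nglt_mem_fix (T : Subgroup (MulAut W)) (w : W) :
    w ∈ nglt_fix T ↔ ∀ t ∈ T, t w = w := Iff.rfl

theorem nglt_card_fix [Finite W] (p : ℕ) [Fact p.Prime] (T : Subgroup (MulAut W))
    (hT : IsPGroup p ↥T) :
    Nat.card W ≡ Nat.card (nglt_fix T) [MOD p] := by
  have h := hT.card_modEq_card_fixedPoints W
  have e : Nat.card (MulAction.fixedPoints ↥T W) = Nat.card (nglt_fix T) := by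
    apply Nat.card_congr
    apply Equiv.subtypeEquivRight
    intro w
    rw [MulAction.mem_fixedPoints]
    constructor
    · intro h t ht; exact h ⟨t, ht⟩
    · intro h t; exact h t.1 t.2
  rw [← e]; exact h

theorem nglt_two_pow [Finite W] (hW2 : ∀ w : W, w ^ 2 = 1) (K : Subgroup W) :
    ∃ j, Nat.card K = 2 ^ j := by
  haveI : Fact (Nat.Prime 2) := ⟨Nat.prime_two⟩
  have hK : IsPGroup 2 K := fun g => ⟨1, by
    apply Subtype.ext
    simpa using hW2 g.1⟩
  exact IsPGroup.iff_card.mp hK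

theorem nglt_aux (p i j k : ℕ) (hp5 : 5 ≤ p) (hij : i < j) (hjk : j < k) (hk : k ≤ 4)
    (h1 : 2 ^ k ≡ 2 ^ i [MOD p]) (h2 : 2 ^ k ≡ 2 ^ j [MOD p]) : False := by
  have d1 : p ∣ 2 ^ k - 2 ^ i :=
    (Nat.modEq_iff_dvd' (Nat.pow_le_pow_right (by norm_num) (by omega))).mp h1.symm
  have d2 : p ∣ 2 ^ k - 2 ^ j :=
    (Nat.modEq_iff_dvd' (Nat.pow_le_pow_right (by norm_num) (by omega))).mp h2.symm
  interval_cases k <;> interval_cases j <;> interval_cases i <;>
    (have h3 := Nat.le_of_dvd (by norm_num) (Nat.dvd_gcd d1 d2); norm_num at h3; omega)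

theorem nglt_aux2 (p i k : ℕ) (hp : p.Prime) (hp5 : 5 ≤ p) (hik : i < k) (hk : k ≤ 4)
    (h1 : 2 ^ k ≡ 2 ^ i [MOD p]) : p ≤ 7 := by
  have d1 : p ∣ 2 ^ k - 2 ^ i :=
    (Nat.modEq_iff_dvd' (Nat.pow_le_pow_right (by norm_num) (by omega))).mp h1.symm
  have hlt : 2 ^ i < 2 ^ k := Nat.pow_lt_pow_right (by norm_num) hik
  have hle : p ≤ 2 ^ k - 2 ^ i := Nat.le_of_dvd (by omega) d1
  by_contra hcon
  push_neg at hcon
  interval_cases k <;> interval_cases i <;> norm_num at hle <;>
    first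
    | omega
    | (interval_cases p <;> first | (revert d1; decide) | (revert hp; decide))

end

/-- LT -/
theorem ng_LT {W : Type*} [CommGroup W] [Finite W] (hW2 : ∀ w : W, w ^ 2 = 1) (hW16 : Nat.card W ≤ 16)
    (p : ℕ) (hp : p.Prime) (hp5 : 5 ≤ p) (T : Subgroup (MulAut W)) (hT : IsPGroup p ↥T) :
    Nat.card T ≤ 7 := by
  classical
  haveI : Fact p.Prime := ⟨hp⟩
  by_cases hbot : T = ⊥
  · subst hbot; simp
  obtain ⟨f, hfT, hf1⟩ : ∃ f ∈ T, f ≠ 1 := by
    by_contra hcon
    push_neg at hcon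
    exact hbot ((Subgroup.eq_bot_iff_forall T).mpr hcon)
  obtain ⟨u0, hu0⟩ : ∃ u0, f u0 ≠ u0 := by
    by_contra hcon
    push_neg at hcon
    exact hf1 (MulEquiv.ext hcon)
  have hT0p : IsPGroup p ↥(T ⊓ MulAction.stabilizer (MulAut W) u0) := hT.to_le inf_le_left
  obtain ⟨k, hk⟩ := nglt_two_pow hW2 (⊤ : Subgroup W)
  rw [Subgroup.card_top] at hk
  obtain ⟨i, hi⟩ := nglt_two_pow hW2 (nglt_fix T)
  have hmodT := nglt_card_fix p T hT
  have hk4 : k ≤ 4 := by
    by_contra hcon
    push_neg at hcon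
    have : 2 ^ 5 ≤ 2 ^ k := Nat.pow_le_pow_right (by norm_num) hcon
    omega
  have hfixT_ne : nglt_fix T ≠ ⊤ := by
    intro h
    have hmem : u0 ∈ nglt_fix T := by rw [h]; trivial
    exact hu0 (hmem f hfT)
  have hik : i < k := by
    have hd : Nat.card (nglt_fix T) ∣ Nat.card W := Subgroup.card_subgroup_dvd_card _
    have hne : Nat.card (nglt_fix T) ≠ Nat.card W :=
      fun h => hfixT_ne ((Subgroup.card_eq_iff_eq_top _).mp h)
    rw [hi, hk] at hd hne
    have hle : i ≤ k := (Nat.pow_dvd_pow_iff_le_right (by norm_num)).mp hd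
    rcases hle.lt_or_eq with h | h
    · exact h
    · exact absurd (by rw [h]) hne
  have hT0bot : T ⊓ MulAction.stabilizer (MulAut W) u0 = ⊥ := by
    by_contra hT0ne
    obtain ⟨f0, hf0T, hf01⟩ : ∃ f ∈ T ⊓ MulAction.stabilizer (MulAut W) u0, f ≠ 1 := by
      by_contra hcon
      push_neg at hcon
      exact hT0ne ((Subgroup.eq_bot_iff_forall _).mpr hcon)
    obtain ⟨u1, hu1⟩ : ∃ u1, f0 u1 ≠ u1 := by
      by_contra hcon
      push_neg at hcon
      exact hf01 (MulEquiv.ext hcon)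
    obtain ⟨j, hj⟩ := nglt_two_pow hW2 (nglt_fix (T ⊓ MulAction.stabilizer (MulAut W) u0))
    have hmodT0 := nglt_card_fix p _ hT0p
    have hle : nglt_fix T ≤ nglt_fix (T ⊓ MulAction.stabilizer (MulAut W) u0) :=
      fun w hw t ht => hw t ht.1
    have hu0in : u0 ∈ nglt_fix (T ⊓ MulAction.stabilizer (MulAut W) u0) := fun t ht => ht.2
    have hne1 : nglt_fix T ≠ nglt_fix (T ⊓ MulAction.stabilizer (MulAut W) u0) := by
      intro h
      have hmem : u0 ∈ nglt_fix T := by rw [h]; exact hu0in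
      exact hu0 (hmem f hfT)
    have hne2 : nglt_fix (T ⊓ MulAction.stabilizer (MulAut W) u0) ≠ ⊤ := by
      intro h
      have hmem : u1 ∈ nglt_fix (T ⊓ MulAction.stabilizer (MulAut W) u0) := by rw [h]; trivial
      exact hu1 (hmem f0 hf0T)
    have hij : i < j := by
      have hd : Nat.card (nglt_fix T) ∣
          Nat.card (nglt_fix (T ⊓ MulAction.stabilizer (MulAut W) u0)) :=
        Subgroup.card_dvd_of_le hle
      have hne : Nat.card (nglt_fix T) ≠
          Nat.card (nglt_fix (T ⊓ MulAction.stabilizer (MulAut W) u0)) :=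
        fun h => hne1 (Subgroup.eq_of_le_of_card_ge hle h.ge)
      rw [hi, hj] at hd hne
      have hle' : i ≤ j := (Nat.pow_dvd_pow_iff_le_right (by norm_num)).mp hd
      rcases hle'.lt_or_eq with h | h
      · exact h
      · exact absurd (by rw [h]) hne
    have hjk : j < k := by
      have hd : Nat.card (nglt_fix (T ⊓ MulAction.stabilizer (MulAut W) u0)) ∣ Nat.card W :=
        Subgroup.card_subgroup_dvd_card _
      have hne : Nat.card (nglt_fix (T ⊓ MulAction.stabilizer (MulAut W) u0)) ≠ Nat.card W :=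
        fun h => hne2 ((Subgroup.card_eq_iff_eq_top _).mp h)
      rw [hj, hk] at hd hne
      have hle' : j ≤ k := (Nat.pow_dvd_pow_iff_le_right (by norm_num)).mp hd
      rcases hle'.lt_or_eq with h | h
      · exact h
      · exact absurd (by rw [h]) hne
    rw [hk, hi] at hmodT
    rw [hk, hj] at hmodT0
    exact nglt_aux p i j k hp5 hij hjk hk4 hmodT hmodT0
  have hinj : Function.Injective (fun t : ↥T => (t : MulAut W) u0) := by
    intro t t' htt
    have htt' : (t : MulAut W) u0 = (t' : MulAut W) u0 := htt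
    have hmem : (t' : MulAut W)⁻¹ * (t : MulAut W) ∈ T ⊓ MulAction.stabilizer (MulAut W) u0 := by
      refine ⟨T.mul_mem (T.inv_mem t'.2) t.2, ?_⟩
      show ((t' : MulAut W)⁻¹ * (t : MulAut W)) u0 = u0
      rw [MulAut.mul_apply, htt', MulAut.inv_apply_self]
    rw [hT0bot, Subgroup.mem_bot] at hmem
    apply Subtype.ext
    exact (inv_mul_eq_one.mp hmem).symm
  have hle16 : Nat.card T ≤ 16 :=
    (Nat.card_le_card_of_injective _ hinj).trans hW16
  obtain ⟨m, hm⟩ := IsPGroup.iff_card.mp hT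
  rw [hm] at hle16 ⊢
  have hm1 : m ≤ 1 := by
    by_contra hcon
    push_neg at hcon
    have h1 : p ^ 2 ≤ p ^ m := Nat.pow_le_pow_right (by omega) hcon
    have h2 : 5 ^ 2 ≤ p ^ 2 := Nat.pow_le_pow_left hp5 2
    omega
  interval_cases m
  · simp
  · rw [pow_one]
    rw [hk, hi] at hmodT
    exact nglt_aux2 p i k hp hp5 hik hk4 hmodT

end Cfsg.Agent.Helper85.NGLT
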