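import Cfsg.Agent.Helper85.PPower
import Cfsg.Agent.Helper88.FusionAlperin

/-!
# Subsystems of `p`-power index: definitions for the index-`p` step (helper85, CALL S5113)

`F` is a saturated fusion system over the finite `p`-group `S`, `T` a normal subgroup of `S` of index `p`
containing the hyperfocal subgroup.  `PiGen F p T` is the system over `T` generated by the restrictions of the
elements of `O^p(Aut_F(Q))`, `Q ≤ T`, and the conjugations by elements of `T`.
-/

set_option autoImplicit false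

namespace Cfsg.Agent.Helper85

open Cfsg Cfsg.FusionSystem
open Cfsg.Agent.Helper88

variable {Ω : Type*} [Group Ω] {S : Subgroup Ω}

/-- The hypotheses of the index-`p` step. -/
structure PiHyp (F : FusionSystem S) (p : ℕ) (T : Subgroup Ω) : Prop where
  sat : F.IsSaturated p
  le : T ≤ S
  norm : ∀ s ∈ S, ∀ t ∈ T, s * t * s⁻¹ ∈ T
  hyp : F.hyperfocalSubgroup p ≤ T
  index : Nat.card S = p * Nat.card T

/-- The maps of the candidate subsystem over `T`: generated by restrictions of elements of `O^p(Aut_F(Q))`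
for `Q ≤ T` and by conjugations by elements of `T`. -/
inductive PiGen (F : FusionSystem S) (p : ℕ) (T : Subgroup Ω) : Subgroup Ω → (Ω → Ω) → Prop
  | base {P Q : Subgroup Ω} {α : MulAut Q} (hQT : Q ≤ T)
      (hα : α ∈ (pResidual p (F.autGroup Q)).map (F.autGroup Q).subtype) (hP : P ≤ Q) :
      PiGen F p T P (autFun α)
  | conj {P : Subgroup Ω} {t : Ω} (hP : P ≤ T) (ht : t ∈ T) : PiGen F p T P (fun x => t * x * t⁻¹)
  | comp {P Q : Subgroup Ω} {f g : Ω → Ω} (hf : PiGen F p T P f) (hg : PiGen F p T Q g)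
      (h : ∀ x ∈ P, f x ∈ Q) : PiGen F p T P (g ∘ f)
  | congr {P : Subgroup Ω} {f g : Ω → Ω} (hf : PiGen F p T P f) (h : ∀ x ∈ P, g x = f x) :
      PiGen F p T P g

/-- `R ≤ T` and every conjugate of `R` in `F` has its centralizer in `S` inside `T`. -/
def PiH (F : FusionSystem S) (T R : Subgroup Ω) : Prop :=
  R ≤ T ∧ ∀ R' : Subgroup Ω, F.IsConj R R' → centralizerIn S R' ≤ T

/-- A chart of `A` towards `R`: a map `χ` of `F` on `N_T(A)` carrying `A` onto `R`, together with an element
`a ∈ S` such that `c_a⁻¹ ∘ χ` is a map of the candidate subsystem. -/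
def PiGood (F : FusionSystem S) (p : ℕ) (T R : Subgroup Ω) (χ : Ω → Ω) (A : Subgroup Ω) (a : Ω) : Prop :=
  IsMap F (normalizerIn T A) χ ∧ img A χ = R ∧ a ∈ S ∧
    PiGen F p T (normalizerIn T A) (fun x => a⁻¹ * χ x * a)

/-- The map `f` on `A` has trivial degree with respect to all charts. -/
def PiQ (F : FusionSystem S) (p : ℕ) (T R A : Subgroup Ω) (f : Ω → Ω) : Prop :=
  ∀ (χ₁ χ₂ : Ω → Ω) (a b u : Ω) (β₀ : MulAut R), PiGood F p T R χ₁ A a → PiGood F p T R χ₂ (img A f) b →
    u ∈ normalizerIn S R → β₀ ∈ (pResidual p (F.autGroup R)).map (F.autGroup R).subtype →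
    (∀ x ∈ A, χ₂ (f x) = u * autFun β₀ (χ₁ x) * u⁻¹) → b⁻¹ * u * a ∈ T

/-- The context of the main induction: `R` is fully normalized in `F`, proper in `T`, all conjugates of `R`
have their centralizers in `T`, and the degree lemma holds for larger subgroups. -/
structure PiCtx (F : FusionSystem S) (p : ℕ) (T R : Subgroup Ω) : Prop where
  hyp : PiHyp F p T
  fn : F.IsFullyNormalized R
  hR : PiH F T R
  lt : Nat.card R < Nat.card T
  ih : ∀ R₁ : Subgroup Ω, PiH F T R₁ → Nat.card R < Nat.card R₁ → ∀ s ∈ S,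
    PiGen F p T R₁ (fun x => s * x * s⁻¹) → s ∈ T

/-! ### Statements of the pieces, as propositions (used as explicit hypotheses by the pieces that depend on them) -/

/-- `O^p(Aut_F(Q))`, as a subgroup of `Aut(Q)`. -/
abbrev PiO (F : FusionSystem S) (p : ℕ) (Q : Subgroup Ω) : Subgroup (MulAut Q) :=
  (pResidual p (F.autGroup Q)).map (F.autGroup Q).subtype

/-- Frattini property: a map of `F` on a subgroup of `T` is a map of the candidate subsystem followed by a
conjugation by an element of `S`. -/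
def PiFrat (F : FusionSystem S) (p : ℕ) (T : Subgroup Ω) : Prop :=
  ∀ (P : Subgroup Ω) (f : Ω → Ω), IsMap F P f → P ≤ T → ∃ s ∈ S, PiGen F p T P (fun x => s⁻¹ * f x * s)

/-- The candidate subsystem is invariant under conjugation by `S`. -/
def PiConjS (F : FusionSystem S) (p : ℕ) (T : Subgroup Ω) : Prop :=
  ∀ (P : Subgroup Ω) (f : Ω → Ω) (s : Ω), PiGen F p T P f → s ∈ S →
    PiGen F p T (img P (fun x => s * x * s⁻¹)) (fun y => s * f (s⁻¹ * y * s) * s⁻¹)

/-- Transport of `O^p` of the automizer along an isomorphism of the system. -/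
def PiTr (F : FusionSystem S) (p : ℕ) : Prop :=
  ∀ (A B : Subgroup Ω) (χ : Ω → Ω) (α : MulAut A), IsMap F A χ → img A χ = B → α ∈ PiO F p A →
    ∃ β : MulAut B, β ∈ PiO F p B ∧ ∀ x ∈ A, autFun β (χ x) = χ (autFun α x)

/-- Hyperfocal property of automizers: an element of `N_S(R)` inducing an element of `O^p(Aut_F(R))` on the
fully normalized subgroup `R` lies in `hyp(F) C_S(R)`. -/
def PiHfa (F : FusionSystem S) (p : ℕ) : Prop :=
  ∀ (R : Subgroup Ω) (w : Ω) (β : MulAut R), F.IsFullyNormalized R → w ∈ normalizerIn S R → β ∈ PiO F p R →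
    (∀ x ∈ R, autFun β x = w * x * w⁻¹) → w ∈ F.hyperfocalSubgroup p ⊔ centralizerIn S R

/-- A map `γ` of `F` on `N` with `R ≤ N ≤ N_S(R) ∩ T` normalizing the fully normalized `R` is, up to a
conjugation by `u ∈ N_S(R)`, a map of the candidate subsystem restricting on `R` to an element of
`O^p(Aut_F(R))`. -/
def PiBrc (F : FusionSystem S) (p : ℕ) (T : Subgroup Ω) : Prop :=
  ∀ (R N : Subgroup Ω) (γ : Ω → Ω), F.IsFullyNormalized R → R ≤ N → N ≤ normalizerIn S R → N ≤ T →
    IsMap F N γ → img R γ = R → ∃ u ∈ normalizerIn S R, ∃ β₀ : MulAut R, β₀ ∈ PiO F p R ∧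
      (∀ x ∈ R, γ x = u * autFun β₀ x * u⁻¹) ∧ PiGen F p T N (fun x => u⁻¹ * γ x * u)

/-- Existence of charts. -/
def PiGi (F : FusionSystem S) (p : ℕ) (T : Subgroup Ω) : Prop :=
  ∀ (R A : Subgroup Ω), F.IsFullyNormalized R → F.IsConj A R → A ≤ T → ∃ χ a, PiGood F p T R χ A a

/-- `S = ⟨c⟩ T` for every `c ∈ S` outside `T`. -/
def PiSplit (S T : Subgroup Ω) : Prop :=
  ∀ c ∈ S, c ∉ T → ∀ s ∈ S, ∃ (i : ℤ) (t : Ω), t ∈ T ∧ s = c ^ i * t

/-- The degree lemma at `R`: an element of `S` whose conjugation on `R` is a map of the candidate subsystem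
lies in `T`. -/
def PiDeg (F : FusionSystem S) (p : ℕ) (T R : Subgroup Ω) : Prop :=
  ∀ s ∈ S, PiGen F p T R (fun x => s * x * s⁻¹) → s ∈ T

/-- The fusion system `E` over `T` has exactly the maps of the candidate subsystem. -/
def PiSys (F : FusionSystem S) (p : ℕ) {T : Subgroup Ω} (E : FusionSystem T) : Prop :=
  ∀ (Q : Subgroup Ω) (f : Ω → Ω), IsMap E Q f ↔ PiGen F p T Q f

end Cfsg.Agent.Helper85
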