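import Cfsg.Agent.Helper85.PiDefs

/-!
# Subsystems of `p`-power index: basic properties of the generated system `PiGen` (helper85, CALL S5113)
-/

set_option autoImplicit false

namespace Cfsg.Agent.Helper85

open Cfsg Cfsg.FusionSystem
open Cfsg.Agent.Helper88

variable {Ω : Type*} [Group Ω] {S : Subgroup Ω}

theorem piGen_le {F : FusionSystem S} {p : ℕ} {T : Subgroup Ω} {P : Subgroup Ω} {f : Ω → Ω}
    (h : PiGen F p T P f) : P ≤ T := by
  induction h with
  | base hQT hα hP => exact hP.trans hQT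
  | conj hP ht => exact hP
  | comp hf hg h ihf ihg => exact ihf
  | congr hf h ih => exact ih

theorem piGen_isMap {F : FusionSystem S} {p : ℕ} {T : Subgroup Ω} (hTS : T ≤ S) {P : Subgroup Ω} {f : Ω → Ω}
    (h : PiGen F p T P f) : IsMap F P f := by
  induction h with
  | @base P Q α hQT hα hP =>
    have hα' : α ∈ F.autGroup Q := by
      obtain ⟨a, -, rfl⟩ := hα
      exact a.2
    exact (IsMap.of_mem_autGroup (hQT.trans hTS) hα').restrict hP
  | conj hP ht => exact isMap_conj F (hP.trans hTS) (hTS ht)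
  | comp hf hg h ihf ihg => exact ihf.comp ihg h
  | congr hf h ih => exact ih.congr h

theorem piGen_restrict {F : FusionSystem S} {p : ℕ} {T : Subgroup Ω} {P R : Subgroup Ω} {f : Ω → Ω}
    (h : PiGen F p T P f) (hR : R ≤ P) : PiGen F p T R f := by
  induction h generalizing R with
  | base hQT hα hP => exact PiGen.base hQT hα (hR.trans hP)
  | conj hP ht => exact PiGen.conj (hR.trans hP) ht
  | comp hf hg h ihf ihg => exact PiGen.comp (ihf hR) hg (fun x hx => h x (hR hx))
  | congr hf h ih => exact PiGen.congr (ih hR) (fun x hx => h x (hR hx))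

theorem piGen_id {F : FusionSystem S} {p : ℕ} {T : Subgroup Ω} {P : Subgroup Ω} (hP : P ≤ T) :
    PiGen F p T P id :=
  PiGen.congr (PiGen.conj (F := F) (p := p) hP T.one_mem) (fun x _ => by simp)

/-- Maps of `F` send elements of `T` to `T`. -/
theorem pi_mapsTo [Finite S] {p : ℕ} [Fact p.Prime] (hS : IsPGroup p S) {F : FusionSystem S} {T : Subgroup Ω}
    (hh : PiHyp F p T) {P : Subgroup Ω} {f : Ω → Ω} (hf : IsMap F P f) : ∀ x ∈ P, x ∈ T → f x ∈ T :=
  mapsTo_of_hyperfocal_le hS hh.sat hh.norm hh.hyp hf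

theorem piGen_mapsTo [Finite S] {p : ℕ} [Fact p.Prime] (hS : IsPGroup p S) {F : FusionSystem S}
    {T : Subgroup Ω} (hh : PiHyp F p T) {P : Subgroup Ω} {f : Ω → Ω} (h : PiGen F p T P f) :
    ∀ x ∈ P, f x ∈ T :=
  fun x hx => pi_mapsTo hS hh (piGen_isMap hh.le h) x hx (piGen_le h hx)

theorem piGen_img_le [Finite S] {p : ℕ} [Fact p.Prime] (hS : IsPGroup p S) {F : FusionSystem S}
    {T : Subgroup Ω} (hh : PiHyp F p T) {P : Subgroup Ω} {f : Ω → Ω} (h : PiGen F p T P f) :
    img P f ≤ T := by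
  unfold img
  rw [Subgroup.closure_le]
  rintro _ ⟨x, hx, rfl⟩
  exact piGen_mapsTo hS hh h x hx

theorem piGen_exists_inv [Finite S] {p : ℕ} [Fact p.Prime] (hS : IsPGroup p S) {F : FusionSystem S}
    {T : Subgroup Ω} (hh : PiHyp F p T) {P : Subgroup Ω} {f : Ω → Ω} (h : PiGen F p T P f) :
    ∃ g, PiGen F p T (img P f) g ∧ ∀ x ∈ P, g (f x) = x := by
  induction h with
  | @base P Q α hQT hα hP =>
    refine ⟨autFun α⁻¹, PiGen.base hQT (Subgroup.inv_mem _ hα) ?_, fun x hx => autFun_inv_apply α (hP hx)⟩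
    unfold img
    rw [Subgroup.closure_le]
    rintro _ ⟨x, hx, rfl⟩
    exact autFun_mem α (hP hx)
  | @conj P t hP ht =>
    refine ⟨fun x => t⁻¹ * x * t⁻¹⁻¹, PiGen.conj ?_ (T.inv_mem ht), fun x hx => by group⟩
    exact piGen_img_le hS hh (PiGen.conj hP ht)
  | @comp P Q f g hf hg h ihf ihg =>
    obtain ⟨f', hf', hf'1⟩ := ihf
    obtain ⟨g', hg', hg'1⟩ := ihg
    have hfm := piGen_isMap hh.le hf
    have hgm := piGen_isMap hh.le hg
    have hcomp : IsMap F P (g ∘ f) := hfm.comp hgm h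
    have hsub : img P (g ∘ f) ≤ img Q g := by
      unfold img
      rw [Subgroup.closure_le]
      rintro _ ⟨x, hx, rfl⟩
      exact Subgroup.subset_closure ⟨f x, h x hx, rfl⟩
    refine ⟨f' ∘ g', PiGen.comp (piGen_restrict hg' hsub) hf' ?_, fun x hx => ?_⟩
    · intro y hy
      obtain ⟨x, hx, rfl⟩ := hcomp.mem_img.1 hy
      show g' (g (f x)) ∈ img P f
      rw [hg'1 _ (h x hx)]
      exact hfm.apply_mem_img hx
    · show f' (g' (g (f x))) = x
      rw [hg'1 _ (h x hx), hf'1 x hx]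
  | @congr P f g hf h ih =>
    obtain ⟨f', hf', hf'1⟩ := ih
    have himg : img P g = img P f := img_congr h
    rw [himg]
    exact ⟨f', hf', fun x hx => by rw [h x hx]; exact hf'1 x hx⟩

end Cfsg.Agent.Helper85
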