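import Mathlib
import Cfsg.Agent.Helper9.OrdTools
import Cfsg.Agent.Helper9.OrdTools2
import Cfsg.Agent.Helper8.SylFix
import Cfsg.Agent.Helper8.SylSub
import Cfsg.Agent.S0992

/-!
# CALL S0983 (helper82), piece A5460 (helper85)
-/

set_option autoImplicit false
set_option linter.style.haveILetI false

namespace Cfsg.Agent.Helper85

open Subgroup Cfsg.Agent.Helper9 Cfsg.Agent.Helper8

variable {G : Type*} [Group G] [Finite G] [IsSimpleGroup G]

theorem o983_arith_5460 : ∀ n, n ∣ 420 → n % 13 = 1 → n = 1 ∨ n = 14 ∨ n = 105 := by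
  intro n hn
  have hle : n ≤ 420 := Nat.le_of_dvd (by norm_num) hn
  revert hn
  have key : ∀ n ≤ 420, n ∣ 420 → n % 13 = 1 → n = 1 ∨ n = 14 ∨ n = 105 := by
    decide +kernel
  exact key n hle

theorem o983_arith_105 : ∀ n, n ∣ 105 → n % 13 = 1 → n = 1 ∨ n = 105 := by
  intro n hn
  have hle : n ≤ 105 := Nat.le_of_dvd (by norm_num) hn
  revert hn
  have key : ∀ n ≤ 105, n ∣ 105 → n % 13 = 1 → n = 1 ∨ n = 105 := by
    decide +kernel
  exact key n hle

/-- piece A5460 -/
theorem o5460_a (h : Nat.card G = 5460) :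
    ∃ t : G, orderOf t = 2 ∧ Nat.card (centralizer ({t} : Set G)) = 52 := by
  classical
  haveI : Fact (Nat.Prime 13) := ⟨by norm_num⟩
  haveI : Fact (Nat.Prime 2) := ⟨by norm_num⟩
  obtain ⟨P⟩ : Nonempty (Sylow 13 G) := inferInstance
  have hP : Nat.card (P : Subgroup G) = 13 := by
    have := OrdTools.sylow_card (p := 13) 1 420 (by rw [h]; norm_num) (by norm_num) P
    simpa using this
  have hna : ∃ a b : G, a * b ≠ b * a := by
    by_contra hcon
    push Not at hcon
    have hn : (P : Subgroup G).Normal :=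
      ⟨fun n hn g => by rw [hcon g n, mul_inv_cancel_right]; exact hn⟩
    rcases hn.eq_bot_or_eq_top with h' | h'
    · rw [h', Subgroup.card_bot] at hP; omega
    · rw [h', Subgroup.card_top, h] at hP; omega
  obtain ⟨hdvd, hmod, hne1, hNn⟩ :=
    OrdTools.sylow_num P (by rw [hP]; norm_num) (by rw [hP, h]; norm_num)
  have hidx : (P : Subgroup G).index = 420 := by
    have := (P : Subgroup G).card_mul_index
    rw [hP, h] at this
    omega
  rw [hidx] at hdvd
  rw [h] at hNn
  obtain ⟨e, he12, he1, heq, h13C⟩ :=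
    OrdTools.normalizer_centralizer_prime P hP (by rw [h]; norm_num)
  have he : e ≤ 12 := Nat.le_of_dvd (by norm_num) he12
  have he12' : e ∣ 12 := he12
  -- n_13 = 105
  have hn : Nat.card (Sylow 13 G) = 105 := by
    rcases o983_arith_5460 _ hdvd hmod with hn | hn | hn
    · exact absurd hn hne1
    · exfalso
      have hC := OrdTools.card_centralizer_of_num P hP (hn.trans (by norm_num))
      rw [hn] at hNn
      have hN : Nat.card (normalizer ((P : Subgroup G) : Set G)) = 390 := by omega
      rw [hN, hC] at heq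
      omega
    · exact hn
  rw [hn] at hNn
  have hN : Nat.card (normalizer ((P : Subgroup G) : Set G)) = 52 := by omega
  rw [hN] at heq
  -- a generator of P
  obtain ⟨x0, hx0⟩ := exists_prime_orderOf_dvd_card' (G := ↥(P : Subgroup G)) 13 (by rw [hP])
  obtain ⟨x, hxdef⟩ : ∃ x : G, x = (x0 : G) := ⟨_, rfl⟩
  have hxP : x ∈ (P : Subgroup G) := hxdef ▸ x0.2
  have hxo : orderOf x = 13 := by rw [hxdef, Subgroup.orderOf_coe]; exact hx0
  have hx1 : x ≠ 1 := by
    intro h1
    rw [h1, orderOf_one] at hxo
    omega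
  have hPab : ∀ a ∈ (P : Subgroup G), ∀ b ∈ (P : Subgroup G), a * b = b * a := by
    intro a ha b hb
    exact Subgroup.mem_centralizer_iff.mp (OrdTools.le_centralizer_of_prime P hP hb) a ha
  -- an involution normalizing P centralizes P or inverts x
  have hdich : ∀ c ∈ normalizer ((P : Subgroup G) : Set G), c * c = 1 →
      c ∈ centralizer ((P : Subgroup G) : Set G) ∨ c * x * c⁻¹ = x⁻¹ := by
    intro c hc hc2
    have hy : c * x * c⁻¹ ∈ (P : Subgroup G) := (Subgroup.mem_normalizer_iff.mp hc x).mp hxP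
    by_cases hu : x * (c * x * c⁻¹) = 1
    · right
      exact eq_inv_of_mul_eq_one_right hu
    · left
      have huP : x * (c * x * c⁻¹) ∈ (P : Subgroup G) := mul_mem hxP hy
      have hz := OrdTools.zpowers_eq_sylow P hP huP hu
      rw [← OrdTools.centralizer_singleton_eq hz, Subgroup.mem_centralizer_iff]
      intro w hw
      rw [Set.mem_singleton_iff] at hw
      rw [hw]
      have hcinv : c⁻¹ = c := inv_eq_of_mul_eq_one_left hc2
      have e1 : c * (x * (c * x * c⁻¹)) = (c * x * c⁻¹) * x * c := by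
        rw [hcinv]
        simp only [mul_assoc]
      rw [e1, hPab x hxP _ hy]
  -- a Sylow 2-subgroup of N(P)
  obtain ⟨K, hK⟩ := Sylow.exists_subgroup_card_pow_prime
    (G := ↥(normalizer ((P : Subgroup G) : Set G))) 2 (n := 2) (by rw [hN]; norm_num)
  obtain ⟨T0, hT0⟩ : ∃ T0 : Subgroup G,
      T0 = K.map (normalizer ((P : Subgroup G) : Set G)).subtype := ⟨_, rfl⟩
  have hT0card : Nat.card T0 = 4 := by
    rw [hT0, Subgroup.card_map_of_injective (Subgroup.subtype_injective _), hK]
    norm_num
  have hT0N : T0 ≤ normalizer ((P : Subgroup G) : Set G) := by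
    rw [hT0]
    rintro y ⟨n, _, rfl⟩
    exact n.2
  have hG' : ¬ IsMulCommutative G := by
    intro hc
    obtain ⟨a, b, hab⟩ := hna
    exact hab (hc.is_comm.comm a b)
  have hT0sq : ∀ a ∈ T0, a * a = 1 := by
    have hpg : IsPGroup 2 T0 := IsPGroup.of_card (n := 2) (by rw [hT0card]; norm_num)
    obtain ⟨S, hS⟩ := hpg.exists_le_sylow
    have hK4 := (Cfsg.Agent.S0992.result (G := G) hG' (by rw [h]; decide)
      (by rw [h]; norm_num) S).1
    intro a ha
    have haS : a ∈ (S : Subgroup G) := hS ha
    have hexp := hK4.exponent_two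
    have h1 : (⟨a, haS⟩ : ↥(S : Subgroup G)) ^ 2 = 1 := by
      have h0 := Monoid.pow_exponent_eq_one (⟨a, haS⟩ : ↥(S : Subgroup G))
      rw [hexp] at h0
      exact h0
    have h2 := congrArg Subtype.val h1
    simpa [pow_two] using h2
  -- two distinct nonidentity elements of T0
  obtain ⟨a, haT, ha1⟩ : ∃ a ∈ T0, a ≠ 1 := by
    by_contra hcon
    push Not at hcon
    have : T0 = ⊥ := (Subgroup.eq_bot_iff_forall _).mpr hcon
    rw [this, Subgroup.card_bot] at hT0card
    omega
  obtain ⟨b, hbT, hb1, hba⟩ : ∃ b ∈ T0, b ≠ 1 ∧ b ≠ a := by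
    by_contra hcon
    push Not at hcon
    have hle : T0 ≤ zpowers a := by
      intro b hb
      by_cases hb1 : b = 1
      · rw [hb1]; exact one_mem _
      · rw [hcon b hb hb1]; exact mem_zpowers a
    have hd := Subgroup.card_dvd_of_le hle
    have ho : orderOf a ≤ 2 :=
      orderOf_le_of_pow_eq_one (by norm_num) (by rw [pow_two]; exact hT0sq a haT)
    rw [Nat.card_zpowers, hT0card] at hd
    have := Nat.le_of_dvd (orderOf_pos a) hd
    omega
  have habT : a * b ∈ T0 := mul_mem haT hbT
  have hab1 : a * b ≠ 1 := by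
    intro hab
    have hainv : a⁻¹ = a := inv_eq_of_mul_eq_one_left (hT0sq a haT)
    have : b = a⁻¹ := eq_inv_of_mul_eq_one_right hab
    exact hba (this.trans hainv)
  obtain ⟨t, htC, ht1, ht2⟩ :
      ∃ t ∈ centralizer ((P : Subgroup G) : Set G), t ≠ 1 ∧ t * t = 1 := by
    rcases hdich a (hT0N haT) (hT0sq a haT) with hca | hca
    · exact ⟨a, hca, ha1, hT0sq a haT⟩
    rcases hdich b (hT0N hbT) (hT0sq b hbT) with hcb | hcb
    · exact ⟨b, hcb, hb1, hT0sq b hbT⟩
    refine ⟨a * b, ?_, hab1, hT0sq _ habT⟩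
    have hz := OrdTools.zpowers_eq_sylow P hP hxP hx1
    rw [← OrdTools.centralizer_singleton_eq hz, Subgroup.mem_centralizer_iff]
    intro w hw
    rw [Set.mem_singleton_iff] at hw
    rw [hw]
    have h1 : b * x = x⁻¹ * b := by rw [← hcb]; group
    have h2' : a * x = x⁻¹ * a := by rw [← hca]; group
    have h2 : x * a = a * x⁻¹ := by
      calc x * a = x * (a * x) * x⁻¹ := by group
        _ = x * (x⁻¹ * a) * x⁻¹ := by rw [h2']
        _ = a * x⁻¹ := by group
    calc x * (a * b) = (x * a) * b := by group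
      _ = a * x⁻¹ * b := by rw [h2]
      _ = a * (x⁻¹ * b) := by group
      _ = a * (b * x) := by rw [h1]
      _ = a * b * x := by group
  have hto : orderOf t = 2 := orderOf_eq_prime (by rw [pow_two]; exact ht2) ht1
  have hC : Nat.card (centralizer ((P : Subgroup G) : Set G)) = 26 := by
    have h2C : 2 ∣ Nat.card (centralizer ((P : Subgroup G) : Set G)) := by
      have := Subgroup.orderOf_dvd_natCard _ htC
      rwa [hto] at this
    obtain ⟨c', hc'⟩ := h13C
    rw [hc'] at heq h2C ⊢
    interval_cases e <;> omega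
  have hPC : (P : Subgroup G) ≤ centralizer ((P : Subgroup G) : Set G) :=
    OrdTools.le_centralizer_of_prime P hP
  have hnotP : ∀ s : G, s ≠ 1 → s * s = 1 → s ∉ (P : Subgroup G) := by
    intro s hs1 hs2 hsP
    have h1 := Subgroup.orderOf_dvd_natCard _ hsP
    rw [hP] at h1
    have h2 : orderOf s ∣ 2 := orderOf_dvd_of_pow_eq_one (by rw [pow_two]; exact hs2)
    have h3 : orderOf s ∣ 1 := by
      have := Nat.dvd_gcd h1 h2
      simpa using this
    exact hs1 (orderOf_eq_one_iff.mp (Nat.dvd_one.mp h3))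
  -- t is the unique involution of C(P)
  have huniq : ∀ s ∈ centralizer ((P : Subgroup G) : Set G), s ≠ 1 → s * s = 1 → s = t := by
    intro s hsC hs1 hs2
    have hidx2 : ((P : Subgroup G).subgroupOf
        (centralizer ((P : Subgroup G) : Set G))).index = 2 := by
      have h1 := ((P : Subgroup G).subgroupOf
        (centralizer ((P : Subgroup G) : Set G))).card_mul_index
      rw [Nat.card_congr (Subgroup.subgroupOfEquivOfLe hPC).toEquiv, hP, hC] at h1
      omega
    have hstP : s * t ∈ (P : Subgroup G) := by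
      have hiff := Subgroup.mul_mem_iff_of_index_two hidx2
        (a := (⟨s, hsC⟩ : ↥(centralizer ((P : Subgroup G) : Set G)))) (b := ⟨t, htC⟩)
      have h' : (⟨s, hsC⟩ : ↥(centralizer ((P : Subgroup G) : Set G))) * ⟨t, htC⟩ ∈
          (P : Subgroup G).subgroupOf (centralizer ((P : Subgroup G) : Set G)) := by
        rw [hiff]
        constructor
        · intro h1; exact absurd (Subgroup.mem_subgroupOf.mp h1) (hnotP s hs1 hs2)
        · intro h1; exact absurd (Subgroup.mem_subgroupOf.mp h1) (hnotP t ht1 ht2)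
      exact Subgroup.mem_subgroupOf.mp h'
    have hq2 : (s * t) * (s * t) = 1 := by
      have hcomm : (s * t) * t = t * (s * t) := Subgroup.mem_centralizer_iff.mp htC _ hstP
      calc (s * t) * (s * t) = s * (t * (s * t)) := by group
        _ = s * ((s * t) * t) := by rw [hcomm]
        _ = (s * s) * (t * t) := by group
        _ = 1 := by rw [hs2, ht2, one_mul]
    have hq1 : s * t = 1 := by
      by_contra hne
      exact hnotP (s * t) hne hq2 hstP
    have htinv : t⁻¹ = t := inv_eq_of_mul_eq_one_left ht2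
    rw [← htinv]
    exact eq_inv_of_mul_eq_one_left hq1
  -- N(P) centralizes t
  have hNX : normalizer ((P : Subgroup G) : Set G) ≤ centralizer ({t} : Set G) := by
    intro n hn'
    rw [Subgroup.mem_centralizer_iff]
    intro w hw
    rw [Set.mem_singleton_iff] at hw
    rw [hw]
    have hconj : n * t * n⁻¹ ∈ centralizer ((P : Subgroup G) : Set G) := by
      rw [Subgroup.mem_centralizer_iff]
      intro p hp
      have hp' : n⁻¹ * p * n ∈ (P : Subgroup G) := by
        have := (Subgroup.mem_normalizer_iff.mp (inv_mem hn') p).mp hp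
        simpa using this
      have hc := Subgroup.mem_centralizer_iff.mp htC _ hp'
      calc p * (n * t * n⁻¹) = n * ((n⁻¹ * p * n) * t) * n⁻¹ := by group
        _ = n * (t * (n⁻¹ * p * n)) * n⁻¹ := by rw [hc]
        _ = n * t * n⁻¹ * p := by group
    have hne : n * t * n⁻¹ ≠ 1 := by
      intro h1
      apply ht1
      have : t = n⁻¹ * (n * t * n⁻¹) * n := by group
      rw [this, h1]
      group
    have hsq : (n * t * n⁻¹) * (n * t * n⁻¹) = 1 := by
      calc (n * t * n⁻¹) * (n * t * n⁻¹) = n * (t * t) * n⁻¹ := by group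
        _ = 1 := by rw [ht2]; group
    have hnt := huniq _ hconj hne hsq
    calc t * n = (n * t * n⁻¹) * n := by rw [hnt]
      _ = n * t := by group
  have hPX : (P : Subgroup G) ≤ centralizer ({t} : Set G) :=
    le_trans Subgroup.le_normalizer hNX
  have hcardX := SylSub.card_eq_inf_normalizer_mul P (centralizer ({t} : Set G)) hPX
  have hinf : centralizer ({t} : Set G) ⊓ normalizer ((P : Subgroup G) : Set G) =
      normalizer ((P : Subgroup G) : Set G) := inf_eq_right.mpr hNX
  rw [hinf, hN] at hcardX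
  have hmodX := SylSub.card_sylow_mod 13 (centralizer ({t} : Set G))
  have hXdvd : Nat.card (centralizer ({t} : Set G)) ∣ 5460 :=
    h ▸ Subgroup.card_subgroup_dvd_card (centralizer ({t} : Set G))
  have hm : Nat.card (Sylow 13 (centralizer ({t} : Set G))) = 1 ∨
      Nat.card (Sylow 13 (centralizer ({t} : Set G))) = 105 := by
    rw [hcardX] at hXdvd
    have h3 : (5460 : ℕ) = 52 * 105 := by norm_num
    rw [h3] at hXdvd
    have hd := Nat.dvd_of_mul_dvd_mul_left (by norm_num) hXdvd
    exact o983_arith_105 _ hd hmodX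
  refine ⟨t, hto, ?_⟩
  rcases hm with hm | hm
  · rw [hcardX, hm]
  · exfalso
    rw [hm] at hcardX
    have hXtop : centralizer ({t} : Set G) = ⊤ := by
      apply Subgroup.eq_top_of_card_eq
      rw [hcardX, h]
    have htcen : t ∈ Subgroup.center G := by
      rw [Subgroup.mem_center_iff]
      intro g
      have hg : g ∈ centralizer ({t} : Set G) := hXtop ▸ Subgroup.mem_top g
      rw [Subgroup.mem_centralizer_iff] at hg
      exact (hg t rfl).symm
    have hcn : (Subgroup.center G).Normal := inferInstance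
    rcases hcn.eq_bot_or_eq_top with hb | htop
    · rw [hb, Subgroup.mem_bot] at htcen
      exact ht1 htcen
    · obtain ⟨a', b', hab'⟩ := hna
      have ha' : b' ∈ Subgroup.center G := htop ▸ Subgroup.mem_top b'
      rw [Subgroup.mem_center_iff] at ha'
      exact hab' (ha' a')

end Cfsg.Agent.Helper85
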