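import Mathlib
import Cfsg.Agent.Helper9.OrdTools
import Cfsg.Agent.Helper9.OrdTools2
import Cfsg.Agent.Helper8.SylFix
import Cfsg.Agent.Helper82.SylCent

/-!
# CALL S0983 (helper82), piece B4200 (helper85)
-/

set_option autoImplicit false
set_option linter.style.haveILetI false

namespace Cfsg.Agent.Helper85

open Subgroup Cfsg.Agent.Helper9 Cfsg.Agent.Helper8

variable {G : Type*} [Group G] [Finite G]

/-- an element of prime power order `q ^ k` fixes `≡ |X| (mod q)` points. -/
theorem o983_card_fixedBy_modEq {X : Type*} [MulAction G X] [Finite X] {q k : ℕ}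
    [Fact q.Prime] (s : G) (hs : orderOf s = q ^ k) :
    Nat.card X ≡ Nat.card (MulAction.fixedBy X s) [MOD q] := by
  have hz : IsPGroup q (zpowers s) := IsPGroup.of_card (n := k) (by rw [Nat.card_zpowers, hs])
  have h := hz.card_modEq_card_fixedPoints X
  have heq : MulAction.fixedPoints (zpowers s) X = MulAction.fixedBy X s := by
    ext Q
    constructor
    · intro hQ
      exact hQ ⟨s, Subgroup.mem_zpowers s⟩
    · intro hQ g
      have hle : zpowers s ≤ MulAction.stabilizer G Q :=
        (Subgroup.zpowers_le).mpr (MulAction.mem_stabilizer_iff.mpr hQ)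
      exact MulAction.mem_stabilizer_iff.mp (hle g.2)
  rw [heq] at h
  exact h

/-- if `x` of prime order `q` fixes no point and commutes with `t`, then `q ∣ #Fix(t)`. -/
theorem o983_dvd_card_fixedBy {X : Type*} [MulAction G X] [Finite X] {q : ℕ} [Fact q.Prime]
    (x t : G) (hx : orderOf x = q) (hxt : x * t = t * x) (hfree : ∀ a : X, x • a ≠ a) :
    q ∣ Nat.card (MulAction.fixedBy X t) := by
  have hz : IsPGroup q (zpowers x) :=
    IsPGroup.of_card (n := 1) (by rw [Nat.card_zpowers, hx, pow_one])
  have hcomm : ∀ c ∈ zpowers x, c * t = t * c := by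
    intro c hc
    have hle : zpowers x ≤ centralizer ({t} : Set G) := by
      rw [Subgroup.zpowers_le, Subgroup.mem_centralizer_iff]
      intro y hy
      rw [Set.mem_singleton_iff] at hy
      rw [hy]
      exact hxt.symm
    exact (Subgroup.mem_centralizer_iff.mp (hle hc) t rfl).symm
  let S₀ : SubMulAction (↥(zpowers x)) X :=
    { carrier := MulAction.fixedBy X t
      smul_mem' := by
        intro c a ha
        rw [MulAction.mem_fixedBy] at ha
        change t • ((c : G) • a) = (c : G) • a
        rw [← mul_smul, ← hcomm c c.2, mul_smul, ha] }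
  have h := hz.card_modEq_card_fixedPoints (↥S₀)
  have hzero : Nat.card (MulAction.fixedPoints (↥(zpowers x)) (↥S₀)) = 0 := by
    haveI : IsEmpty (MulAction.fixedPoints (↥(zpowers x)) (↥S₀)) := by
      constructor
      rintro ⟨a, ha⟩
      have := ha ⟨x, mem_zpowers x⟩
      exact hfree a.1 (congrArg Subtype.val this)
    exact Nat.card_of_isEmpty
  rw [hzero] at h
  exact (Nat.modEq_zero_iff_dvd).mp h

theorem o983_arith_4200 : ∀ n, n ∣ 600 → n % 7 = 1 →
    n = 1 ∨ n = 8 ∨ n = 15 ∨ n = 50 ∨ n = 120 := by
  intro n hn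
  have hle : n ≤ 600 := Nat.le_of_dvd (by norm_num) hn
  revert hn
  have key : ∀ n ≤ 600, n ∣ 600 → n % 7 = 1 →
      n = 1 ∨ n = 8 ∨ n = 15 ∨ n = 50 ∨ n = 120 := by
    decide +kernel
  exact key n hle

variable [IsSimpleGroup G]

/-- piece B4200 -/
theorem o4200_b (h : Nat.card G = 4200) (H : Subgroup G) (hH : Nat.card H = 300) : False := by
  classical
  haveI : Fact (Nat.Prime 7) := ⟨by norm_num⟩
  haveI : Fact (Nat.Prime 5) := ⟨by norm_num⟩
  haveI : Fact (Nat.Prime 2) := ⟨by norm_num⟩
  obtain ⟨P⟩ : Nonempty (Sylow 7 G) := inferInstance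
  have hP : Nat.card (P : Subgroup G) = 7 := by
    have := OrdTools.sylow_card (p := 7) 1 600 (by rw [h]; norm_num) (by norm_num) P
    simpa using this
  have hna : ∃ a b : G, a * b ≠ b * a := by
    by_contra hcon
    push Not at hcon
    have hn : (P : Subgroup G).Normal :=
      ⟨fun n hn g => by rw [hcon g n, mul_inv_cancel_right]; exact hn⟩
    rcases hn.eq_bot_or_eq_top with h' | h'
    · rw [h', Subgroup.card_bot] at hP; omega
    · rw [h', Subgroup.card_top, h] at hP; omega
  obtain ⟨hdvd, hmod, hne1, hNn⟩ :=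
    OrdTools.sylow_num P (by rw [hP]; norm_num) (by rw [hP, h]; norm_num)
  have hidx : (P : Subgroup G).index = 600 := by
    have := (P : Subgroup G).card_mul_index
    rw [hP, h] at this
    omega
  rw [hidx] at hdvd
  rw [h] at hNn
  obtain ⟨e, he6, he1, heq, h7C⟩ :=
    OrdTools.normalizer_centralizer_prime P hP (by rw [h]; norm_num)
  have he : e ≤ 6 := Nat.le_of_dvd (by norm_num) he6
  have he6' : e ∣ 6 := he6
  obtain ⟨c', hc'⟩ := h7C
  have h2C : 2 ∣ Nat.card (centralizer ((P : Subgroup G) : Set G)) := by
    rcases o983_arith_4200 _ hdvd hmod with hn | hn | hn | hn | hn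
    · exact absurd hn hne1
    · -- n = 8
      exfalso
      have hi : (normalizer ((P : Subgroup G) : Set G)).index = 8 := by
        have h1 : Nat.card (Sylow 7 G) = (normalizer ((P : Subgroup G) : Set G)).index :=
          Sylow.card_eq_index_normalizer P
        rw [← h1, hn]
      have htop : normalizer ((P : Subgroup G) : Set G) ≠ ⊤ := by
        intro ht
        rw [ht, Subgroup.index_top] at hi
        omega
      have := OrdTools.card_dvd_factorial_index _ htop
      rw [hi, h] at this
      have h8 : Nat.factorial 8 = 40320 := by decide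
      rw [h8] at this
      omega
    · -- n = 15
      exfalso
      rw [hn] at hNn
      have hN : Nat.card (normalizer ((P : Subgroup G) : Set G)) = 280 := by omega
      rw [hN] at heq
      have h5 : 5 ∣ Nat.card (centralizer ((P : Subgroup G) : Set G)) := by
        rw [hc'] at heq ⊢
        interval_cases e <;> omega
      obtain ⟨y, hy⟩ := exists_prime_orderOf_dvd_card'
        (G := ↥(centralizer ((P : Subgroup G) : Set G))) 5 h5
      have hyo : orderOf (y : G) = 5 := by rw [Subgroup.orderOf_coe]; exact hy
      have := Cfsg.Agent.Helper82.prime_mul_lt_card_sylow (p := 7) (r := 5) (by norm_num) P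
        (y : G) y.2 hyo (by rw [hn]; norm_num)
      rw [hn] at this
      omega
    · -- n = 50
      rw [hn] at hNn
      have hN : Nat.card (normalizer ((P : Subgroup G) : Set G)) = 84 := by omega
      rw [hN] at heq
      rw [hc'] at heq ⊢
      interval_cases e <;> omega
    · -- n = 120
      exfalso
      rw [hn] at hNn
      have hN : Nat.card (normalizer ((P : Subgroup G) : Set G)) = 35 := by omega
      rw [hN, hc'] at heq
      interval_cases e <;> omega
  obtain ⟨t, ht⟩ := exists_prime_orderOf_dvd_card'
    (G := ↥(centralizer ((P : Subgroup G) : Set G))) 2 h2C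
  obtain ⟨x, hx⟩ := exists_prime_orderOf_dvd_card' (G := ↥(P : Subgroup G)) 7 (by rw [hP])
  have hxo : orderOf (x : G) = 7 := by rw [Subgroup.orderOf_coe]; exact hx
  have hto : orderOf (t : G) = 2 := by rw [Subgroup.orderOf_coe]; exact ht
  have hxt : (x : G) * (t : G) = (t : G) * (x : G) :=
    Subgroup.mem_centralizer_iff.mp t.2 (x : G) x.2
  -- the action on G ⧸ H
  have hHidx : H.index = 14 := by
    have := H.card_mul_index
    rw [hH, h] at this
    omega
  have hX : Nat.card (G ⧸ H) = 14 := by rw [← Subgroup.index_eq_card, hHidx]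
  have hHtop : H ≠ ⊤ := by
    intro ht'
    rw [ht', Subgroup.index_top] at hHidx
    omega
  have hstab : ∀ q : G ⧸ H, Nat.card (MulAction.stabilizer G q) = 300 := by
    intro q
    have h1 := MulAction.index_stabilizer_of_transitive G q
    have h2 := (MulAction.stabilizer G q).card_mul_index
    rw [h1, hX, h] at h2
    omega
  have hfree : ∀ a : G ⧸ H, (x : G) • a ≠ a := by
    intro a ha
    have hmem : (x : G) ∈ MulAction.stabilizer G a := MulAction.mem_stabilizer_iff.mpr ha
    have := Subgroup.orderOf_dvd_natCard _ hmem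
    rw [hxo, hstab] at this
    omega
  have h7 := o983_dvd_card_fixedBy (X := G ⧸ H) (x : G) (t : G) hxo hxt hfree
  have h2 := o983_card_fixedBy_modEq (X := G ⧸ H) (q := 2) (k := 1) (t : G)
    (by rw [hto, pow_one])
  rw [hX] at h2
  have hle : Nat.card (MulAction.fixedBy (G ⧸ H) (t : G)) ≤ Nat.card (G ⧸ H) :=
    Nat.card_le_card_of_injective
      (fun a : MulAction.fixedBy (G ⧸ H) (t : G) => (a : G ⧸ H)) Subtype.coe_injective
  rw [hX] at hle
  have hcases : Nat.card (MulAction.fixedBy (G ⧸ H) (t : G)) = 0 ∨
      Nat.card (MulAction.fixedBy (G ⧸ H) (t : G)) = 14 := by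
    obtain ⟨m, hm⟩ := h7
    unfold Nat.ModEq at h2
    omega
  haveI : Fintype (G ⧸ H) := Fintype.ofFinite _
  have ht2 : (t : G) ^ 2 = 1 := by rw [← hto]; exact pow_orderOf_eq_one _
  rcases hcases with h0 | h14
  · have hσ2 : (MulAction.toPermHom G (G ⧸ H) (t : G)) ^ 2 = 1 := by
      rw [← map_pow, ht2, map_one]
    have hsign : Equiv.Perm.sign (MulAction.toPermHom G (G ⧸ H) (t : G)) = 1 :=
      OrdTools.hom_trivial hna (Equiv.Perm.sign.comp (MulAction.toPermHom G (G ⧸ H))) (t : G)
    have e : Fintype.card (Function.fixedPoints (MulAction.toPermHom G (G ⧸ H) (t : G))) = 0 := by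
      rw [← h0, ← Nat.card_eq_fintype_card]
      rfl
    have := SylFix.sign_of_involution (MulAction.toPermHom G (G ⧸ H) (t : G)) hσ2 7
      (by rw [e, ← Nat.card_eq_fintype_card, hX]) (by decide)
    rw [hsign] at this
    exact absurd this (by decide)
  · have hbij := Function.Injective.bijective_of_nat_card_le
      (f := fun a : MulAction.fixedBy (G ⧸ H) (t : G) => (a : G ⧸ H)) Subtype.coe_injective
      (by rw [h14, hX])
    have ht1 : (t : G) = 1 := by
      apply OrdTools.toPermHom_injective H hHtop
      rw [map_one]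
      ext a
      obtain ⟨b, hb⟩ := hbij.2 a
      have := b.2
      rw [MulAction.mem_fixedBy] at this
      rw [← hb]
      exact this
    rw [ht1, orderOf_one] at hto
    omega

end Cfsg.Agent.Helper85
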