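import Mathlib
import Cfsg.Agent.Helper9.OrdTools
import Cfsg.Agent.Helper9.OrdTools2
import Cfsg.Agent.Helper82.SylCent

/-!
# CALL S0983 (helper82), piece B4680 (helper85)
-/

set_option autoImplicit false
set_option linter.style.haveILetI false

namespace Cfsg.Agent.Helper85

open Subgroup Cfsg.Agent.Helper9

variable {G : Type*} [Group G] [Finite G] [IsSimpleGroup G]

theorem o983_arith_4680 : ∀ n, n ∣ 936 → n % 5 = 1 →
    n = 1 ∨ n = 6 ∨ n = 26 ∨ n = 36 ∨ n = 156 ∨ n = 936 := by
  intro n hn
  have hle : n ≤ 936 := Nat.le_of_dvd (by norm_num) hn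
  revert hn
  have key : ∀ n ≤ 936, n ∣ 936 → n % 5 = 1 →
      n = 1 ∨ n = 6 ∨ n = 26 ∨ n = 36 ∨ n = 156 ∨ n = 936 := by
    decide +kernel
  exact key n hle

/-- piece B4680 -/
theorem o4680_b (h : Nat.card G = 4680) :
    ∃ x y : G, orderOf x = 5 ∧ orderOf y = 3 ∧ x * y = y * x := by
  classical
  haveI : Fact (Nat.Prime 5) := ⟨by norm_num⟩
  haveI : Fact (Nat.Prime 3) := ⟨by norm_num⟩
  haveI : Fact (Nat.Prime 13) := ⟨by norm_num⟩
  obtain ⟨P⟩ : Nonempty (Sylow 5 G) := inferInstance
  have hP : Nat.card (P : Subgroup G) = 5 := by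
    have := OrdTools.sylow_card (p := 5) 1 936 (by rw [h]; norm_num) (by norm_num) P
    simpa using this
  obtain ⟨hdvd, hmod, hne1, hNn⟩ :=
    OrdTools.sylow_num P (by rw [hP]; norm_num) (by rw [hP, h]; norm_num)
  have hidx : (P : Subgroup G).index = 936 := by
    have := (P : Subgroup G).card_mul_index
    rw [hP, h] at this
    omega
  rw [hidx] at hdvd
  rw [h] at hNn
  obtain ⟨e, he4, he1, heq, h5C⟩ :=
    OrdTools.normalizer_centralizer_prime P hP (by rw [h]; norm_num)
  have he : e ≤ 4 := Nat.le_of_dvd (by norm_num) he4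
  have he4' : e ∣ 4 := he4
  obtain ⟨c', hc'⟩ := h5C
  -- it suffices to show that `3 ∣ |C(P)|`
  have hfin : 3 ∣ Nat.card (centralizer ((P : Subgroup G) : Set G)) →
      ∃ x y : G, orderOf x = 5 ∧ orderOf y = 3 ∧ x * y = y * x := by
    intro h3
    obtain ⟨y, hy⟩ := exists_prime_orderOf_dvd_card'
      (G := ↥(centralizer ((P : Subgroup G) : Set G))) 3 h3
    obtain ⟨x, hx⟩ := exists_prime_orderOf_dvd_card'
      (G := ↥(P : Subgroup G)) 5 (by rw [hP])
    refine ⟨(x : G), (y : G), ?_, ?_, ?_⟩
    · rw [Subgroup.orderOf_coe]; exact hx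
    · rw [Subgroup.orderOf_coe]; exact hy
    · exact Subgroup.mem_centralizer_iff.mp y.2 (x : G) x.2
  rcases o983_arith_4680 _ hdvd hmod with hn | hn | hn | hn | hn | hn
  · exact absurd hn hne1
  · -- n = 6
    exfalso
    have hi : (normalizer ((P : Subgroup G) : Set G)).index = 6 := by
      have h1 : Nat.card (Sylow 5 G) = (normalizer ((P : Subgroup G) : Set G)).index :=
        Sylow.card_eq_index_normalizer P
      rw [← h1, hn]
    have htop : normalizer ((P : Subgroup G) : Set G) ≠ ⊤ := by
      intro ht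
      rw [ht, Subgroup.index_top] at hi
      omega
    have := OrdTools.card_dvd_factorial_index _ htop
    rw [hi, h] at this
    have h6 : Nat.factorial 6 = 720 := by decide
    rw [h6] at this
    omega
  · -- n = 26
    apply hfin
    rw [hn] at hNn
    have hN : Nat.card (normalizer ((P : Subgroup G) : Set G)) = 180 := by omega
    rw [hN] at heq
    rw [hc'] at heq ⊢
    interval_cases e <;> omega
  · -- n = 36
    exfalso
    rw [hn] at hNn
    have hN : Nat.card (normalizer ((P : Subgroup G) : Set G)) = 130 := by omega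
    rw [hN] at heq
    have h13 : 13 ∣ Nat.card (centralizer ((P : Subgroup G) : Set G)) := by
      rw [hc'] at heq ⊢
      interval_cases e <;> omega
    obtain ⟨y, hy⟩ := exists_prime_orderOf_dvd_card'
      (G := ↥(centralizer ((P : Subgroup G) : Set G))) 13 h13
    have hyo : orderOf (y : G) = 13 := by rw [Subgroup.orderOf_coe]; exact hy
    have := Cfsg.Agent.Helper82.prime_mul_lt_card_sylow (p := 5) (r := 13) (by norm_num) P
      (y : G) y.2 hyo (by rw [hn]; norm_num)
    rw [hn] at this
    omega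
  · -- n = 156
    apply hfin
    rw [hn] at hNn
    have hN : Nat.card (normalizer ((P : Subgroup G) : Set G)) = 30 := by omega
    rw [hN] at heq
    rw [hc'] at heq ⊢
    interval_cases e <;> omega
  · -- n = 936
    exfalso
    rw [hn] at hNn
    have hN : Nat.card (normalizer ((P : Subgroup G) : Set G)) = 5 := by omega
    rw [hN] at heq
    rw [hc'] at heq
    interval_cases e <;> omega

end Cfsg.Agent.Helper85
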