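import Cfsg.Agent.Helper85.CEDefs

set_option autoImplicit false
set_option maxHeartbeats 1000000
open Cfsg

namespace Cfsg.Agent.Helper85

open Cfsg.FusionSystem
open Cfsg.Agent.Helper88

variable {Ω : Type*} [Group Ω] {S : Subgroup Ω}

/-- (double of piece CONV) the extension condition in the form of the Prelude -/
theorem ce_conv85 [Finite S] {F : FusionSystem S} {Y : Subgroup Ω} (hYS : Y ≤ S) {a : MulAut Y}
    (h : CGood F Y (autFun a)) :
    ∃ β ∈ F.autGroup (Y ⊔ centralizerIn S Y),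
      (∀ x : Y, ((β (Subgroup.inclusion le_sup_left x) : ↥(Y ⊔ centralizerIn S Y)) : Ω) =
        ((a x : Y) : Ω)) ∧
      ∀ c : ↥(Y ⊔ centralizerIn S Y), (c : Ω) ∈ centralizerIn S Y →
        (c : Ω)⁻¹ * ((β c : ↥(Y ⊔ centralizerIn S Y)) : Ω) ∈
          Y ⊓ Subgroup.centralizer (Y : Set Ω) := by
  obtain ⟨φ, hφ, hφY, hφC⟩ := h
  have hmaps := cs_mapsTo hφ hφY
  have hφ' : IsMap F (Y ⊔ centralizerIn S Y) φ := by rw [sup_comm]; exact hφ
  have hmaps' : ∀ y ∈ Y ⊔ centralizerIn S Y, φ y ∈ Y ⊔ centralizerIn S Y := by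
    intro y hy
    rw [sup_comm] at hy ⊢
    exact hmaps y hy
  have hfin : Finite ↥(Y ⊔ centralizerIn S Y) := Helper88.finite_of_le hφ'.le
  obtain ⟨β, hβ, hβv⟩ := hφ'.exists_aut (hφ'.img_eq_of_mapsTo hmaps')
  refine ⟨β, hβ, fun x => ?_, fun c hc => ?_⟩
  · have h1 := hβv x (Subgroup.mem_sup_left x.2)
    rw [autFun_apply' β (Subgroup.mem_sup_left x.2), hφY x x.2, autFun_apply' a x.2] at h1
    exact h1
  · have h1 := hβv c c.2
    rw [autFun_apply' β c.2] at h1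
    have h2 : ((β c : ↥(Y ⊔ centralizerIn S Y)) : Ω) = φ c := h1
    rw [h2]
    refine ⟨hφC c hc, ?_⟩
    have hφc : φ c ∈ centralizerIn S Y := cs_cent_mem_aut hφ hφY hc
    show (c : Ω)⁻¹ * φ c ∈ Subgroup.centralizer (Y : Set Ω)
    rw [Subgroup.mem_centralizer_iff]
    intro y hy
    have e1 := (mem_centralizerIn_iff.1 hc).2 y hy
    have e2 := (mem_centralizerIn_iff.1 hφc).2 y hy
    have e3 : y * (c : Ω)⁻¹ = (c : Ω)⁻¹ * y := by
      rw [eq_inv_mul_iff_mul_eq, ← mul_assoc, ← e1, mul_assoc, mul_inv_cancel, mul_one]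
    rw [← mul_assoc, e3, mul_assoc, e2, mul_assoc]

end Cfsg.Agent.Helper85
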