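import Cfsg.Agent.Helper85.CXMain

set_option autoImplicit false
open Cfsg

/-! # Definitions for the normality of the centralizer subsystem `C_F(E)` (S5155)

`CXE F T C n`: maps of `F` defined on `D` with `n ≤ |D ∩ T|` agree on `D ∩ C` with a map of `F`
defined on `T ⊔ (D ∩ C)`.  `CXExtT F T C`: every map of `F` defined on a subgroup of `C` extends to
the join with `T`. -/

namespace Cfsg.Agent.Helper85

open Cfsg.FusionSystem
open Cfsg.Agent.Helper88

variable {Ω : Type*} [Group Ω] {S : Subgroup Ω}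

/-- every map of `F` defined on a subgroup `D` with `n ≤ |D ∩ T|` agrees on `D ∩ C` with a map of `F`
defined on `T ⊔ (D ∩ C)` -/
def CXE (F : FusionSystem S) (T C : Subgroup Ω) (n : ℕ) : Prop :=
  ∀ (D : Subgroup Ω) (f : Ω → Ω), IsMap F D f → n ≤ Nat.card ↥(D ⊓ T) →
    ∃ f', IsMap F (T ⊔ (D ⊓ C)) f' ∧ ∀ x ∈ D ⊓ C, f' x = f x

/-- piece L2E -/
def CXL2E (F : FusionSystem S) (p : ℕ) (T C : Subgroup Ω) (n : ℕ) : Prop :=
  ∀ (R R' X X' : Subgroup Ω) (f : Ω → Ω), IsMap F R f → img R f = R' → F.IsFullyAutomized p R' →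
    F.IsReceptive R' → Nat.card ↥(R ⊓ T) = n → X ≤ C → X ≤ R → R ≤ (R ⊓ T) ⊔ X → X' ≤ C →
    R' ≤ (R' ⊓ T) ⊔ X' → ∃ f', IsMap F (T ⊔ X) f' ∧ ∀ x ∈ X, f' x = f x

/-- every map of `F` defined on a subgroup of `C` extends to a map of `F` on the join with `T` -/
def CXExtT (F : FusionSystem S) (T C : Subgroup Ω) : Prop :=
  ∀ (P : Subgroup Ω) (f : Ω → Ω), IsMap F P f → P ≤ C →
    ∃ f', IsMap F (T ⊔ P) f' ∧ ∀ x ∈ P, f' x = f x

/-- for a given largest `C`: all maps of `F` carry `D ∩ C` into `C`, and maps on `T` extend to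
`T C_S(T)` preserving `C` -/
theorem cx_M0 [Finite S] {p : ℕ} [Fact p.Prime] (hS : IsPGroup p S) {F : FusionSystem S}
    {T : Subgroup Ω} {E : FusionSystem T} (hE : E.IsNormalIn F p) {C : Subgroup Ω}
    (hC : InCX F E C) (hmax : ∀ Y : Subgroup Ω, InCX F E Y → Y ≤ C) :
    CXM F T C 0 ∧ CXAhat F T C := by
  have hF := hE.1.2.1
  have hinv := hE.1.2.2
  have hT := hinv.2.1
  have hTS : T ≤ S := hT.1
  have hfinT : Finite T := finite_of_le hTS
  have hah := Cfsg.Agent.Helper86.CXAHAT.cx_ahat hS hF hinv hC hmax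
  have hbase := Cfsg.Agent.Helper86.CXBASE.cx_base hS hE hC hmax hah
  have hTn : ∀ s ∈ S, ∀ t ∈ T, s * t * s⁻¹ ∈ T := fun s hs t ht =>
    sc_apply_mem hT (isMap_conj F hTS hs) ht ht
  have hgrow := Cfsg.Agent.Helper3.CXGROW.cx_grow hS hTS hTn
  have hin := cx_inner hS hT
  have key : ∀ d : ℕ, d ≤ Nat.card T → CXM F T C (Nat.card T - d) := by
    intro d
    induction d with
    | zero => intro _; simpa using hbase
    | succ d ih =>
      intro hd
      have hM := ih (by omega)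
      have hn : Nat.card T - (d + 1) < Nat.card T := by omega
      have e : Nat.card T - (d + 1) + 1 = Nat.card T - d := by omega
      rw [← e] at hM
      exact cx_step hS hF hT hgrow hn hM
        (Cfsg.Agent.Helper29.CXL2.cx_L2 hS hinv hC hah hin (cx_ext F)
          (Cfsg.Agent.Helper3.CXCOMM.cx_comm Ω) hn hM)
  exact ⟨by simpa using key (Nat.card T) le_rfl, hah⟩

/-- `C` is strongly closed once all maps carry `D ∩ C` into `C` -/
theorem cx_sc_of_M0 {F : FusionSystem S} {T C : Subgroup Ω} (hCS : C ≤ S) (h0 : CXM F T C 0) :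
    F.StronglyClosed C := by
  refine ⟨hCS, fun R hRC φ hφ x => ?_⟩
  have h := h0 R (extHom φ) (isMap_extHom hφ) (Nat.zero_le _) x x.2 (hRC x.2)
  rwa [extHom_apply] at h

end Cfsg.Agent.Helper85
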