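import Cfsg.Agent.Helper85.CEDefs
import Cfsg.Agent.Helper85.DirProdA
import Cfsg.Agent.S5120

set_option autoImplicit false
set_option maxHeartbeats 1000000
open Cfsg

namespace Cfsg.Agent.Helper85

open Cfsg.FusionSystem
open Cfsg.Agent.Helper88

variable {Ω : Type*} [Group Ω] {S : Subgroup Ω}

/-- conjugation by a map of `F` defined on `R ≤ Y` (which extends over `T`) carries maps of `C_F(T)`
on `R` to maps of `C_F(T)` -/
theorem ce_cmap_conj [Finite S] {F : FusionSystem S} {T : Subgroup Ω}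
    (hT : F.StronglyClosed T) {Y : Subgroup Ω} (hYT : Y ≤ centralizerIn S T) (hext : CXExtT F T Y)
    {R : Subgroup Ω} (hRY : R ≤ Y) {g : Ω → Ω} (hg : IsMap F R g) (hgY : img R g ≤ Y)
    {γ δ : Ω → Ω} (hγ : IsCMap F T R γ) (hδγ : ∀ x ∈ R, δ (g x) = g (γ x))
    (hγR : ∀ x ∈ R, γ x ∈ R) : IsCMap F T (img R g) δ := by
  obtain ⟨g', hg', hg'R⟩ := hext R g hg hRY
  obtain ⟨-, -, -, γ', hγ', hγ'R, hγ'T⟩ := hγ
  obtain ⟨gi, hgi, hgi1, hgi2, -⟩ := hg'.exists_inv
  have himgT : img T g' = T := sc_img_eq hT (hg'.restrict le_sup_left)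
  have himg : img (T ⊔ R) g' = T ⊔ img R g := by rw [hg'.img_sup, himgT, img_congr hg'R]
  have hγ'' : IsMap F (T ⊔ R) γ' := by rw [sup_comm]; exact hγ'
  have hmaps : ∀ x ∈ T ⊔ R, γ' x ∈ T ⊔ R :=
    hγ''.mapsTo_sup (fun t ht => by rw [hγ'T t ht]; exact Subgroup.mem_sup_left ht)
      (fun x hx => by rw [hγ'R x hx]; exact Subgroup.mem_sup_right (hγR x hx))
  have hcomp : IsMap F (img (T ⊔ R) g') (g' ∘ γ' ∘ gi) :=
    (hgi.comp hγ'' (fun y hy => (hgi2 y hy).1)).comp hg' (fun y hy => hmaps _ (hgi2 y hy).1)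
  rw [himg] at hcomp
  have hval : ∀ x ∈ R, (g' ∘ γ' ∘ gi) (g x) = δ (g x) := by
    intro x hx
    calc g' (γ' (gi (g x))) = g' (γ' (gi (g' x))) := by rw [hg'R x hx]
      _ = g' (γ' x) := by rw [hgi1 x (Subgroup.mem_sup_right hx)]
      _ = g' (γ x) := by rw [hγ'R x hx]
      _ = g (γ x) := hg'R _ (hγR x hx)
      _ = δ (g x) := (hδγ x hx).symm
  have hvalT : ∀ z ∈ T, (g' ∘ γ' ∘ gi) z = z := by
    intro z hz
    have hz' : z ∈ img T g' := by rw [himgT]; exact hz
    obtain ⟨t, ht, rfl⟩ := (hg'.restrict le_sup_left).mem_img.1 hz'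
    show g' (γ' (gi (g' t))) = g' t
    rw [hgi1 t (Subgroup.mem_sup_left ht), hγ'T t ht]
  refine ⟨?_, hgY.trans hYT, ?_, g' ∘ γ' ∘ gi, ?_, ?_, hvalT⟩
  · refine (hcomp.restrict le_sup_right).congr (fun y hy => ?_)
    obtain ⟨x, hx, rfl⟩ := hg.mem_img.1 hy
    exact (hval x hx).symm
  · intro y hy
    obtain ⟨x, hx, rfl⟩ := hg.mem_img.1 hy
    rw [hδγ x hx]
    exact hYT (hgY (hg.apply_mem_img (hγR x hx)))
  · rw [sup_comm]; exact hcomp
  · intro y hy
    obtain ⟨x, hx, rfl⟩ := hg.mem_img.1 hy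
    exact hval x hx

/-- (double of piece INV) the `p`-power index subsystem `D` of `C_F(T)` over `Y` is invariant under
`Aut_F(Y)` -/
theorem ce_inv85 [Finite S] {p : ℕ} [Fact p.Prime] (hS : IsPGroup p S) {F : FusionSystem S}
    {T : Subgroup Ω} (hTS : T ≤ S) (hT : F.StronglyClosed T) {Y : Subgroup Ω}
    (hYT : Y ≤ centralizerIn S T) (D : FusionSystem Y) (hDs : D.IsSaturated p)
    (hDi : D.HasPPowerIndexIn (centralizerSystem F T hTS) p) (hext : CXExtT F T Y)
    {a : MulAut Y} (ha : a ∈ F.autGroup Y) {P : Subgroup Ω} {f : Ω → Ω} (hf : IsMap D P f) :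
    IsMap D (img P (autFun a)) (autFun a ∘ f ∘ autFun a⁻¹) := by
  have hYS : Y ≤ S := hYT.trans inf_le_left
  have hfY : Finite Y := Helper88.finite_of_le hYS
  have hY : IsPGroup p Y := hS.to_le hYS
  have ham : IsMap F Y (autFun a) := IsMap.of_mem_autGroup hYS ha
  have hF₁F : ∀ {P : Subgroup Ω} {f : Ω → Ω}, IsMap (centralizerSystem F T hTS) P f → IsMap F P f :=
    fun h => ((isMap_centSys_iff F hTS).1 h).1
  refine Helper88.alperin_induction hY hDs
    (fun P f => IsMap D (img P (autFun a)) (autFun a ∘ f ∘ autFun a⁻¹)) ?_ ?_ ?_ hf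
  · intro R hRa _ _ _ α hα P hP
    have hRY : R ≤ Y := hRa.1
    have hRS : R ≤ S := hRY.trans hYS
    have hfR : Finite R := Helper88.finite_of_le hRS
    have haR : IsMap F R (autFun a) := ham.restrict hRY
    have hR'Y : img R (autFun a) ≤ Y := by
      intro y hy
      obtain ⟨x, hx, rfl⟩ := haR.mem_img.mp hy
      exact autFun_mem a (hRY hx)
    suffices h : IsMap D (img R (autFun a)) (autFun a ∘ autFun α ∘ autFun a⁻¹) from
      h.restrict (haR.img_restrict_le hP)
    obtain ⟨P₀, hP₀⟩ := hRa.2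
    obtain ⟨σ, hσ, β, hβ, hαeq⟩ := exists_sylow_mul_pResidual P₀ ⟨α, hα⟩
    have hαeq' : α = (σ : MulAut R) * (β : MulAut R) := congrArg Subtype.val hαeq
    rw [hP₀, Subgroup.mem_subgroupOf] at hσ
    obtain ⟨t, ht, htc⟩ := (Helper88.mem_autInducedBy_iff Y R _).1 hσ
    have hleF : D.autGroup R ≤ F.autGroup R := by
      intro γ hγ
      exact (Helper88.mem_autGroup_iff F hRS γ).2
        (hF₁F (isMap_of_isSubsystemOf hDi.1 ((Helper88.mem_autGroup_iff D hRY γ).1 hγ)))
    obtain ⟨Φ, hΦ⟩ := exists_autHom_of_isMap F haR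
    have hΨmem : ∀ γ : D.autGroup R,
        ((F.autGroup (img R (autFun a))).subtype.comp (Φ.comp (Subgroup.inclusion hleF))) γ ∈
          (centralizerSystem F T hTS).autGroup (img R (autFun a)) := by
      intro γ
      rw [Helper88.mem_autGroup_iff _ (hR'Y.trans hYT), isMap_centSys_iff]
      have hγD : IsMap D R (autFun (γ : MulAut R)) := (Helper88.mem_autGroup_iff D hRY _).1 γ.2
      have hγC : IsCMap F T R (autFun (γ : MulAut R)) :=
        (isMap_centSys_iff F hTS).1 (isMap_of_isSubsystemOf hDi.1 hγD)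
      exact ce_cmap_conj hT hYT hext hRY haR hR'Y hγC
        (fun x hx => hΦ (Subgroup.inclusion hleF γ) x hx) (fun x hx => autFun_mem _ hx)
    have hβ' : (((F.autGroup (img R (autFun a))).subtype.comp
        (Φ.comp (Subgroup.inclusion hleF))).codRestrict _ hΨmem) β ∈
          pResidual p ((centralizerSystem F T hTS).autGroup (img R (autFun a))) :=
      Cfsg.Agent.Helper86.map_pResidual_mem' p _ hβ
    have hβE : (((Φ.comp (Subgroup.inclusion hleF)) β : F.autGroup (img R (autFun a))) :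
        MulAut (img R (autFun a))) ∈ D.autGroup (img R (autFun a)) :=
      hDi.2.2 _ hR'Y ⟨_, hβ', rfl⟩
    have hβm := IsMap.of_mem_autGroup hR'Y hβE
    have hat : autFun a t ∈ Y := autFun_mem a ht
    have hcm : IsMap D (img R (autFun a)) (fun y => autFun a t * y * (autFun a t)⁻¹) :=
      isMap_conj D hR'Y hat
    refine (hβm.comp hcm (fun y hy => autFun_mem _ hy)).congr (fun y hy => ?_)
    obtain ⟨x, hx, rfl⟩ := haR.mem_img.mp hy
    have hβx : autFun (β : MulAut R) x ∈ R := autFun_mem _ hx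
    have h1 : autFun (σ : MulAut R) (autFun (β : MulAut R) x) = t * autFun (β : MulAut R) x * t⁻¹ := by
      rw [autFun_apply' _ hβx]; exact htc _
    have h2 := hΦ (Subgroup.inclusion hleF β) x hx
    show autFun a (autFun α (autFun a⁻¹ (autFun a x))) =
      autFun a t * autFun (((Φ.comp (Subgroup.inclusion hleF)) β : F.autGroup (img R (autFun a))) :
        MulAut (img R (autFun a))) (autFun a x) * (autFun a t)⁻¹
    rw [autFun_inv_apply a (hRY hx), hαeq', autFun_mul _ _ hx, h1, ham.map_conj ht (hRY hβx)]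
    congr 2
    exact h2.symm
  · intro P Q f g hf hg hCf hCg hPQ
    have hPY : P ≤ Y := hf.le
    have hQY : Q ≤ Y := hg.le
    have haP : IsMap F P (autFun a) := ham.restrict hPY
    have haQ : IsMap F Q (autFun a) := ham.restrict hQY
    refine (hCf.comp hCg (fun y hy => ?_)).congr (fun y hy => ?_)
    · obtain ⟨x, hx, rfl⟩ := haP.mem_img.mp hy
      show autFun a (f (autFun a⁻¹ (autFun a x))) ∈ img Q (autFun a)
      rw [autFun_inv_apply a (hPY hx)]
      exact haQ.apply_mem_img (hPQ x hx)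
    · obtain ⟨x, hx, rfl⟩ := haP.mem_img.mp hy
      show autFun a (g (f (autFun a⁻¹ (autFun a x)))) =
        autFun a (g (autFun a⁻¹ (autFun a (f (autFun a⁻¹ (autFun a x))))))
      rw [autFun_inv_apply a (hPY hx), autFun_inv_apply a (hf.mem hx)]
  · intro P f g hf hCf hfg
    have hPY : P ≤ Y := hf.le
    have haP : IsMap F P (autFun a) := ham.restrict hPY
    refine hCf.congr (fun y hy => ?_)
    obtain ⟨x, hx, rfl⟩ := haP.mem_img.mp hy
    show autFun a (g (autFun a⁻¹ (autFun a x))) = autFun a (f (autFun a⁻¹ (autFun a x)))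
    rw [autFun_inv_apply a (hPY hx), hfg x hx]

end Cfsg.Agent.Helper85
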