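import Cfsg.Agent.Helper85.CEDefs

set_option autoImplicit false

open Cfsg

namespace Cfsg.Agent.Helper85

open Cfsg.FusionSystem Cfsg.Agent.Helper88

variable {Ω : Type*} [Group Ω] {S : Subgroup Ω}

/-- the extension version of `cx_L2` (adapted from `Helper29.CXL2.cx_L2`) -/
theorem cx_L2e [Finite S] {p : ℕ} [Fact p.Prime] (hS : IsPGroup p S) {F : FusionSystem S}
    {T : Subgroup Ω} {E : FusionSystem T} (hinv : E.IsInvariantIn F) {C : Subgroup Ω}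
    (hC : InCX F E C) (hah : CXAhat F T C) (hin : CXInner F p T) (hext : CXExt F)
    (hcomm : CXComm Ω) {n : ℕ} (hn : n < Nat.card T) (hE : CXE F T C (n + 1)) :
    CXL2E F p T C n := by
  intro R R' X X' f hf himg hRa hRr hcard hXC hXR hR hX'C hR'
  have hT : F.StronglyClosed T := hinv.2.1
  have hTS : T ≤ S := hT.1
  have hfinT : Finite T := Helper88.finite_of_le hTS
  have hCcent : C ≤ centralizerIn S T := hC.1
  have hP'eq : img (R ⊓ T) f = R' ⊓ T := by rw [cx_img_inf hT hf, himg]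
  have hfP : IsMap F (R ⊓ T) f := hf.restrict inf_le_left
  -- (1) Frattini
  obtain ⟨α, hα, f₀, hf₀, hfα⟩ :=
    invariant_frattini hinv (inf_le_right : R ⊓ T ≤ T) hfP
  -- (2) extend f₀ fixing C
  obtain ⟨e', he', he'P, he'C⟩ := hC.2 (R ⊓ T) f₀ hf₀
  -- (3) extend α to T ⊔ C_S(T)
  obtain ⟨ah, hah1, hah2, hah3, hah4⟩ := hah (autFun α) (IsMap.of_mem_autGroup hTS hα)
  -- (4) ψ := ah ∘ e'
  obtain ⟨ψ, hψ, hψP, hψC, hψah⟩ : ∃ ψ : Ω → Ω, IsMap F ((R ⊓ T) ⊔ C) ψ ∧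
      (∀ y ∈ R ⊓ T, ψ y = f y) ∧ (∀ c ∈ C, ψ c ∈ C) ∧ ∀ c ∈ C, ψ c = ah c := by
    have he'maps : ∀ y ∈ (R ⊓ T) ⊔ C, e' y ∈ T ⊔ centralizerIn S T := by
      apply he'.mapsTo_sup
      · intro y hy
        rw [he'P y hy]
        exact Subgroup.mem_sup_left (hf₀.mem hy)
      · intro c hc
        rw [he'C c hc]
        exact Subgroup.mem_sup_right (hCcent hc)
    refine ⟨ah ∘ e', he'.comp hah1 he'maps, fun y hy => ?_, fun c hc => ?_, fun c hc => ?_⟩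
    · show ah (e' y) = f y
      rw [he'P y hy, hah2 _ (hf₀.mem hy), hfα y hy]
    · show ah (e' c) ∈ C
      rw [he'C c hc]
      exact hah4 c hc
    · show ah (e' c) = ah c
      rw [he'C c hc]
  -- (5) R₂ := img R ψ, ν := f ∘ ψi
  have hRle : R ≤ (R ⊓ T) ⊔ C := hR.trans (sup_le_sup_left hXC _)
  have hψR : IsMap F R ψ := hψ.restrict hRle
  obtain ⟨ψi, hψi, hψi1, hψi2, hψi3⟩ := hψR.exists_inv
  have hfimg : IsMap F (img (img R ψ) ψi) f := by rw [hψi3]; exact hf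
  obtain ⟨ν, hν, himgν, hνdef⟩ : ∃ ν : Ω → Ω, IsMap F (img R ψ) ν ∧ img (img R ψ) ν = R' ∧
      ∀ y ∈ img R ψ, ν y = f (ψi y) := by
    refine ⟨f ∘ ψi, hψi.comp hf (fun y hy => (hψi2 y hy).1), ?_, fun y _ => rfl⟩
    rw [img_comp hψi hfimg, hψi3, himg]
  have hP'R₂ : R' ⊓ T ≤ img R ψ := by
    intro y hy
    rw [← hP'eq] at hy
    obtain ⟨y₀, hy₀, rfl⟩ := hfP.mem_img.1 hy
    rw [← hψP y₀ hy₀]
    exact hψR.apply_mem_img hy₀.1
  have hνP' : ∀ y ∈ R' ⊓ T, ν y = y := by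
    intro y hy
    have hy' := hy
    rw [← hP'eq] at hy'
    obtain ⟨y₀, hy₀, rfl⟩ := hfP.mem_img.1 hy'
    rw [hνdef _ (hP'R₂ hy), ← hψP y₀ hy₀, hψi1 y₀ hy₀.1, hψP y₀ hy₀]
  -- (6) N := N_T(P')
  have hNT : normalizerIn T (R' ⊓ T) ≤ T := inf_le_left
  have hNS : normalizerIn T (R' ⊓ T) ≤ S := hNT.trans hTS
  have hNP' : ∀ g ∈ normalizerIn T (R' ⊓ T), ∀ y ∈ R' ⊓ T, g * y * g⁻¹ ∈ R' ⊓ T := by
    intro g hg y hy
    exact (Subgroup.mem_normalizer_iff.1 (mem_normalizerIn_iff.1 hg).2 y).1 hy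
  have hψX : IsMap F X ψ := hψ.restrict (hXC.trans le_sup_right)
  have himgXC : img X ψ ≤ C := by
    intro y hy
    obtain ⟨x₀, hx₀, rfl⟩ := hψX.mem_img.1 hy
    exact hψC x₀ (hXC hx₀)
  have hψPX : IsMap F ((R ⊓ T) ⊔ X) ψ := hψ.restrict (sup_le_sup_left hXC _)
  have hR₂le : img R ψ ≤ (R' ⊓ T) ⊔ img X ψ := by
    have h1 : img R ψ ≤ img ((R ⊓ T) ⊔ X) ψ := hψPX.img_restrict_le hR
    have h2 : img (R ⊓ T) ψ = R' ⊓ T := by rw [img_congr hψP, hP'eq]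
    rw [hψPX.img_sup, h2] at h1
    exact h1
  have hcommC : ∀ Y : Subgroup Ω, Y ≤ C → ∀ g ∈ normalizerIn T (R' ⊓ T), ∀ r ∈ (R' ⊓ T) ⊔ Y,
      r⁻¹ * (g * r * g⁻¹) ∈ R' ⊓ T := by
    intro Y hY
    refine hcomm (R' ⊓ T) Y (normalizerIn T (R' ⊓ T)) hNP' ?_ ?_
    · intro c hc g hg
      exact cent_commute (hCcent (hY hc)) (hNT hg)
    · intro c hc y hy
      exact (cent_commute (hCcent (hY hc)) hy.2).symm
  have hN2 : ∀ g ∈ normalizerIn T (R' ⊓ T), ∀ r ∈ img R ψ, r⁻¹ * (g * r * g⁻¹) ∈ R' ⊓ T :=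
    fun g hg r hr => hcommC (img X ψ) himgXC g hg r (hR₂le hr)
  have hNR' : ∀ g ∈ normalizerIn T (R' ⊓ T), ∀ r ∈ R', r⁻¹ * (g * r * g⁻¹) ∈ R' ⊓ T :=
    fun g hg r hr => hcommC X' hX'C g hg r (hR' hr)
  -- (7) extend ν to N ⊔ R₂
  obtain ⟨ν', hν', hν'R⟩ := hext (img R ψ) R' (R' ⊓ T) (normalizerIn T (R' ⊓ T)) ν hRr
    (fun k hk h1 h2 => hin R' k hRa hk h1 h2) hν himgν hP'R₂ hνP' hNS hNP' hN2 hNR'
  -- (8) apply hE
  have hcardP' : Nat.card ↥(R' ⊓ T) = n := by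
    rw [← himg, cx_card_inf hT hf, hcard]
  have hne : R' ⊓ T ≠ T := by
    intro h
    rw [h] at hcardP'
    omega
  have hlt : Nat.card ↥(R' ⊓ T) < Nat.card ↥(normalizerIn T (R' ⊓ T)) :=
    card_lt_normalizerIn (S := T) (hS.to_le hTS) inf_le_right hne
  have hle : normalizerIn T (R' ⊓ T) ≤ (normalizerIn T (R' ⊓ T) ⊔ img R ψ) ⊓ T :=
    le_inf le_sup_left hNT
  have hfin2 : Finite ↥((normalizerIn T (R' ⊓ T) ⊔ img R ψ) ⊓ T) :=
    Helper88.finite_of_le (S := T) inf_le_right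
  have hcard2 : n + 1 ≤ Nat.card ↥((normalizerIn T (R' ⊓ T) ⊔ img R ψ) ⊓ T) := by
    have := Subgroup.card_le_of_le hle
    omega
  obtain ⟨ν'', hν'', hν''v⟩ := hE _ ν' hν' hcard2
  have hTXle : T ⊔ X ≤ T ⊔ centralizerIn S T := sup_le_sup_left (hXC.trans hCcent) T
  have hahTX : IsMap F (T ⊔ X) ah := hah1.restrict hTXle
  have hahmaps : ∀ y ∈ T ⊔ X,
      ah y ∈ T ⊔ ((normalizerIn T (R' ⊓ T) ⊔ img R ψ) ⊓ C) := by
    apply hahTX.mapsTo_sup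
    · intro t ht
      rw [hah2 t ht]
      exact Subgroup.mem_sup_left (autFun_mem α ht)
    · intro y hy
      refine Subgroup.mem_sup_right ⟨Subgroup.mem_sup_right ?_, hah4 y (hXC hy)⟩
      rw [← hψah y (hXC hy)]
      exact hψR.apply_mem_img (hXR hy)
  refine ⟨ν'' ∘ ah, hahTX.comp hν'' hahmaps, fun x hx => ?_⟩
  have hxR : x ∈ R := hXR hx
  have hψxR₂ : ψ x ∈ img R ψ := hψR.apply_mem_img hxR
  show ν'' (ah x) = f x
  rw [← hψah x (hXC hx), hν''v (ψ x) ⟨Subgroup.mem_sup_right hψxR₂, hψC x (hXC hx)⟩,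
    hν'R _ hψxR₂, hνdef _ hψxR₂, hψi1 x hxR]

end Cfsg.Agent.Helper85
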