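import Cfsg.Agent.Helper85.CEDefs

set_option autoImplicit false
set_option maxHeartbeats 1000000
open Cfsg

namespace Cfsg.Agent.Helper85

open Cfsg.FusionSystem
open Cfsg.Agent.Helper88

variable {Ω : Type*} [Group Ω] {S : Subgroup Ω}

/-- the inductive step for the extension of maps on subgroups of `C` to the join with `T` -/
theorem cx_stepe [Finite S] {p : ℕ} [Fact p.Prime] (hS : IsPGroup p S) {F : FusionSystem S}
    (hF : F.IsSaturated p) {T : Subgroup Ω} (hT : F.StronglyClosed T) {C : Subgroup Ω}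
    (hgrow : CXGrow S T) {n : ℕ} (hn : n < Nat.card T) (hM0 : CXM F T C 0)
    (hE : CXE F T C (n + 1)) (hL2 : CXL2E F p T C n) : CXE F T C n := by
  intro D f hf hcard
  by_cases hbig : n + 1 ≤ Nat.card ↥(D ⊓ T)
  · exact hE D f hf hbig
  have hcardD : Nat.card ↥(D ⊓ T) = n := by omega
  have hTS : T ≤ S := hT.1
  have hDS : D ≤ S := hf.le
  obtain ⟨X, hXdef⟩ : ∃ X : Subgroup Ω, X = D ⊓ C := ⟨_, rfl⟩
  obtain ⟨R, hRdef⟩ : ∃ R : Subgroup Ω, R = (D ⊓ T) ⊔ X := ⟨_, rfl⟩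
  have hXD : X ≤ D := by rw [hXdef]; exact inf_le_left
  have hXC : X ≤ C := by rw [hXdef]; exact inf_le_right
  have hRD : R ≤ D := by rw [hRdef]; exact sup_le inf_le_left hXD
  have hXR : X ≤ R := by rw [hRdef]; exact le_sup_right
  have hPR : D ⊓ T ≤ R := by rw [hRdef]; exact le_sup_left
  have hRT : R ⊓ T = D ⊓ T := le_antisymm (inf_le_inf_right T hRD) (le_inf hPR inf_le_right)
  have hRS : R ≤ S := hRD.trans hDS
  have hfR : IsMap F R f := hf.restrict hRD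
  have hcardR : Nat.card ↥(R ⊓ T) = n := by rw [hRT]; exact hcardD
  have hR'S : img R f ≤ S := hfR.img_le
  obtain ⟨R'', hconj, hfa, hrec⟩ := hF (img R f) hR'S
  have hconjR : F.IsConj R R'' := isConj_trans F hfR.isConj hconj
  obtain ⟨χ', hχ', hχ'img⟩ := Helper88.exists_normalizer_map hS hfa hrec hconjR
  obtain ⟨χ, hχ, hχimg⟩ := Helper88.exists_normalizer_map hS hfa hrec hconj
  subst hχ'img
  have hcardR' : Nat.card ↥(img R f ⊓ T) = n := by rw [cx_card_inf hT hfR]; exact hcardR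
  have hnTR' : ¬ T ≤ img R f := by
    intro h
    have hfin : Finite ↥(img R f ⊓ T) := Helper88.finite_of_le (inf_le_left.trans hR'S)
    have h2 : Nat.card T ≤ Nat.card ↥(img R f ⊓ T) := Subgroup.card_le_of_le (le_inf h le_rfl)
    omega
  have hg2 : n + 1 ≤ Nat.card ↥(normalizerIn S (img R f) ⊓ T) := by
    have := hgrow _ hR'S hnTR'
    omega
  have hRN : R ≤ normalizerIn S R := le_normalizerIn hRS
  have hL1 : ∀ y ∈ X, χ' y ∈ C := fun y hy =>
    hM0 _ χ' hχ' (Nat.zero_le _) y (hRN (hXR hy)) (hXC hy)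
  have hχ'R : IsMap F R χ' := hχ'.restrict hRN
  have himgR : img R χ' = img (D ⊓ T) χ' ⊔ img X χ' := by
    have h : IsMap F ((D ⊓ T) ⊔ X) χ' := by rw [← hRdef]; exact hχ'R
    have := h.img_sup
    rwa [← hRdef] at this
  have hPimg : img (D ⊓ T) χ' ≤ img R χ' ⊓ T := by
    intro y hy
    obtain ⟨z, hz, rfl⟩ := (hχ'R.restrict hPR).mem_img.1 hy
    exact ⟨hχ'R.apply_mem_img (hPR hz), sc_apply_mem hT hχ'R (hPR hz) hz.2⟩
  have hR''le : img R χ' ≤ (img R χ' ⊓ T) ⊔ img X χ' :=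
    le_trans (le_of_eq himgR) (sup_le_sup_right hPimg _)
  have hX''C : img X χ' ≤ C := by
    intro y hy
    obtain ⟨z, hz, rfl⟩ := (hχ'R.restrict hXR).mem_img.1 hy
    exact hL1 z hz
  have hR'N : img R f ≤ normalizerIn S (img R f) := le_normalizerIn hR'S
  have hχf : IsMap F R (χ ∘ f) := hfR.comp hχ (fun y hy => hR'N (hfR.apply_mem_img hy))
  have himgχf : img R (χ ∘ f) = img R χ' := by
    rw [← hχimg]
    apply le_antisymm
    · intro y hy
      obtain ⟨z, hz, rfl⟩ := hχf.mem_img.1 hy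
      exact (hχ.restrict hR'N).apply_mem_img (hfR.apply_mem_img hz)
    · intro y hy
      obtain ⟨w, hw, rfl⟩ := (hχ.restrict hR'N).mem_img.1 hy
      obtain ⟨z, hz, rfl⟩ := hfR.mem_img.1 hw
      exact hχf.apply_mem_img hz
  have hRle : R ≤ (R ⊓ T) ⊔ X := by rw [hRT, ← hRdef]
  obtain ⟨h', hh', hh'X⟩ :=
    hL2 R (img R χ') X (img X χ') (χ ∘ f) hχf himgχf hfa hrec hcardR hXC hXR hRle hX''C hR''le
  obtain ⟨χi, hχi, hχi1, -, -⟩ := hχ.exists_inv
  have hcardD₂ : n + 1 ≤ Nat.card ↥(img (normalizerIn S (img R f)) χ ⊓ T) := by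
    rw [cx_card_inf hT hχ]; exact hg2
  obtain ⟨g', hg', hg'v⟩ := hE _ χi hχi hcardD₂
  have hfxC : ∀ y ∈ X, f y ∈ C := fun y hy => hM0 D f hf (Nat.zero_le _) y (hXD hy) (hXC hy)
  have hχfxC : ∀ y ∈ X, χ (f y) ∈ C := fun y hy =>
    hM0 _ χ hχ (Nat.zero_le _) (f y) (hR'N (hfR.apply_mem_img (hXR hy))) (hfxC y hy)
  have hh'maps : ∀ y ∈ T ⊔ X, h' y ∈ T ⊔ (img (normalizerIn S (img R f)) χ ⊓ C) := by
    apply hh'.mapsTo_sup
    · intro t ht
      exact Subgroup.mem_sup_left (sc_apply_mem hT hh' (Subgroup.mem_sup_left ht) ht)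
    · intro y hy
      rw [hh'X y hy]
      exact Subgroup.mem_sup_right
        ⟨hχ.apply_mem_img (hR'N (hfR.apply_mem_img (hXR hy))), hχfxC y hy⟩
  have hres : IsMap F (T ⊔ X) (g' ∘ h') := hh'.comp hg' hh'maps
  rw [hXdef] at hres
  refine ⟨g' ∘ h', hres, fun x hx => ?_⟩
  have hxX : x ∈ X := by rw [hXdef]; exact hx
  show g' (h' x) = f x
  rw [hh'X x hxX]
  show g' (χ (f x)) = f x
  rw [hg'v _ ⟨hχ.apply_mem_img (hR'N (hfR.apply_mem_img (hXR hxX))), hχfxC x hxX⟩,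
    hχi1 _ (hR'N (hfR.apply_mem_img (hXR hxX)))]

end Cfsg.Agent.Helper85
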