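import Cfsg.Agent.Helper85.CEDefs
import Cfsg.Agent.Helper85.CEL2E
import Cfsg.Agent.Helper85.CESTEPE

set_option autoImplicit false
set_option maxHeartbeats 1000000
open Cfsg

namespace Cfsg.Agent.Helper85

open Cfsg.FusionSystem
open Cfsg.Agent.Helper88

variable {Ω : Type*} [Group Ω] {S : Subgroup Ω}

/-- every map of `F` defined on a subgroup of `C = C_S(E)` extends to the join with `T` -/
theorem cx_extT [Finite S] {p : ℕ} [Fact p.Prime] (hS : IsPGroup p S) {F : FusionSystem S}
    {T : Subgroup Ω} {E : FusionSystem T} (hE : E.IsNormalIn F p) {C : Subgroup Ω}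
    (hC : InCX F E C) (hmax : ∀ Y : Subgroup Ω, InCX F E Y → Y ≤ C) : CXExtT F T C := by
  have hF := hE.1.2.1
  have hinv := hE.1.2.2
  have hT := hinv.2.1
  have hTS : T ≤ S := hT.1
  have hfinT : Finite T := finite_of_le hTS
  obtain ⟨hM0, hah⟩ := cx_M0 hS hE hC hmax
  have hTn : ∀ s ∈ S, ∀ t ∈ T, s * t * s⁻¹ ∈ T := fun s hs t ht =>
    sc_apply_mem hT (isMap_conj F hTS hs) ht ht
  have hgrow := Cfsg.Agent.Helper3.CXGROW.cx_grow hS hTS hTn
  have hin := cx_inner hS hT
  have key : ∀ d : ℕ, d ≤ Nat.card T → CXE F T C (Nat.card T - d) := by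
    intro d
    induction d with
    | zero =>
      intro _ D f hf hcard
      have hDT : D ⊓ T = T :=
        Subgroup.eq_of_le_of_card_ge inf_le_right (by simpa using hcard)
      have hTD : T ≤ D := by rw [← hDT]; exact inf_le_left
      exact ⟨f, hf.restrict (sup_le hTD inf_le_left), fun x _ => rfl⟩
    | succ d ih =>
      intro hd
      have hEp := ih (by omega)
      have hn : Nat.card T - (d + 1) < Nat.card T := by omega
      have e : Nat.card T - (d + 1) + 1 = Nat.card T - d := by omega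
      rw [← e] at hEp
      exact cx_stepe hS hF hT hgrow hn hM0 hEp
        (cx_L2e hS hinv hC hah hin (cx_ext F) (Cfsg.Agent.Helper3.CXCOMM.cx_comm Ω) hn hEp)
  have h0 : CXE F T C 0 := by simpa using key (Nat.card T) le_rfl
  intro P f hf hPC
  obtain ⟨f', hf', hf'x⟩ := h0 P f hf (Nat.zero_le _)
  have e : P ⊓ C = P := inf_eq_left.2 hPC
  rw [e] at hf' hf'x
  exact ⟨f', hf', hf'x⟩

end Cfsg.Agent.Helper85
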