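import Cfsg.Agent.Helper85.CsH

set_option autoImplicit false
open Cfsg

/-! # Definitions for the centralizer `C_S(E)` of a normal subsystem (S5127)

`InCX F E X`: `X ≤ C_S(T)` and every map of `E` extends to a map of `F` fixing `X` pointwise.
`CXM F T C n`: maps of `F` defined on `D` with `n ≤ |D ∩ T|` carry `D ∩ C` into `C`.
The `CX...` propositions are the statements of the pieces of the proof. -/

namespace Cfsg.Agent.Helper85

open Cfsg.FusionSystem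
open Cfsg.Agent.Helper88

variable {Ω : Type*} [Group Ω] {S : Subgroup Ω}

/-- `f` on `P` extends to a map of `F` on `P ⊔ X` fixing `X` pointwise -/
def FixX (F : FusionSystem S) (X P : Subgroup Ω) (f : Ω → Ω) : Prop :=
  ∃ f', IsMap F (P ⊔ X) f' ∧ (∀ x ∈ P, f' x = f x) ∧ ∀ x ∈ X, f' x = x

/-- `X ≤ C_S(T)` and every map of `E` extends to a map of `F` fixing `X` pointwise -/
def InCX (F : FusionSystem S) {T : Subgroup Ω} (E : FusionSystem T) (X : Subgroup Ω) : Prop :=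
  X ≤ centralizerIn S T ∧ ∀ (P : Subgroup Ω) (f : Ω → Ω), IsMap E P f → FixX F X P f

/-- every map of `F` defined on a subgroup `D` with `n ≤ |D ∩ T|` carries `D ∩ C` into `C` -/
def CXM (F : FusionSystem S) (T C : Subgroup Ω) (n : ℕ) : Prop :=
  ∀ (D : Subgroup Ω) (f : Ω → Ω), IsMap F D f → n ≤ Nat.card ↥(D ⊓ T) →
    ∀ x ∈ D, x ∈ C → f x ∈ C

theorem FixX.congr {F : FusionSystem S} {X P : Subgroup Ω} {f h : Ω → Ω}
    (hf : FixX F X P f) (hh : ∀ x ∈ P, h x = f x) : FixX F X P h := by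
  obtain ⟨f', hf', h1, h2⟩ := hf
  exact ⟨f', hf', fun x hx => (h1 x hx).trans (hh x hx).symm, h2⟩

theorem FixX.restrict {F : FusionSystem S} {X P Q : Subgroup Ω} {f : Ω → Ω}
    (hf : FixX F X Q f) (hPQ : P ≤ Q) : FixX F X P f := by
  obtain ⟨f', hf', h1, h2⟩ := hf
  exact ⟨f', hf'.restrict (sup_le_sup_right hPQ _), fun x hx => h1 x (hPQ hx), h2⟩

theorem FixX.comp {F : FusionSystem S} {X P Q : Subgroup Ω} {f h : Ω → Ω}
    (hf : FixX F X P f) (hh : FixX F X Q h) (hPQ : ∀ x ∈ P, f x ∈ Q) : FixX F X P (h ∘ f) := by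
  obtain ⟨f', hf', hf1, hf2⟩ := hf
  obtain ⟨h', hh', hh1, hh2⟩ := hh
  have hmaps : ∀ x ∈ P ⊔ X, f' x ∈ Q ⊔ X :=
    hf'.mapsTo_sup (fun x hx => by rw [hf1 x hx]; exact Subgroup.mem_sup_left (hPQ x hx))
      (fun w hw => by rw [hf2 w hw]; exact Subgroup.mem_sup_right hw)
  refine ⟨h' ∘ f', hf'.comp hh' hmaps, fun x hx => ?_, fun x hx => ?_⟩
  · show h' (f' x) = h (f x)
    rw [hf1 x hx, hh1 _ (hPQ x hx)]
  · show h' (f' x) = x
    rw [hf2 x hx, hh2 x hx]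

theorem fixX_one (F : FusionSystem S) {X : Subgroup Ω} (hX : X ≤ S) {R : Subgroup Ω} (hRS : R ≤ S) :
    FixX F X R (autFun (1 : MulAut R)) :=
  ⟨id, isMap_id F (sup_le hRS hX), fun _ hx => (autFun_one hx).symm, fun _ _ => rfl⟩

theorem FixX.aut_mul {F : FusionSystem S} {X : Subgroup Ω} {R : Subgroup Ω} {a b : MulAut R}
    (ha : FixX F X R (autFun a)) (hb : FixX F X R (autFun b)) : FixX F X R (autFun (a * b)) :=
  FixX.congr (FixX.comp hb ha (fun x hx => autFun_mem b hx)) (fun x hx => autFun_mul a b hx)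

theorem FixX.aut_pow {F : FusionSystem S} {X : Subgroup Ω} (hX : X ≤ S) {R : Subgroup Ω} (hRS : R ≤ S)
    {a : MulAut R} (h : FixX F X R (autFun a)) (k : ℕ) : FixX F X R (autFun (a ^ k)) := by
  induction k with
  | zero => rw [pow_zero]; exact fixX_one F hX hRS
  | succ k ih => rw [pow_succ]; exact FixX.aut_mul ih h

theorem FixX.aut_inv [Finite S] {F : FusionSystem S} {X : Subgroup Ω} (hX : X ≤ S) {R : Subgroup Ω}
    (hRS : R ≤ S) {a : MulAut R} (h : FixX F X R (autFun a)) : FixX F X R (autFun a⁻¹) := by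
  have hfin : Finite R := Helper88.finite_of_le hRS
  have h1 := FixX.aut_pow hX hRS h (orderOf a - 1)
  have hpos : 0 < orderOf a := orderOf_pos a
  have h2 : a ^ (orderOf a - 1) = a⁻¹ := by
    apply eq_inv_of_mul_eq_one_left
    rw [← pow_succ, Nat.sub_add_cancel hpos, pow_orderOf_eq_one]
  rwa [h2] at h1

/-- the automorphisms in `Aut_E(R)` with an extension fixing `X` pointwise -/
def fixXSub [Finite S] (F : FusionSystem S) {T : Subgroup Ω} (E : FusionSystem T) (X : Subgroup Ω)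
    (hX : X ≤ S) (R : Subgroup Ω) (hRS : R ≤ S) : Subgroup (E.autGroup R) where
  carrier := {a | FixX F X R (autFun (a : MulAut R))}
  one_mem' := fixX_one F hX hRS
  mul_mem' := fun ha hb => FixX.aut_mul ha hb
  inv_mem' := fun ha => FixX.aut_inv hX hRS ha

/-- a map of the system carries `R ∩ T` onto `f(R) ∩ T` for `T` strongly closed -/
theorem cx_img_inf {F : FusionSystem S} {T : Subgroup Ω} (hT : F.StronglyClosed T) {R : Subgroup Ω}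
    {f : Ω → Ω} (hf : IsMap F R f) : img (R ⊓ T) f = img R f ⊓ T := by
  have hf' : IsMap F (R ⊓ T) f := hf.restrict inf_le_left
  apply le_antisymm
  · intro y hy
    obtain ⟨x, hx, rfl⟩ := hf'.mem_img.1 hy
    exact ⟨hf.apply_mem_img hx.1, sc_apply_mem hT hf hx.1 hx.2⟩
  · rintro y ⟨hy1, hy2⟩
    obtain ⟨x, hx, rfl⟩ := hf.mem_img.1 hy1
    exact hf'.apply_mem_img ⟨hx, sc_mem_of_apply_mem hT hf hx hy2⟩

theorem cx_card_inf [Finite S] {F : FusionSystem S} {T : Subgroup Ω} (hT : F.StronglyClosed T)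
    {R : Subgroup Ω} {f : Ω → Ω} (hf : IsMap F R f) :
    Nat.card ↥(img R f ⊓ T) = Nat.card ↥(R ⊓ T) := by
  rw [← cx_img_inf hT hf]
  exact (hf.restrict inf_le_left).card_img

/-! ### Statements of the pieces -/

/-- piece KEY -/
def CXKey (F : FusionSystem S) (p : ℕ) : Prop :=
  ∀ (R : Subgroup Ω) (a : MulAut R) (β : MulAut ↥(centralizerIn S R ⊔ R)) (b : ℕ) (X : Subgroup Ω),
    R ≤ S → β ∈ F.autGroup (centralizerIn S R ⊔ R) → (∀ r ∈ R, autFun β r = autFun a r) →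
    (∀ x ∈ centralizerIn S R, x⁻¹ * autFun β x ∈ R) → b.Coprime p → β ^ b = 1 →
    (∀ (P : Subgroup Ω) (f : Ω → Ω), IsCMap F R P f → ∀ y ∈ P, autFun β (y⁻¹ * f y) = y⁻¹ * f y) →
    X ≤ centralizerIn S R → FixX F X R (autFun a) → ∀ x ∈ X, autFun β x = x

/-- piece PPRIME -/
def CXPprime (F : FusionSystem S) {T : Subgroup Ω} (E : FusionSystem T) (p : ℕ) : Prop :=
  ∀ (R : Subgroup Ω), E.IsCentric R → ∀ a ∈ E.autGroup R, ∀ m : ℕ, a ^ m = 1 → m.Coprime p →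
    ∃ f', IsMap F (R ⊔ centralizerIn S T) f' ∧ (∀ x ∈ R, f' x = autFun a x) ∧
      ∀ X : Subgroup Ω, X ≤ centralizerIn S T → FixX F X R (autFun a) → ∀ x ∈ X, f' x = x

/-- piece AHAT -/
def CXAhat (F : FusionSystem S) (T C : Subgroup Ω) : Prop :=
  ∀ f : Ω → Ω, IsMap F T f → ∃ ah, IsMap F (T ⊔ centralizerIn S T) ah ∧ (∀ t ∈ T, ah t = f t) ∧
    img (T ⊔ centralizerIn S T) ah = T ⊔ centralizerIn S T ∧ ∀ c ∈ C, ah c ∈ C

/-- piece INNER -/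
def CXInner (F : FusionSystem S) (p : ℕ) (T : Subgroup Ω) : Prop :=
  ∀ (R : Subgroup Ω) (k : Ω → Ω), F.IsFullyAutomized p R → IsMap F R k → (∀ x ∈ R ⊓ T, k x = x) →
    (∀ r ∈ R, r⁻¹ * k r ∈ R ⊓ T) → ∃ h ∈ normalizerIn S R, ∀ r ∈ R, k r = h * r * h⁻¹

/-- piece EXT -/
def CXExt (F : FusionSystem S) : Prop :=
  ∀ (R₂ R P N : Subgroup Ω) (ν : Ω → Ω), F.IsReceptive R →
    (∀ k : Ω → Ω, IsMap F R k → (∀ x ∈ P, k x = x) → (∀ r ∈ R, r⁻¹ * k r ∈ P) →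
      ∃ h ∈ normalizerIn S R, ∀ r ∈ R, k r = h * r * h⁻¹) →
    IsMap F R₂ ν → img R₂ ν = R → P ≤ R₂ → (∀ x ∈ P, ν x = x) → N ≤ S →
    (∀ g ∈ N, ∀ x ∈ P, g * x * g⁻¹ ∈ P) →
    (∀ g ∈ N, ∀ r ∈ R₂, r⁻¹ * (g * r * g⁻¹) ∈ P) →
    (∀ g ∈ N, ∀ r ∈ R, r⁻¹ * (g * r * g⁻¹) ∈ P) →
    ∃ ν', IsMap F (N ⊔ R₂) ν' ∧ ∀ r ∈ R₂, ν' r = ν r

/-- piece COMM (pure group theory) -/
def CXComm (Ω : Type*) [Group Ω] : Prop :=
  ∀ (P X N : Subgroup Ω), (∀ g ∈ N, ∀ x ∈ P, g * x * g⁻¹ ∈ P) → (∀ c ∈ X, ∀ g ∈ N, g * c = c * g) →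
    (∀ c ∈ X, ∀ x ∈ P, c * x = x * c) → ∀ g ∈ N, ∀ r ∈ P ⊔ X, r⁻¹ * (g * r * g⁻¹) ∈ P

/-- piece GROW (pure group theory) -/
def CXGrow (S T : Subgroup Ω) : Prop :=
  ∀ R : Subgroup Ω, R ≤ S → ¬ T ≤ R → Nat.card ↥(R ⊓ T) < Nat.card ↥(normalizerIn S R ⊓ T)

/-- piece L2 -/
def CXL2 (F : FusionSystem S) (p : ℕ) (T C : Subgroup Ω) (n : ℕ) : Prop :=
  ∀ (R R' X X' : Subgroup Ω) (f : Ω → Ω), IsMap F R f → img R f = R' → F.IsFullyAutomized p R' →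
    F.IsReceptive R' → Nat.card ↥(R ⊓ T) = n → X ≤ C → X ≤ R → R ≤ (R ⊓ T) ⊔ X → X' ≤ C →
    R' ≤ (R' ⊓ T) ⊔ X' → ∀ x ∈ X, f x ∈ C

end Cfsg.Agent.Helper85
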