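import Cfsg.Agent.Helper85.CXDefs

set_option autoImplicit false
set_option maxHeartbeats 1000000
open Cfsg

namespace Cfsg.Agent.Helper85

open Cfsg.FusionSystem
open Cfsg.Agent.Helper88

variable {Ω : Type*} [Group Ω] {S : Subgroup Ω}

/-- extension of an isomorphism `ν : R₂ → R` onto a receptive `R`, which is the identity on `P`, over a
subgroup `N` acting on `R₂` and `R` trivially modulo `P` -/
theorem cx_ext (F : FusionSystem S) : CXExt F := by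
  intro R₂ R P N ν hRr hinner hν himg hP₂ hνP hNS hNP hN₂ hNR
  have hRS : R ≤ S := hRr.1
  have hR₂S : R₂ ≤ S := hν.le
  have hPR : P ≤ R := fun x hx => by
    rw [← himg, ← hνP x hx]; exact hν.apply_mem_img (hP₂ hx)
  obtain ⟨νi, hνi, hνi1, hνi2, -⟩ := hν.exists_inv
  rw [himg] at hνi hνi2
  have hconj₂ : ∀ g ∈ N, ∀ r ∈ R₂, g * r * g⁻¹ ∈ R₂ := fun g hg r hr => by
    have e : g * r * g⁻¹ = r * (r⁻¹ * (g * r * g⁻¹)) := by group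
    rw [e]; exact R₂.mul_mem hr (hP₂ (hN₂ g hg r hr))
  have hconjR : ∀ g ∈ N, ∀ r ∈ R, g * r * g⁻¹ ∈ R := fun g hg r hr => by
    have e : g * r * g⁻¹ = r * (r⁻¹ * (g * r * g⁻¹)) := by group
    rw [e]; exact R.mul_mem hr (hPR (hNR g hg r hr))
  refine receptive_extend hRr hν himg (fun g hg => ?_)
  have hgS : g ∈ S := hNS hg
  have hgi : g⁻¹ ∈ N := N.inv_mem hg
  have hgnorm : g ∈ Subgroup.normalizer (R₂ : Set Ω) := by
    rw [Subgroup.mem_normalizer_iff]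
    intro x
    constructor
    · exact fun hx => hconj₂ g hg x hx
    · intro hx
      have h := hconj₂ g⁻¹ hgi _ hx
      have e : g⁻¹ * (g * x * g⁻¹) * g⁻¹⁻¹ = x := by group
      rwa [e] at h
  refine ⟨hgS, hgnorm, ?_⟩
  have hk1 : IsMap F R (fun y => g⁻¹ * y * g⁻¹⁻¹) := isMap_conj F hRS (S.inv_mem hgS)
  have hk2 : IsMap F R (νi ∘ fun y => g⁻¹ * y * g⁻¹⁻¹) :=
    hk1.comp hνi (fun y hy => hconjR g⁻¹ hgi y hy)
  have hk3 : IsMap F R₂ (fun y => g * y * g⁻¹) := isMap_conj F hR₂S hgS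
  have hk4 : IsMap F R ((fun y => g * y * g⁻¹) ∘ (νi ∘ fun y => g⁻¹ * y * g⁻¹⁻¹)) :=
    hk2.comp hk3 (fun y hy => (hνi2 _ (hconjR g⁻¹ hgi y hy)).1)
  have hk5 : IsMap F R (ν ∘ ((fun y => g * y * g⁻¹) ∘ (νi ∘ fun y => g⁻¹ * y * g⁻¹⁻¹))) :=
    hk4.comp hν (fun y hy => hconj₂ g hg _ ((hνi2 _ (hconjR g⁻¹ hgi y hy)).1))
  obtain ⟨k, hkdef⟩ : ∃ k : Ω → Ω,
      k = ν ∘ ((fun y => g * y * g⁻¹) ∘ (νi ∘ fun y => g⁻¹ * y * g⁻¹⁻¹)) := ⟨_, rfl⟩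
  rw [← hkdef] at hk5
  have hkv : ∀ y, k y = ν (g * νi (g⁻¹ * y * g) * g⁻¹) := fun y => by
    rw [hkdef]
    show ν (g * νi (g⁻¹ * y * g⁻¹⁻¹) * g⁻¹) = _
    rw [inv_inv]
  have hνiP : ∀ x ∈ P, νi x = x := fun x hx => by
    have := hνi1 x (hP₂ hx)
    rwa [hνP x hx] at this
  have hkP : ∀ x ∈ P, k x = x := by
    intro x hx
    rw [hkv]
    have h1 : g⁻¹ * x * g ∈ P := by
      have := hNP g⁻¹ hgi x hx
      rwa [inv_inv] at this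
    rw [hνiP _ h1]
    have e : g * (g⁻¹ * x * g) * g⁻¹ = x := by group
    rw [e, hνP x hx]
  have hkR : ∀ r ∈ R, r⁻¹ * k r ∈ P := by
    intro r hr
    rw [hkv]
    obtain ⟨p₁, hp₁def⟩ : ∃ p₁, p₁ = r⁻¹ * (g⁻¹ * r * g) := ⟨_, rfl⟩
    have hp₁ : p₁ ∈ P := by
      have := hNR g⁻¹ hgi r hr
      rw [inv_inv] at this
      rw [hp₁def]; exact this
    have e1 : g⁻¹ * r * g = r * p₁ := by rw [hp₁def]; group
    have hνir : νi r ∈ R₂ := (hνi2 r hr).1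
    rw [e1, hνi.map_mul hr (hPR hp₁), hνiP p₁ hp₁]
    obtain ⟨p₂, hp₂def⟩ : ∃ p₂, p₂ = (νi r)⁻¹ * (g * νi r * g⁻¹) := ⟨_, rfl⟩
    have hp₂ : p₂ ∈ P := by rw [hp₂def]; exact hN₂ g hg _ hνir
    have hp₃ : g * p₁ * g⁻¹ ∈ P := hNP g hg p₁ hp₁
    have e2 : g * (νi r * p₁) * g⁻¹ = νi r * (p₂ * (g * p₁ * g⁻¹)) := by rw [hp₂def]; group
    have hpp : p₂ * (g * p₁ * g⁻¹) ∈ P := P.mul_mem hp₂ hp₃
    rw [e2, hν.map_mul hνir (hP₂ hpp), (hνi2 r hr).2, hνP _ hpp, inv_mul_cancel_left]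
    exact hpp
  obtain ⟨h, hh, hhk⟩ := hinner k hk5 hkP hkR
  refine ⟨h * g, S.mul_mem (mem_normalizerIn_iff.1 hh).1 hgS, fun x hx => ?_⟩
  have hy : g * ν x * g⁻¹ ∈ R :=
    hconjR g hg _ (by rw [← himg]; exact hν.apply_mem_img hx)
  have h1 := hhk _ hy
  rw [hkv] at h1
  have e3 : g⁻¹ * (g * ν x * g⁻¹) * g = ν x := by group
  rw [e3, hνi1 x hx] at h1
  rw [h1]; group

end Cfsg.Agent.Helper85
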