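import Cfsg.Agent.Helper85.CXDefs

set_option autoImplicit false
set_option maxHeartbeats 1000000
open Cfsg

namespace Cfsg.Agent.Helper85

open Cfsg.FusionSystem
open Cfsg.Agent.Helper88

variable {Ω : Type*} [Group Ω] {S : Subgroup Ω}

/-- for `R` fully automized and `T` strongly closed: a map of the system on `R` fixing `R ∩ T`
pointwise and moving the elements of `R` by elements of `R ∩ T` is induced by an element of `N_S(R)` -/
theorem cx_inner [Finite S] {p : ℕ} [Fact p.Prime] (hS : IsPGroup p S) {F : FusionSystem S}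
    {T : Subgroup Ω} (hT : F.StronglyClosed T) : CXInner F p T := by
  intro R k hRa hk hkP hkR
  have hRS : R ≤ S := hRa.1
  have hfinR : Finite R := finite_of_le hRS
  have hkmaps : ∀ r ∈ R, k r ∈ R := fun r hr => by
    have e : k r = r * (r⁻¹ * k r) := by group
    rw [e]; exact R.mul_mem hr (hkR r hr).1
  obtain ⟨β, hβ, hβk⟩ := hk.exists_aut (hk.img_eq_of_mapsTo hkmaps)
  obtain ⟨k₀, hk₀⟩ := pow_card_eq_one_of_mem hS
  have hpres : ∀ δ ∈ F.autGroup R, ∀ y ∈ R ⊓ T, autFun δ y ∈ R ⊓ T := fun δ hδ y hy =>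
    ⟨autFun_mem δ hy.1, sc_apply_mem hT (IsMap.of_mem_autGroup hRS hδ) hy.1 hy.2⟩
  let B : Subgroup (F.autGroup R) :=
    { carrier := {β' | (∀ y ∈ R ⊓ T, autFun (β' : MulAut R) y = y) ∧
        ∀ r ∈ R, r⁻¹ * autFun (β' : MulAut R) r ∈ R ⊓ T}
      one_mem' := by
        refine ⟨fun y hy => ?_, fun r hr => ?_⟩
        · show autFun (1 : MulAut R) y = y
          exact autFun_one hy.1
        · show r⁻¹ * autFun (1 : MulAut R) r ∈ R ⊓ T
          rw [autFun_one hr, inv_mul_cancel]; exact Subgroup.one_mem _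
      mul_mem' := by
        intro β' β'' h' h''
        refine ⟨fun y hy => ?_, fun r hr => ?_⟩
        · show autFun ((β' : MulAut R) * (β'' : MulAut R)) y = y
          rw [autFun_mul _ _ hy.1, h''.1 y hy, h'.1 y hy]
        · show r⁻¹ * autFun ((β' : MulAut R) * (β'' : MulAut R)) r ∈ R ⊓ T
          have hw := h''.2 r hr
          have e : autFun (β'' : MulAut R) r = r * (r⁻¹ * autFun (β'' : MulAut R) r) := by group
          rw [autFun_mul _ _ hr, e, autFun_map_mul _ hr hw.1, h'.1 _ hw, ← mul_assoc]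
          exact Subgroup.mul_mem _ (h'.2 r hr) hw
      inv_mem' := by
        intro β' h'
        refine ⟨fun y hy => ?_, fun r hr => ?_⟩
        · show autFun (β' : MulAut R)⁻¹ y = y
          have h1 := autFun_inv_apply (β' : MulAut R) hy.1
          rw [h'.1 y hy] at h1
          exact h1
        · show r⁻¹ * autFun (β' : MulAut R)⁻¹ r ∈ R ⊓ T
          have hr' : autFun (β' : MulAut R)⁻¹ r ∈ R := autFun_mem _ hr
          have h1 := h'.2 _ hr'
          rw [autFun_apply_inv _ hr] at h1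
          have e : r⁻¹ * autFun (β' : MulAut R)⁻¹ r =
              ((autFun (β' : MulAut R)⁻¹ r)⁻¹ * r)⁻¹ := by group
          rw [e]; exact Subgroup.inv_mem _ h1 }
  have hBn : B.Normal := by
    refine ⟨fun β' h' δ => ⟨fun y hy => ?_, fun r hr => ?_⟩⟩
    · show autFun ((δ : MulAut R) * (β' : MulAut R) * (δ : MulAut R)⁻¹) y = y
      have hy' : autFun (δ : MulAut R)⁻¹ y ∈ R ⊓ T := hpres _ (Subgroup.inv_mem _ δ.2) y hy
      rw [autFun_mul _ _ hy.1, autFun_mul _ _ hy'.1, h'.1 _ hy', autFun_apply_inv _ hy.1]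
    · show r⁻¹ * autFun ((δ : MulAut R) * (β' : MulAut R) * (δ : MulAut R)⁻¹) r ∈ R ⊓ T
      have hr' : autFun (δ : MulAut R)⁻¹ r ∈ R := autFun_mem _ hr
      have hw := h'.2 _ hr'
      have e : autFun (β' : MulAut R) (autFun (δ : MulAut R)⁻¹ r) = autFun (δ : MulAut R)⁻¹ r *
          ((autFun (δ : MulAut R)⁻¹ r)⁻¹ * autFun (β' : MulAut R) (autFun (δ : MulAut R)⁻¹ r)) := by
        group
      rw [autFun_mul _ _ hr, autFun_mul _ _ hr', e, autFun_map_mul _ hr' hw.1, autFun_apply_inv _ hr,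
        inv_mul_cancel_left]
      exact hpres _ δ.2 _ hw
  have hBp : IsPGroup p B := by
    rintro ⟨β', h'⟩
    refine ⟨k₀, Subtype.ext (Subtype.ext ?_)⟩
    show (β' : MulAut R) ^ p ^ k₀ = 1
    exact aut_pow_eq_one_of (β' : MulAut R) (inf_le_left : R ⊓ T ≤ R)
      (fun y hy => h'.1 y hy) (fun w hw => h'.2 w hw) (p ^ k₀) (fun y hy => hk₀ y (hRS hy.1))
  have hle := normal_pSubgroup_le_autInducedBy hRa B hBn hBp
  have hβB : β ∈ B.map (F.autGroup R).subtype := by
    refine ⟨⟨β, hβ⟩, ⟨fun y hy => ?_, fun r hr => ?_⟩, rfl⟩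
    · show autFun β y = y
      rw [hβk y hy.1]; exact hkP y hy
    · show r⁻¹ * autFun β r ∈ R ⊓ T
      rw [hβk r hr]; exact hkR r hr
  obtain ⟨h, hh, hhβ⟩ := (Helper88.mem_autInducedBy_iff' S β).1 (hle hβB)
  refine ⟨h, mem_normalizerIn_iff.2 ⟨hh, mem_normalizer_of_autFun β hhβ⟩, fun r hr => ?_⟩
  rw [← hβk r hr]; exact hhβ r hr

end Cfsg.Agent.Helper85
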