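import Cfsg.Agent.Helper85.CXDefs

set_option autoImplicit false
set_option maxHeartbeats 1000000
open Cfsg

namespace Cfsg.Agent.Helper85

open Cfsg.FusionSystem
open Cfsg.Agent.Helper88

variable {Ω : Type*} [Group Ω] {S : Subgroup Ω}

/-- automorphisms in `E` of `E`-centric subgroups fully automized in `E` have extensions fixing
`X₁ ⊔ X₂` pointwise -/
theorem cx_join_aut [Finite S] {p : ℕ} [Fact p.Prime] (hS : IsPGroup p S) {F : FusionSystem S}
    {T : Subgroup Ω} {E : FusionSystem T} (hE : E.IsNormalIn F p) (hpp : CXPprime F E p)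
    {X₁ X₂ : Subgroup Ω} (h₁ : InCX F E X₁) (h₂ : InCX F E X₂)
    {R : Subgroup Ω} (hRc : E.IsCentric R) (hRa : E.IsFullyAutomized p R) :
    ∀ a ∈ E.autGroup R, FixX F (X₁ ⊔ X₂) R (autFun a) := by
  have hinv := hE.1.2.2
  have hTS : T ≤ S := hinv.2.1.1
  have hfinT : Finite T := finite_of_le hTS
  have hRT : R ≤ T := hRc.1
  have hRS : R ≤ S := hRT.trans hTS
  have hfinR : Finite R := finite_of_le hRS
  have hXC : X₁ ⊔ X₂ ≤ centralizerIn S T := sup_le h₁.1 h₂.1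
  have hXS : X₁ ⊔ X₂ ≤ S := hXC.trans inf_le_left
  obtain ⟨P₀, hP₀⟩ := hRa.2
  have htop : fixXSub F E (X₁ ⊔ X₂) hXS R hRS = ⊤ := by
    refine sup_pprime_sylow_eq_top p P₀ _ ?_ ?_
    · intro b hb
      rw [hP₀, Subgroup.mem_subgroupOf] at hb
      obtain ⟨t, ht, hbt⟩ := (Helper88.mem_autInducedBy_iff T R _).1 hb
      show FixX F (X₁ ⊔ X₂) R (autFun (b : MulAut R))
      refine ⟨fun x => t * x * t⁻¹, isMap_conj F (sup_le hRS hXS) (hTS ht),
        fun x hx => ?_, fun x hx => ?_⟩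
      · rw [autFun_apply' _ hx]; exact (hbt ⟨x, hx⟩).symm
      · have h := (mem_centralizerIn_iff.1 (hXC hx)).2 t ht
        show t * x * t⁻¹ = x
        rw [h]; group
    · intro b m hmp hbm
      have hbm' : (b : MulAut R) ^ m = 1 := by simpa using congrArg Subtype.val hbm
      show FixX F (X₁ ⊔ X₂) R (autFun (b : MulAut R))
      obtain ⟨f', hf', hf'R, hf'X⟩ := hpp R hRc (b : MulAut R) b.2 m hbm' hmp
      have hbE : IsMap E R (autFun (b : MulAut R)) := IsMap.of_mem_autGroup hRT b.2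
      have hfix₁ := hf'X X₁ h₁.1 (h₁.2 R _ hbE)
      have hfix₂ := hf'X X₂ h₂.1 (h₂.2 R _ hbE)
      have hle : R ⊔ (X₁ ⊔ X₂) ≤ R ⊔ centralizerIn S T := sup_le_sup_left hXC R
      have hf'X12 : IsMap F (X₁ ⊔ X₂) f' := hf'.restrict (hXC.trans le_sup_right)
      have hfix : ∀ x ∈ X₁ ⊔ X₂, f' x = id x :=
        hf'X12.eqOn_sup (isMap_id F hXS) hfix₁ hfix₂
      exact ⟨f', hf'.restrict hle, hf'R, hfix⟩
  intro a ha
  have h : (⟨a, ha⟩ : E.autGroup R) ∈ fixXSub F E (X₁ ⊔ X₂) hXS R hRS := by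
    rw [htop]; exact Subgroup.mem_top _
  exact h

/-- the join of two subgroups `X` with `E ≤ C_F(X)` is again such a subgroup -/
theorem cx_join [Finite S] {p : ℕ} [Fact p.Prime] (hS : IsPGroup p S) {F : FusionSystem S}
    {T : Subgroup Ω} {E : FusionSystem T} (hE : E.IsNormalIn F p) (hpp : CXPprime F E p)
    {X₁ X₂ : Subgroup Ω} (h₁ : InCX F E X₁) (h₂ : InCX F E X₂) : InCX F E (X₁ ⊔ X₂) := by
  have hEs := hE.1.1
  have hinv := hE.1.2.2
  have hTS : T ≤ S := hinv.2.1.1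
  have hfinT : Finite T := finite_of_le hTS
  have hTp : IsPGroup p T := hS.to_le hTS
  refine ⟨sup_le h₁.1 h₂.1, fun P f hf => ?_⟩
  exact alperin_induction hTp hEs (fun P f => FixX F (X₁ ⊔ X₂) P f)
    (fun R hRa _ hRc _ α hα P hPR =>
      FixX.restrict (cx_join_aut hS hE hpp h₁ h₂ hRc hRa α hα) hPR)
    (fun P Q f h _ _ hf hh hPQ => FixX.comp hf hh hPQ)
    (fun P f h _ hf hh => FixX.congr hf hh) hf

end Cfsg.Agent.Helper85
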