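import Cfsg.Agent.Helper85.CXDefs

set_option autoImplicit false
set_option maxHeartbeats 1000000
open Cfsg

namespace Cfsg.Agent.Helper85

open Cfsg.FusionSystem
open Cfsg.Agent.Helper88

variable {Ω : Type*} [Group Ω] {S : Subgroup Ω}

/-- the `p'`-order good extension of an automorphism `a` of `R` fixing the focal elements of `C_F(R)`
fixes pointwise every `X ≤ C_S(R)` for which `a` has some extension fixing `X` pointwise -/
theorem cx_key [Finite S] {p : ℕ} [Fact p.Prime] (hS : IsPGroup p S) (F : FusionSystem S) :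
    CXKey F p := by
  intro R a β b X hRS hβ hβR hβC hbp hβb hfix hX hfx
  obtain ⟨fX, hfX, hfXR, hfXX⟩ := hfx
  have hCS : centralizerIn S R ≤ S := inf_le_left
  have hQS : centralizerIn S R ⊔ R ≤ S := sup_le hCS hRS
  have hβmap : IsMap F (centralizerIn S R ⊔ R) (autFun β) := IsMap.of_mem_autGroup hQS hβ
  have hRXQ : R ⊔ X ≤ centralizerIn S R ⊔ R := sup_le le_sup_right (hX.trans le_sup_left)
  have hβRX : IsMap F (R ⊔ X) (autFun β) := hβmap.restrict hRXQ
  have himg : img (R ⊔ X) fX = R ⊔ X := by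
    rw [hfX.img_sup, img_congr hfXR, img_autFun, img_id_of_fix hfXX]
  have hβmaps : ∀ q ∈ R ⊔ X, autFun β q ∈ img (R ⊔ X) fX := by
    rw [himg]
    exact hβRX.mapsTo_sup
      (fun r hr => by rw [hβR r hr]; exact Subgroup.mem_sup_left (autFun_mem a hr))
      (fun x hx => by
        have e : autFun β x = x * (x⁻¹ * autFun β x) := by group
        rw [e]
        exact Subgroup.mul_mem _ (Subgroup.mem_sup_right hx)
          (Subgroup.mem_sup_left (hβC x (hX hx))))
  obtain ⟨fXi, hfXi, hfXi1, hfXi2, -⟩ := hfX.exists_inv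
  have hg : IsMap F (R ⊔ X) (fXi ∘ autFun β) := hβRX.comp hfXi hβmaps
  have hgR : ∀ r ∈ R, (fXi ∘ autFun β) r = r := by
    intro r hr
    show fXi (autFun β r) = r
    rw [hβR r hr, ← hfXR r hr]
    exact hfXi1 r (Subgroup.mem_sup_left hr)
  have hfXiR : ∀ r ∈ R, fXi r ∈ R ∧ autFun a (fXi r) = r := by
    intro r hr
    have hr' : autFun a⁻¹ r ∈ R := autFun_mem _ hr
    have h1 := hfXi1 (autFun a⁻¹ r) (Subgroup.mem_sup_left hr')
    rw [hfXR _ hr', autFun_apply_inv a hr] at h1
    rw [h1]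
    exact ⟨hr', autFun_apply_inv a hr⟩
  have hgC : ∀ y ∈ X, (fXi ∘ autFun β) y ∈ centralizerIn S R := by
    intro y hy
    refine mem_centralizerIn_iff.2 ⟨hg.mem (Subgroup.mem_sup_right hy), fun r hr => ?_⟩
    have hcomm := (mem_centralizerIn_iff.1 (hX hy)).2 r hr
    have h1 := hg.map_mul (Subgroup.mem_sup_left hr) (Subgroup.mem_sup_right hy)
    have h2 := hg.map_mul (Subgroup.mem_sup_right hy) (Subgroup.mem_sup_left hr)
    rw [hgR r hr] at h1 h2
    rw [← h1, ← h2, hcomm]
  have hcm : IsCMap F R X (fXi ∘ autFun β) :=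
    ⟨hg.restrict le_sup_right, hX, hgC, fXi ∘ autFun β, by rw [sup_comm]; exact hg,
      fun _ _ => rfl, hgR⟩
  intro x hx
  have hxC : x ∈ centralizerIn S R := hX hx
  obtain ⟨z, hzdef⟩ : ∃ z, z = x⁻¹ * autFun β x := ⟨_, rfl⟩
  have hzR : z ∈ R := by rw [hzdef]; exact hβC x hxC
  have e1 : autFun β x = x * z := by rw [hzdef]; group
  obtain ⟨hz'R, hz'a⟩ := hfXiR z hzR
  have hgx : (fXi ∘ autFun β) x = x * fXi z := by
    show fXi (autFun β x) = x * fXi z
    rw [e1, hfXi.map_mul (by rw [himg]; exact Subgroup.mem_sup_right hx)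
      (by rw [himg]; exact Subgroup.mem_sup_left hzR)]
    congr 1
    have := hfXi1 x (Subgroup.mem_sup_right hx)
    rwa [hfXX x hx] at this
  have hfz := hfix X _ hcm x hx
  rw [hgx, inv_mul_cancel_left, hβR _ hz'R, hz'a] at hfz
  have hβz : autFun β z = z := by
    rw [hβR z hzR]
    have := hz'a
    rw [← hfz] at this
    exact this
  have hzQ : z ∈ centralizerIn S R ⊔ R := Subgroup.mem_sup_right hzR
  have hxQ : x ∈ centralizerIn S R ⊔ R := Subgroup.mem_sup_left hxC
  have hpz : ∀ j : ℕ, autFun (β ^ j) z = z := by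
    intro j
    induction j with
    | zero => rw [pow_zero, autFun_one hzQ]
    | succ j ih => rw [pow_succ, autFun_mul _ _ hzQ, hβz, ih]
  have hpx : ∀ j : ℕ, autFun (β ^ j) x = x * z ^ j := by
    intro j
    induction j with
    | zero => rw [pow_zero, autFun_one hxQ, pow_zero, mul_one]
    | succ j ih =>
      rw [pow_succ, autFun_mul _ _ hxQ, e1, autFun_map_mul _ hxQ hzQ, ih, hpz j, pow_succ,
        mul_assoc]
  have hzb : z ^ b = 1 := by
    have h := hpx b
    rw [hβb, autFun_one hxQ] at h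
    exact mul_left_cancel (a := x) (by rw [mul_one]; exact h.symm)
  obtain ⟨k₀, hk₀⟩ := pow_card_eq_one_of_mem hS
  have hz1 : z = 1 :=
    eq_one_of_pow_eq_one_of_coprime hzb (hk₀ _ (hQS hzQ)) (Nat.Coprime.pow_right k₀ hbp)
  rw [e1, hz1, mul_one]

end Cfsg.Agent.Helper85
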