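import Cfsg.Agent.Helper85.CXDefs

set_option autoImplicit false
set_option maxHeartbeats 1000000
open Cfsg

namespace Cfsg.Agent.Helper85

open Cfsg.FusionSystem
open Cfsg.Agent.Helper88

variable {Ω : Type*} [Group Ω] {S : Subgroup Ω}

/-- the inductive step for strong closure of `C`: from maps defined on subgroups meeting `T` in
at least `n + 1` elements to those meeting `T` in at least `n` elements -/
theorem cx_step [Finite S] {p : ℕ} [Fact p.Prime] (hS : IsPGroup p S) {F : FusionSystem S}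
    (hF : F.IsSaturated p) {T : Subgroup Ω} (hT : F.StronglyClosed T) {C : Subgroup Ω}
    (hgrow : CXGrow S T) {n : ℕ} (hn : n < Nat.card T) (hM : CXM F T C (n + 1))
    (hL2 : CXL2 F p T C n) : CXM F T C n := by
  intro D f hf hcard x hxD hxC
  by_cases hbig : n + 1 ≤ Nat.card ↥(D ⊓ T)
  · exact hM D f hf hbig x hxD hxC
  have hcardD : Nat.card ↥(D ⊓ T) = n := by omega
  have hTS : T ≤ S := hT.1
  have hDS : D ≤ S := hf.le
  obtain ⟨X, hXdef⟩ : ∃ X : Subgroup Ω, X = D ⊓ C := ⟨_, rfl⟩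
  obtain ⟨R, hRdef⟩ : ∃ R : Subgroup Ω, R = (D ⊓ T) ⊔ X := ⟨_, rfl⟩
  have hXD : X ≤ D := by rw [hXdef]; exact inf_le_left
  have hXC : X ≤ C := by rw [hXdef]; exact inf_le_right
  have hRD : R ≤ D := by rw [hRdef]; exact sup_le inf_le_left hXD
  have hXR : X ≤ R := by rw [hRdef]; exact le_sup_right
  have hPR : D ⊓ T ≤ R := by rw [hRdef]; exact le_sup_left
  have hRT : R ⊓ T = D ⊓ T := le_antisymm (inf_le_inf_right T hRD) (le_inf hPR inf_le_right)
  have hRS : R ≤ S := hRD.trans hDS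
  have hxX : x ∈ X := by rw [hXdef]; exact ⟨hxD, hxC⟩
  have hfR : IsMap F R f := hf.restrict hRD
  have hcardR : Nat.card ↥(R ⊓ T) = n := by rw [hRT]; exact hcardD
  have hR'S : img R f ≤ S := hfR.img_le
  obtain ⟨R'', hconj, hfa, hrec⟩ := hF (img R f) hR'S
  have hconjR : F.IsConj R R'' := isConj_trans F hfR.isConj hconj
  obtain ⟨χ', hχ', hχ'img⟩ := Helper88.exists_normalizer_map hS hfa hrec hconjR
  obtain ⟨χ, hχ, hχimg⟩ := Helper88.exists_normalizer_map hS hfa hrec hconj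
  subst hχ'img
  have hnTR : ¬ T ≤ R := by
    intro h
    have hfin : Finite ↥(R ⊓ T) := finite_of_le (inf_le_left.trans hRS)
    have h2 : Nat.card T ≤ Nat.card ↥(R ⊓ T) := Subgroup.card_le_of_le (le_inf h le_rfl)
    omega
  have hcardR' : Nat.card ↥(img R f ⊓ T) = n := by rw [cx_card_inf hT hfR]; exact hcardR
  have hnTR' : ¬ T ≤ img R f := by
    intro h
    have hfin : Finite ↥(img R f ⊓ T) := finite_of_le (inf_le_left.trans hR'S)
    have h2 : Nat.card T ≤ Nat.card ↥(img R f ⊓ T) := Subgroup.card_le_of_le (le_inf h le_rfl)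
    omega
  have hg1 : n + 1 ≤ Nat.card ↥(normalizerIn S R ⊓ T) := by
    have := hgrow R hRS hnTR
    omega
  have hg2 : n + 1 ≤ Nat.card ↥(normalizerIn S (img R f) ⊓ T) := by
    have := hgrow _ hR'S hnTR'
    omega
  have hRN : R ≤ normalizerIn S R := le_normalizerIn hRS
  have hL1 : ∀ y ∈ X, χ' y ∈ C := fun y hy => hM _ χ' hχ' hg1 y (hRN (hXR hy)) (hXC hy)
  have hχ'R : IsMap F R χ' := hχ'.restrict hRN
  have himgR : img R χ' = img (D ⊓ T) χ' ⊔ img X χ' := by
    have h : IsMap F ((D ⊓ T) ⊔ X) χ' := by rw [← hRdef]; exact hχ'R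
    have := h.img_sup
    rwa [← hRdef] at this
  have hPimg : img (D ⊓ T) χ' ≤ img R χ' ⊓ T := by
    intro y hy
    obtain ⟨z, hz, rfl⟩ := (hχ'R.restrict hPR).mem_img.1 hy
    exact ⟨hχ'R.apply_mem_img (hPR hz), sc_apply_mem hT hχ'R (hPR hz) hz.2⟩
  have hR''le : img R χ' ≤ (img R χ' ⊓ T) ⊔ img X χ' :=
    le_trans (le_of_eq himgR) (sup_le_sup_right hPimg _)
  have hX''C : img X χ' ≤ C := by
    intro y hy
    obtain ⟨z, hz, rfl⟩ := (hχ'R.restrict hXR).mem_img.1 hy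
    exact hL1 z hz
  have hR'N : img R f ≤ normalizerIn S (img R f) := le_normalizerIn hR'S
  have hχf : IsMap F R (χ ∘ f) := hfR.comp hχ (fun y hy => hR'N (hfR.apply_mem_img hy))
  have himgχf : img R (χ ∘ f) = img R χ' := by
    rw [← hχimg]
    apply le_antisymm
    · intro y hy
      obtain ⟨z, hz, rfl⟩ := hχf.mem_img.1 hy
      exact (hχ.restrict hR'N).apply_mem_img (hfR.apply_mem_img hz)
    · intro y hy
      obtain ⟨w, hw, rfl⟩ := (hχ.restrict hR'N).mem_img.1 hy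
      obtain ⟨z, hz, rfl⟩ := hfR.mem_img.1 hw
      exact hχf.apply_mem_img hz
  have hRle : R ≤ (R ⊓ T) ⊔ X := by rw [hRT, ← hRdef]
  have hL2x : χ (f x) ∈ C :=
    hL2 R (img R χ') X (img X χ') (χ ∘ f) hχf himgχf hfa hrec hcardR hXC hXR hRle hX''C hR''le
      x hxX
  obtain ⟨χi, hχi, hχi1, -, -⟩ := hχ.exists_inv
  have hcardD₂ : n + 1 ≤ Nat.card ↥(img (normalizerIn S (img R f)) χ ⊓ T) := by
    rw [cx_card_inf hT hχ]; exact hg2
  have hfxR' : f x ∈ img R f := hfR.apply_mem_img (hXR hxX)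
  have h3 := hM _ χi hχi hcardD₂ (χ (f x)) (hχ.apply_mem_img (hR'N hfxR')) hL2x
  rwa [hχi1 _ (hR'N hfxR')] at h3

end Cfsg.Agent.Helper85
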