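import Cfsg.Agent.Helper85.CXPPRIME
import Cfsg.Agent.Helper85.CXKEY
import Cfsg.Agent.Helper85.CXJOIN
import Cfsg.Agent.Helper85.CXINNER
import Cfsg.Agent.Helper85.CXEXT
import Cfsg.Agent.Helper85.CXSTEP
import Cfsg.Agent.Helper3.CXCOMM
import Cfsg.Agent.Helper3.CXGROW
import Cfsg.Agent.Helper3.CXLARGEST
import Cfsg.Agent.Helper86.CXAHAT
import Cfsg.Agent.Helper86.CXBASE
import Cfsg.Agent.Helper29.CXL2
import Cfsg.Agent.Helper93.CXIFF

set_option autoImplicit false
open Cfsg

namespace Cfsg.Agent.Helper85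

open Cfsg.FusionSystem
open Cfsg.Agent.Helper88

variable {Ω : Type*} [Group Ω] {S : Subgroup Ω}

/-- for a normal subsystem `E` of `F` over `T`: among the subgroups `X ≤ C_S(T)` with `E ≤ C_F(X)`
there is a largest one, and it is strongly closed in `F` -/
theorem cx_main [Finite S] {p : ℕ} [Fact p.Prime] (hS : IsPGroup p S) {F : FusionSystem S}
    {T : Subgroup Ω} {E : FusionSystem T} (hE : E.IsNormalIn F p) :
    ∃ C : Subgroup Ω, InCX F E C ∧ (∀ Y : Subgroup Ω, InCX F E Y → Y ≤ C) ∧ F.StronglyClosed C := by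
  have hF := hE.1.2.1
  have hinv := hE.1.2.2
  have hT := hinv.2.1
  have hTS : T ≤ S := hT.1
  have hfinT : Finite T := finite_of_le hTS
  have hpp := cx_pprime hS hE (cx_key hS F)
  obtain ⟨C, hC, hmax⟩ := Cfsg.Agent.Helper3.CXLARGEST.cx_largest hinv.1 hTS
    (fun X₁ X₂ h₁ h₂ => cx_join hS hE hpp h₁ h₂)
  refine ⟨C, hC, hmax, ?_⟩
  have hah := Cfsg.Agent.Helper86.CXAHAT.cx_ahat hS hF hinv hC hmax
  have hbase := Cfsg.Agent.Helper86.CXBASE.cx_base hS hE hC hmax hah
  have hTn : ∀ s ∈ S, ∀ t ∈ T, s * t * s⁻¹ ∈ T := fun s hs t ht =>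
    sc_apply_mem hT (isMap_conj F hTS hs) ht ht
  have hgrow := Cfsg.Agent.Helper3.CXGROW.cx_grow hS hTS hTn
  have hin := cx_inner hS hT
  have key : ∀ d : ℕ, d ≤ Nat.card T → CXM F T C (Nat.card T - d) := by
    intro d
    induction d with
    | zero => intro _; simpa using hbase
    | succ d ih =>
      intro hd
      have hM := ih (by omega)
      have hn : Nat.card T - (d + 1) < Nat.card T := by omega
      have e : Nat.card T - (d + 1) + 1 = Nat.card T - d := by omega
      rw [← e] at hM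
      exact cx_step hS hF hT hgrow hn hM
        (Cfsg.Agent.Helper29.CXL2.cx_L2 hS hinv hC hah hin (cx_ext F)
          (Cfsg.Agent.Helper3.CXCOMM.cx_comm Ω) hn hM)
  have h0 : CXM F T C 0 := by simpa using key (Nat.card T) le_rfl
  refine ⟨hC.1.trans inf_le_left, fun R hRC φ hφ x => ?_⟩
  have h := h0 R (extHom φ) (isMap_extHom hφ) (Nat.zero_le _) x x.2 (hRC x.2)
  rwa [extHom_apply] at h

end Cfsg.Agent.Helper85
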