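import Cfsg.Agent.Helper85.CXDefs

set_option autoImplicit false
set_option maxHeartbeats 1000000
open Cfsg

namespace Cfsg.Agent.Helper85

open Cfsg.FusionSystem
open Cfsg.Agent.Helper88

variable {Ω : Type*} [Group Ω] {S : Subgroup Ω}

/-- `p'`-automorphisms in `E` of `E`-centric subgroups have a universal extension over `C_S(T)`:
it fixes pointwise every `X ≤ C_S(T)` for which some extension fixing `X` exists -/
theorem cx_pprime [Finite S] {p : ℕ} [Fact p.Prime] (hS : IsPGroup p S) {F : FusionSystem S}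
    {T : Subgroup Ω} {E : FusionSystem T} (hE : E.IsNormalIn F p) (hkey : CXKey F p) :
    CXPprime F E p := by
  intro R hRc a ha m ham hmp
  have hEs := hE.1.1
  have hF := hE.1.2.1
  have hinv := hE.1.2.2
  have hT := hinv.2.1
  have hTS : T ≤ S := hT.1
  have hfinT : Finite T := finite_of_le hTS
  have hRT : R ≤ T := hRc.1
  have hRS : R ≤ S := hRT.trans hTS
  have hCTR : centralizerIn S T ≤ centralizerIn S R := fun c hc =>
    mem_centralizerIn_iff.2 ⟨(mem_centralizerIn_iff.1 hc).1, fun y hy =>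
      (mem_centralizerIn_iff.1 hc).2 y (hRT hy)⟩
  have hCD : centralizerIn S R ≤ normalizerIn S R := centralizerIn_le_normalizerIn S R
  have hRD : R ≤ normalizerIn S R := le_normalizerIn hRS
  obtain ⟨R', hconj, hfa', hrec'⟩ := hF R hRS
  obtain ⟨χ, hχ, hχimg⟩ := Helper88.exists_normalizer_map hS hfa' hrec' hconj
  subst hχimg
  obtain ⟨χi, hχi, hχi1, hχi2, -⟩ := hχ.exists_inv
  have hχR : IsMap F R χ := hχ.restrict hRD
  have hR'c : E.IsCentric (img R χ) := isCentric_img_of_invariant hinv hRc hχR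
  have hgv : ∀ r ∈ R, (χ ∘ (autFun a ∘ χi)) (χ r) = χ (autFun a r) := fun r hr => by
    show χ (autFun a (χi (χ r))) = χ (autFun a r)
    rw [hχi1 r (hRD hr)]
  have ham' : IsMap E R (autFun a) := IsMap.of_mem_autGroup hRT ha
  have hga : IsMap E (img R χ) (χ ∘ (autFun a ∘ χi)) :=
    invariant_isMap hS hF hinv le_rfl hRT ham' (fun x hx => autFun_mem a hx) hχR hgv
  have hgamaps : ∀ v ∈ img R χ, (χ ∘ (autFun a ∘ χi)) v ∈ img R χ := by
    intro v hv
    obtain ⟨r, hr, rfl⟩ := hχR.mem_img.1 hv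
    rw [hgv r hr]; exact hχR.apply_mem_img (autFun_mem a hr)
  obtain ⟨a', ha', ha'v⟩ := hga.exists_aut (hga.img_eq_of_mapsTo hgamaps)
  have ha'χ : ∀ r ∈ R, autFun a' (χ r) = χ (autFun a r) := fun r hr => by
    rw [ha'v _ (hχR.apply_mem_img hr), hgv r hr]
  have ha'pow : ∀ j : ℕ, ∀ r ∈ R, autFun (a' ^ j) (χ r) = χ (autFun (a ^ j) r) := by
    intro j
    induction j with
    | zero =>
      intro r hr
      rw [pow_zero, pow_zero, autFun_one hr, autFun_one (hχR.apply_mem_img hr)]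
    | succ j ih =>
      intro r hr
      rw [pow_succ, pow_succ, autFun_mul _ _ (hχR.apply_mem_img hr), ha'χ r hr,
        ih _ (autFun_mem a hr), autFun_mul _ _ hr]
  have ha'm : a' ^ m = 1 := by
    apply autFun_ext
    intro v hv
    obtain ⟨r, hr, rfl⟩ := hχR.mem_img.1 hv
    rw [ha'pow m r hr, ham, autFun_one hr, autFun_one (hχR.apply_mem_img hr)]
  have hgood : CGood F (img R χ) (autFun a') := cgood_all hS hE _ hR'c hfa' hrec' a' ha'
  -- the good extension of `a'`, made of `p'`-order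
  have hR'S : img R χ ≤ S := hrec'.1
  have hQS : centralizerIn S (img R χ) ⊔ img R χ ≤ S := sup_le inf_le_left hR'S
  have hfinQ : Finite ↥(centralizerIn S (img R χ) ⊔ img R χ) := finite_of_le hQS
  obtain ⟨φ₀, hφ₀, hφ₀R, hφ₀C⟩ := hgood
  have hmaps := cs_mapsTo hφ₀ hφ₀R
  obtain ⟨αQ, hαQ, hαQφ⟩ := hφ₀.exists_aut (hφ₀.img_eq_of_mapsTo hmaps)
  have hαR : ∀ r ∈ img R χ, autFun αQ r = autFun a' r := fun r hr =>
    (hαQφ r (Subgroup.mem_sup_right hr)).trans (hφ₀R r hr)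
  have hαC : ∀ x ∈ centralizerIn S (img R χ), x⁻¹ * autFun αQ x ∈ img R χ := fun x hx => by
    rw [hαQφ x (Subgroup.mem_sup_left hx)]; exact hφ₀C x hx
  obtain ⟨N, b, hbp, hNb, hNm⟩ := exists_pprime_pow p αQ hmp
  obtain ⟨hβR, hβC⟩ := cs_pow_facts hαR hαC N
  rw [pow_eq_self_of_mod ha'm hNm] at hβR
  have hβ : αQ ^ N ∈ F.autGroup (centralizerIn S (img R χ) ⊔ img R χ) := Subgroup.pow_mem _ hαQ N
  have hφ' : IsMap F (centralizerIn S (img R χ) ⊔ img R χ) (autFun (αQ ^ N)) :=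
    IsMap.of_mem_autGroup hQS hβ
  have hfix : ∀ (P : Subgroup Ω) (f : Ω → Ω), IsCMap F (img R χ) P f → ∀ y ∈ P,
      autFun (αQ ^ N) (y⁻¹ * f y) = y⁻¹ * f y := fun P f hf y hy =>
    cgood_fix_focal_aux hS hF hrec' hβ hβR hβC hbp hNb hf hy
  -- the transported extension
  have hCTD : centralizerIn S T ≤ normalizerIn S R := hCTR.trans hCD
  have hD₀ : R ⊔ centralizerIn S T ≤ normalizerIn S R := sup_le hRD hCTD
  have hχD₀ : IsMap F (R ⊔ centralizerIn S T) χ := hχ.restrict hD₀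
  have hCimg : img (centralizerIn S R) χ ≤ centralizerIn S (img R χ) :=
    img_centralizerIn_le hχ hRD hCD
  have hχCR : IsMap F (centralizerIn S R) χ := hχ.restrict hCD
  have hχmaps : ∀ q ∈ R ⊔ centralizerIn S T, χ q ∈ centralizerIn S (img R χ) ⊔ img R χ :=
    hχD₀.mapsTo_sup (fun r hr => Subgroup.mem_sup_right (hχR.apply_mem_img hr))
      (fun c hc => Subgroup.mem_sup_left (hCimg (hχCR.apply_mem_img (hCTR hc))))
  have h1 : IsMap F (R ⊔ centralizerIn S T) (autFun (αQ ^ N) ∘ χ) := hχD₀.comp hφ' hχmaps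
  have h1maps' : ∀ q ∈ R ⊔ centralizerIn S T,
      (autFun (αQ ^ N) ∘ χ) q ∈ img (normalizerIn S R) χ :=
    h1.mapsTo_sup
      (fun r hr => by
        show autFun (αQ ^ N) (χ r) ∈ _
        rw [hβR _ (hχR.apply_mem_img hr), ha'χ r hr]
        exact hχ.apply_mem_img (hRD (autFun_mem a hr)))
      (fun c hc => by
        show autFun (αQ ^ N) (χ c) ∈ _
        have hc' : χ c ∈ centralizerIn S (img R χ) := hCimg (hχCR.apply_mem_img (hCTR hc))
        have hw := hβC (χ c) hc'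
        have e : autFun (αQ ^ N) (χ c) = χ c * ((χ c)⁻¹ * autFun (αQ ^ N) (χ c)) := by group
        rw [e]
        exact Subgroup.mul_mem _ (hχ.apply_mem_img (hCTD hc)) (hχ.img_restrict_le hRD hw))
  refine ⟨χi ∘ (autFun (αQ ^ N) ∘ χ), h1.comp hχi h1maps', fun r hr => ?_,
    fun X hX hfx x hx => ?_⟩
  · show χi (autFun (αQ ^ N) (χ r)) = autFun a r
    rw [hβR _ (hχR.apply_mem_img hr), ha'χ r hr, hχi1 _ (hRD (autFun_mem a hr))]
  · have hXD : X ≤ normalizerIn S R := hX.trans hCTD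
    have hχX : IsMap F X χ := hχ.restrict hXD
    have hX' : img X χ ≤ centralizerIn S (img R χ) := by
      intro y hy
      obtain ⟨x', hx', rfl⟩ := hχX.mem_img.1 hy
      exact hCimg (hχCR.apply_mem_img (hCTR (hX hx')))
    have hfx' : FixX F (img X χ) (img R χ) (autFun a') := by
      obtain ⟨fX, hfX, hfXR, hfXX⟩ := hfx
      have hRXD : R ⊔ X ≤ normalizerIn S R := sup_le hRD hXD
      have hχRX : IsMap F (R ⊔ X) χ := hχ.restrict hRXD
      have himgRX : img (R ⊔ X) χ = img R χ ⊔ img X χ := hχRX.img_sup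
      have hfXmaps : ∀ q ∈ R ⊔ X, fX q ∈ normalizerIn S R :=
        hfX.mapsTo_sup (fun r hr => by rw [hfXR r hr]; exact hRD (autFun_mem a hr))
          (fun x' hx' => by rw [hfXX x' hx']; exact hXD hx')
      have hfXmaps2 : ∀ q ∈ R ⊔ X, fX q ∈ R ⊔ X :=
        hfX.mapsTo_sup (fun r hr => by rw [hfXR r hr]; exact Subgroup.mem_sup_left (autFun_mem a hr))
          (fun x' hx' => by rw [hfXX x' hx']; exact Subgroup.mem_sup_right hx')
      have hχimaps : ∀ y ∈ img (R ⊔ X) χ, χi y ∈ R ⊔ X := by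
        intro y hy
        obtain ⟨q, hq, rfl⟩ := hχRX.mem_img.1 hy
        rw [hχi1 q (hRXD hq)]; exact hq
      have hext : IsMap F (img (R ⊔ X) χ) (χ ∘ (fX ∘ χi)) :=
        ((hχi.restrict (hχ.img_restrict_le hRXD)).comp hfX hχimaps).comp hχ
          (fun y hy => hfXmaps _ (hχimaps y hy))
      refine ⟨χ ∘ (fX ∘ χi), by rw [← himgRX]; exact hext, fun v hv => ?_, fun y hy => ?_⟩
      · obtain ⟨r, hr, rfl⟩ := hχR.mem_img.1 hv
        show χ (fX (χi (χ r))) = autFun a' (χ r)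
        rw [hχi1 r (hRD hr), hfXR r hr, ha'χ r hr]
      · obtain ⟨x', hx', rfl⟩ := hχX.mem_img.1 hy
        show χ (fX (χi (χ x'))) = χ x'
        rw [hχi1 x' (hXD hx'), hfXX x' hx']
    have hfix' : autFun (αQ ^ N) (χ x) = χ x :=
      hkey (img R χ) a' (αQ ^ N) b (img X χ) hR'S hβ hβR hβC hbp hNb hfix hX' hfx' (χ x)
        (hχX.apply_mem_img hx)
    show χi (autFun (αQ ^ N) (χ x)) = x
    rw [hfix', hχi1 _ (hXD hx)]

end Cfsg.Agent.Helper85
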