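import Cfsg.Agent.Helper85.Ambient
import Cfsg.Agent.Helper85.Frattini
import Cfsg.Agent.Helper85.PPower
import Cfsg.Agent.Helper84.FusionSeries
import Cfsg.Agent.Helper84.FusionNormal
import Cfsg.Agent.Helper87.Radical
import Cfsg.Agent.Helper88.FusionNormal
import Cfsg.Agent.Helper88.FusionD

set_option autoImplicit false

namespace Cfsg.Agent.Helper85

open Cfsg Cfsg.FusionSystem
open Cfsg.Agent.Helper88

variable {Ω : Type*} [Group Ω] {S : Subgroup Ω}

/-- A map of the system maps the elements of a strongly closed subgroup into that subgroup. -/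
theorem stronglyClosed_isMap_mem {F : FusionSystem S} {R P : Subgroup Ω} {f : Ω → Ω}
    (hR : F.StronglyClosed R) (hf : IsMap F P f) {y : Ω} (hyP : y ∈ P) (hyR : y ∈ R) : f y ∈ R := by
  obtain ⟨φ, hφ, hφf⟩ := hf.restrict (inf_le_left : P ⊓ R ≤ P)
  have h1 := hR.2 (P ⊓ R) inf_le_right φ hφ ⟨y, hyP, hyR⟩
  rw [hφf] at h1
  exact h1

/-- The condition defining the stabilizer of the series `1 ≤ R ≤ Q` in `Aut(P)`. -/
def SerP (P R Q : Subgroup Ω) (β : MulAut P) : Prop :=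
  (∀ y ∈ R, autFun β y = y) ∧ ∀ x ∈ Q, x⁻¹ * autFun β x ∈ R

theorem SerP.mul {P R Q : Subgroup Ω} (hRQ : R ≤ Q) (hQP : Q ≤ P) {a b : MulAut P}
    (ha : SerP P R Q a) (hb : SerP P R Q b) : SerP P R Q (a * b) := by
  refine ⟨fun y hy => ?_, fun x hx => ?_⟩
  · rw [autFun_mul _ _ (hQP (hRQ hy)), hb.1 y hy, ha.1 y hy]
  · have hxP : x ∈ P := hQP hx
    have hr := hb.2 x hx
    have hrP : x⁻¹ * autFun b x ∈ P := hQP (hRQ hr)
    have e1 : autFun b x = x * (x⁻¹ * autFun b x) := by group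
    rw [autFun_mul _ _ hxP, e1, autFun_map_mul a hxP hrP, ha.1 _ hr]
    have e2 : x⁻¹ * (autFun a x * (x⁻¹ * autFun b x)) = (x⁻¹ * autFun a x) * (x⁻¹ * autFun b x) := by
      group
    rw [e2]
    exact R.mul_mem (ha.2 x hx) hr

theorem SerP.one {P R Q : Subgroup Ω} (hQP : Q ≤ P) (hRQ : R ≤ Q) : SerP P R Q 1 := by
  refine ⟨fun y hy => autFun_one (hQP (hRQ hy)), fun x hx => ?_⟩
  rw [autFun_one (hQP hx), inv_mul_cancel]
  exact R.one_mem

/-- The automorphisms of `P` stabilizing the series `1 ≤ R ≤ Q`. -/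
def serStab (P R Q : Subgroup Ω) (hRQ : R ≤ Q) (hQP : Q ≤ P) : Subgroup (MulAut P) where
  carrier := {β | SerP P R Q β ∧ SerP P R Q β⁻¹}
  one_mem' := ⟨SerP.one hQP hRQ, by rw [inv_one]; exact SerP.one hQP hRQ⟩
  mul_mem' := by
    rintro a b ⟨ha, ha'⟩ ⟨hb, hb'⟩
    refine ⟨ha.mul hRQ hQP hb, ?_⟩
    rw [mul_inv_rev]
    exact hb'.mul hRQ hQP ha'
  inv_mem' := by
    rintro a ⟨ha, ha'⟩
    refine ⟨ha', ?_⟩
    rw [inv_inv]
    exact ha

theorem SerP.conj {F : FusionSystem S} {P R Q : Subgroup Ω} (hRQ : R ≤ Q) (hQP : Q ≤ P) (hPS : P ≤ S)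
    (hR : F.StronglyClosed R) (hQ : F.StronglyClosed Q) {γ β : MulAut P} (hγ : γ ∈ F.autGroup P)
    (hβ : SerP P R Q β) : SerP P R Q (γ * β * γ⁻¹) := by
  have hγm : IsMap F P (autFun γ) := IsMap.of_mem_autGroup hPS hγ
  have hγi : IsMap F P (autFun γ⁻¹) := IsMap.of_mem_autGroup hPS (Subgroup.inv_mem _ hγ)
  refine ⟨fun y hy => ?_, fun x hx => ?_⟩
  · have hyP : y ∈ P := hQP (hRQ hy)
    have h1 : autFun γ⁻¹ y ∈ R := stronglyClosed_isMap_mem hR hγi hyP hy
    rw [autFun_mul _ _ hyP, autFun_mul _ _ (autFun_mem _ hyP), hβ.1 _ h1, autFun_apply_inv γ hyP]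
  · have hxP : x ∈ P := hQP hx
    have h1 : autFun γ⁻¹ x ∈ Q := stronglyClosed_isMap_mem hQ hγi hxP hx
    have h1P : autFun γ⁻¹ x ∈ P := autFun_mem _ hxP
    have hr := hβ.2 _ h1
    have hrP : (autFun γ⁻¹ x)⁻¹ * autFun β (autFun γ⁻¹ x) ∈ P := hQP (hRQ hr)
    have e1 : autFun β (autFun γ⁻¹ x) =
        autFun γ⁻¹ x * ((autFun γ⁻¹ x)⁻¹ * autFun β (autFun γ⁻¹ x)) := by group
    rw [autFun_mul _ _ hxP, autFun_mul _ _ h1P, e1, autFun_map_mul γ h1P hrP, autFun_apply_inv γ hxP,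
      inv_mul_cancel_left]
    exact stronglyClosed_isMap_mem hR hγm hrP hr

theorem serStab_conj_mem {F : FusionSystem S} {P R Q : Subgroup Ω} (hRQ : R ≤ Q) (hQP : Q ≤ P)
    (hPS : P ≤ S) (hR : F.StronglyClosed R) (hQ : F.StronglyClosed Q) {γ β : MulAut P}
    (hγ : γ ∈ F.autGroup P) (hβ : β ∈ serStab P R Q hRQ hQP) :
    γ * β * γ⁻¹ ∈ serStab P R Q hRQ hQP := by
  refine ⟨SerP.conj hRQ hQP hPS hR hQ hγ hβ.1, ?_⟩
  have e : (γ * β * γ⁻¹)⁻¹ = γ * β⁻¹ * γ⁻¹ := by group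
  rw [e]
  exact SerP.conj hRQ hQP hPS hR hQ hγ hβ.2

/-- The stabilizer of the series `1 ≤ R ≤ Q` in `Aut(P)` is a `p`-group when `Q` is normal in `S` and
self-centralizing. -/
theorem serStab_isPGroup [Finite S] {p : ℕ} [Fact p.Prime] (hS : IsPGroup p S) {P R Q : Subgroup Ω}
    (hRQ : R ≤ Q) (hQP : Q ≤ P) (hPS : P ≤ S) (hQn : ∀ s ∈ S, ∀ x ∈ Q, s * x * s⁻¹ ∈ Q)
    (hQc : centralizerIn S Q ≤ Q) : IsPGroup p (serStab P R Q hRQ hQP) := by
  obtain ⟨k, hk⟩ := pow_card_eq_one_of_mem hS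
  rintro ⟨β, hβ, -⟩
  refine ⟨k + k, Subtype.ext ?_⟩
  show β ^ p ^ (k + k) = 1
  have claim : ∀ m : ℕ, ∀ x ∈ Q, autFun (β ^ m) x = x * (x⁻¹ * autFun β x) ^ m := by
    intro m
    induction m with
    | zero => intro x hx; rw [pow_zero, pow_zero, autFun_one (hQP hx), mul_one]
    | succ m ih =>
      intro x hx
      have hxP : x ∈ P := hQP hx
      have hz := hβ.2 x hx
      have hzm : (x⁻¹ * autFun β x) ^ m ∈ R := R.pow_mem hz m
      rw [pow_succ', autFun_mul _ _ hxP, ih x hx, autFun_map_mul β hxP (hQP (hRQ hzm)), hβ.1 _ hzm,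
        pow_succ', ← mul_assoc x, mul_inv_cancel_left]
  have hfix : ∀ y ∈ Q, autFun (β ^ p ^ k) y = y := by
    intro y hy
    rw [claim _ y hy, hk _ (hPS (hQP (hRQ (hβ.2 y hy)))), mul_one]
  have hz : ∀ w ∈ P, w⁻¹ * autFun (β ^ p ^ k) w ∈ Q := by
    intro w hw
    apply hQc
    refine Subgroup.mem_inf.2 ⟨S.mul_mem (S.inv_mem (hPS hw)) (hPS (autFun_mem _ hw)),
      Subgroup.mem_centralizer_iff.2 (fun q hq => ?_)⟩
    have hqP : q ∈ P := hQP hq
    have hc : w * q * w⁻¹ ∈ Q := hQn w (hPS hw) q hq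
    have e1 : autFun (β ^ p ^ k) (w * q * w⁻¹) = w * q * w⁻¹ := hfix _ hc
    have e2 : autFun (β ^ p ^ k) (w * q * w⁻¹) =
        autFun (β ^ p ^ k) w * q * (autFun (β ^ p ^ k) w)⁻¹ := by
      have hwi : w⁻¹ ∈ P := P.inv_mem hw
      rw [autFun_map_mul _ (P.mul_mem hw hqP) hwi, autFun_map_mul _ hw hqP, hfix q hq]
      congr 1
      have e3 : autFun (β ^ p ^ k) w * autFun (β ^ p ^ k) w⁻¹ = 1 := by
        rw [← autFun_map_mul _ hw hwi, mul_inv_cancel, autFun_apply' _ P.one_mem]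
        have : (⟨1, P.one_mem⟩ : P) = 1 := rfl
        rw [this, map_one]; rfl
      exact eq_inv_of_mul_eq_one_right e3
    have e4 : w * q * w⁻¹ = autFun (β ^ p ^ k) w * q * (autFun (β ^ p ^ k) w)⁻¹ := e1.symm.trans e2
    calc q * (w⁻¹ * autFun (β ^ p ^ k) w)
        = w⁻¹ * (w * q * w⁻¹) * autFun (β ^ p ^ k) w := by group
      _ = w⁻¹ * (autFun (β ^ p ^ k) w * q * (autFun (β ^ p ^ k) w)⁻¹) * autFun (β ^ p ^ k) w := by
          rw [← e4]
      _ = w⁻¹ * autFun (β ^ p ^ k) w * q := by group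
  have h3 := aut_pow_eq_one_of (β ^ p ^ k) hQP hfix hz (p ^ k) (fun y hy => hk y (hPS (hQP hy)))
  rw [pow_add, pow_mul]
  exact h3

/-- Conjugation by an element of a subgroup normal in the system normalizes `Aut_Q(P)`. -/
theorem autInducedBy_conj_mem_of_isNormal [Finite S] {F : FusionSystem S} {Q P : Subgroup Ω}
    (hQ : F.IsNormal Q) (hPS : P ≤ S) {γ κ : MulAut P} (hγ : γ ∈ F.autGroup P)
    (hκ : κ ∈ autInducedBy Q P) : γ * κ * γ⁻¹ ∈ autInducedBy Q P := by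
  obtain ⟨f', hf', hf'P, hf'Q⟩ := ((isNormal_iff F Q).1 hQ).2 P (autFun γ) (IsMap.of_mem_autGroup hPS hγ)
  obtain ⟨g, hg, hκg⟩ := (Helper88.mem_autInducedBy_iff Q P κ).1 hκ
  refine (Helper88.mem_autInducedBy_iff Q P _).2 ⟨f' g, hf'Q g hg, fun x => ?_⟩
  have hy : ((γ⁻¹ x : P) : Ω) ∈ P := (γ⁻¹ x).2
  have h1 : ((κ (γ⁻¹ x) : P) : Ω) = g * ((γ⁻¹ x : P) : Ω) * g⁻¹ := hκg _
  have h2 : g * ((γ⁻¹ x : P) : Ω) * g⁻¹ ∈ P := by rw [← h1]; exact (κ (γ⁻¹ x)).2
  show ((γ (κ (γ⁻¹ x)) : P) : Ω) = _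
  rw [← autFun_apply γ (κ (γ⁻¹ x)), h1, ← hf'P _ h2,
    hf'.map_conj (Subgroup.mem_sup_right hg) (Subgroup.mem_sup_left hy), hf'P _ hy, autFun_apply,
    MulAut.apply_inv_self]

/-- A strongly closed subgroup `W` acting trivially on the factors of a series `1 ≤ R ≤ Q`, with `Q` normal
and centric and `R` strongly closed, is normal in the saturated system. -/
theorem isNormal_of_series [Finite S] {p : ℕ} [Fact p.Prime] (hS : IsPGroup p S) (F : FusionSystem S)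
    (hF : F.IsSaturated p) {Q R W : Subgroup Ω} (hQn : F.IsNormal Q) (hQc : F.IsCentric Q)
    (hR : F.StronglyClosed R) (hRQ : R ≤ Q) (hW : F.StronglyClosed W)
    (h1 : ∀ y ∈ R, ∀ w ∈ W, w * y * w⁻¹ = y) (h2 : ∀ x ∈ Q, ∀ w ∈ W, x⁻¹ * (w * x * w⁻¹) ∈ R) :
    F.IsNormal W := by
  rw [Helper84.normal_iff_stronglyClosed p hS F hF]
  refine ⟨hW, fun P hc hr => ?_⟩
  have hQP : Q ≤ P := Helper84.normal_le_of_centric_radical hS F hQn hc hr
  have hPS : P ≤ S := hc.1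
  have hQsc : F.StronglyClosed Q := Helper88.stronglyClosed_of_isNormal hQn
  by_contra hWP
  obtain ⟨r, hrW, hrN, hrP⟩ := Helper84.exists_mem_normalizer_not_mem_of_not_le hS hPS hW.1
    (fun s hs q hq => stronglyClosed_conj_mem hW hs hq) hWP
  apply Helper84.not_mem_inn_of_centric F hc hrN (hW.1 hrW) hrP
  rw [← hr.2]
  have hser : ∀ w ∈ W, ∀ hw : w ∈ Subgroup.normalizer (P : Set Ω),
      SerP P R Q (Helper84.conjAut P w hw) := by
    intro w hwW hw
    refine ⟨fun y hy => ?_, fun x hx => ?_⟩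
    · rw [autFun_apply' _ (hQP (hRQ hy)), Helper84.conjAut_apply]
      exact h1 y hy w hwW
    · rw [autFun_apply' _ (hQP hx), Helper84.conjAut_apply]
      exact h2 x hx w hwW
  refine Helper87.mem_pCore_map_of_normal_pgroup (F.autGroup P) (serStab P R Q hRQ hQP)
    (serStab_isPGroup hS hRQ hQP hPS (fun s hs x hx => stronglyClosed_conj_mem hQsc hs hx)
      (hQc.2 Q (isConj_refl F hQc.1)))
    (fun γ hγ κ hκ => serStab_conj_mem hRQ hQP hPS hR hQsc hγ hκ) ?_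
    (Helper88.autInducedBy_le_autGroup F hPS (Helper84.conjAut_mem_autInducedBy (hW.1 hrW) hrN))
  refine ⟨hser r hrW hrN, ?_⟩
  have e : (Helper84.conjAut P r hrN)⁻¹ = Helper84.conjAut P r⁻¹ (Subgroup.inv_mem _ hrN) := by
    apply autFun_ext
    intro x hx
    have h3 : autFun (Helper84.conjAut P r hrN) (r⁻¹ * x * r) = x := by
      have hmem : r⁻¹ * x * r ∈ P := by
        have := (Subgroup.mem_normalizer_iff.1 (Subgroup.inv_mem _ hrN) x).1 hx
        simpa using this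
      rw [autFun_apply' _ hmem, Helper84.conjAut_apply]
      group
    have h4 : autFun (Helper84.conjAut P r⁻¹ (Subgroup.inv_mem _ hrN)) x = r⁻¹ * x * r := by
      rw [autFun_apply' _ hx, Helper84.conjAut_apply, inv_inv]
    rw [h4]
    have hmem : r⁻¹ * x * r ∈ P := by
      have := (Subgroup.mem_normalizer_iff.1 (Subgroup.inv_mem _ hrN) x).1 hx
      simpa using this
    calc autFun (Helper84.conjAut P r hrN)⁻¹ x
        = autFun (Helper84.conjAut P r hrN)⁻¹ (autFun (Helper84.conjAut P r hrN) (r⁻¹ * x * r)) := by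
          rw [h3]
      _ = r⁻¹ * x * r := autFun_inv_apply _ hmem
  rw [e]
  exact hser r⁻¹ (W.inv_mem hrW) _

/-- In a constrained system the largest normal subgroup is centric. -/
theorem core_isCentric [Finite S] {p : ℕ} {F : FusionSystem S} (hF : F.IsConstrained p) :
    F.IsNormal F.core ∧ F.IsCentric F.core := by
  obtain ⟨-, Q₀, hn, hc⟩ := hF
  have hcore : F.IsNormal F.core := isNormal_core F
  exact ⟨hcore, isCentric_of_le hc (le_sSup hn) hcore.1⟩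

/-- A saturated subsystem of a constrained system over a strongly closed subgroup is constrained. -/
theorem isConstrained_of_subsystem [Finite S] {p : ℕ} [Fact p.Prime] (hS : IsPGroup p S)
    (F : FusionSystem S) (hFc : F.IsConstrained p) {T : Subgroup Ω} (hT : F.StronglyClosed T)
    (E : FusionSystem T) (hEs : E.IsSaturated p) (hEF : E.IsSubsystemOf F) : E.IsConstrained p := by
  have hF : F.IsSaturated p := hFc.1
  obtain ⟨hQn, hQc⟩ := core_isCentric hFc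
  have hTS : T ≤ S := hT.1
  have hfT : Finite T := Helper88.finite_of_le hTS
  have hTp : IsPGroup p T := hS.to_le hTS
  have hQsc : F.StronglyClosed F.core := Helper88.stronglyClosed_of_isNormal hQn
  have hQS : F.core ≤ S := hQn.1
  -- `R = Q ∩ T`
  have hRF : F.StronglyClosed (F.core ⊓ T) :=
    ⟨inf_le_left.trans hQS, fun P' hP' φ hφ x =>
      ⟨hQsc.2 P' (hP'.trans inf_le_left) φ hφ x, hT.2 P' (hP'.trans inf_le_right) φ hφ x⟩⟩
  have hRE : E.StronglyClosed (F.core ⊓ T) :=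
    ⟨inf_le_right, fun P' hP' φ hφ x => hRF.2 P' hP' φ (hEF P' hφ) x⟩
  have hREn : E.IsNormal (F.core ⊓ T) := by
    rw [Helper84.normal_iff_stronglyClosed p hTp E hEs]
    refine ⟨hRE, fun P hc hr => ?_⟩
    have hPT : P ≤ T := hc.1
    have hPS : P ≤ S := hPT.trans hTS
    by_contra hRP
    obtain ⟨r, hrR, hrN, hrP⟩ := Helper84.exists_mem_normalizer_not_mem_of_not_le hTp hPT inf_le_right
      (fun s hs q hq => stronglyClosed_conj_mem hRF (hTS hs) hq) hRP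
    apply Helper84.not_mem_inn_of_centric E hc hrN hrR.2 hrP
    rw [← hr.2]
    have hfP : Finite P := Helper88.finite_of_le hPS
    refine Helper87.mem_pCore_map_of_normal_pgroup (E.autGroup P) (autInducedBy F.core P)
      ((isPGroup_autInducedBy hS P).to_le (Helper84.autInducedBy_mono hQS P))
      (fun γ hγ κ hκ => autInducedBy_conj_mem_of_isNormal hQn hPS ?_ hκ)
      (Helper84.conjAut_mem_autInducedBy hrR.1 hrN)
      (Helper88.autInducedBy_le_autGroup E hPT (Helper84.conjAut_mem_autInducedBy hrR.2 hrN))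
    exact (Helper88.mem_autGroup_iff F hPS γ).2
      (isMap_of_subsystem hEF ((Helper88.mem_autGroup_iff E hPT γ).1 hγ))
  -- `W = C_T(R)` is normal in `F`
  have hWsc : F.StronglyClosed (centralizerIn T (F.core ⊓ T)) := by
    refine ⟨inf_le_left.trans hTS, fun P' hP' φ hφ x => ?_⟩
    have hxT : φ x ∈ T := hT.2 P' (hP'.trans inf_le_left) φ hφ x
    refine Subgroup.mem_inf.2 ⟨hxT, Subgroup.mem_centralizer_iff.2 (fun y hy => ?_)⟩
    obtain ⟨f', hf', hf'P, hf'Q⟩ := ((isNormal_iff F F.core).1 hQn).2 P' (extHom φ) (isMap_extHom hφ)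
    have hRle : F.core ⊓ T ≤ P' ⊔ F.core := inf_le_left.trans le_sup_right
    have hfR : IsMap F (F.core ⊓ T) f' := hf'.restrict hRle
    have hmaps : ∀ z ∈ F.core ⊓ T, f' z ∈ F.core ⊓ T := fun z hz =>
      stronglyClosed_isMap_mem hRF hf' (hRle hz) hz
    have himg := hfR.img_eq_of_mapsTo hmaps
    have hy' : y ∈ img (F.core ⊓ T) f' := by rw [himg]; exact hy
    obtain ⟨z, hz, rfl⟩ := hfR.mem_img.mp hy'
    have hxsup : (x : Ω) ∈ P' ⊔ F.core := Subgroup.mem_sup_left x.2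
    have hcomm : z * (x : Ω) = (x : Ω) * z :=
      Subgroup.mem_centralizer_iff.1 (Subgroup.mem_inf.1 (hP' x.2)).2 z hz
    have e1 : φ x = f' (x : Ω) := by rw [hf'P _ x.2, extHom_apply]
    rw [e1, ← hf'.map_mul (hRle hz) hxsup, ← hf'.map_mul hxsup (hRle hz), hcomm]
  have hWn : F.IsNormal (centralizerIn T (F.core ⊓ T)) := by
    refine isNormal_of_series hS F hF hQn hQc hRF inf_le_left hWsc (fun y hy w hw => ?_)
      (fun x hx w hw => ?_)
    · have := Subgroup.mem_centralizer_iff.1 (Subgroup.mem_inf.1 hw).2 y hy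
      rw [← this]; group
    · have hwT : w ∈ T := (Subgroup.mem_inf.1 hw).1
      refine ⟨F.core.mul_mem (F.core.inv_mem hx) (stronglyClosed_conj_mem hQsc (hTS hwT) hx), ?_⟩
      have h3 : x⁻¹ * w * x⁻¹⁻¹ ∈ T := stronglyClosed_conj_mem hT (S.inv_mem (hQS hx)) hwT
      have h4 : x⁻¹ * (w * x * w⁻¹) = (x⁻¹ * w * x⁻¹⁻¹) * w⁻¹ := by group
      rw [h4]
      exact T.mul_mem h3 (T.inv_mem hwT)
  have hWR : centralizerIn T (F.core ⊓ T) ≤ F.core ⊓ T :=
    le_inf (le_sSup hWn) inf_le_left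
  refine ⟨hEs, F.core ⊓ T, hREn, inf_le_right, fun R' hR' => ?_⟩
  obtain ⟨f, hf, rfl⟩ := (Helper88.isConj_iff E).1 hR'
  rw [hf.img_eq_of_mapsTo (isNormal_mapsTo hREn hf le_rfl)]
  exact hWR

end Cfsg.Agent.Helper85
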