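-- helper85: piece D3a of CALL S4414 (helper63): the subspace `W = C_E(K) ∩ C_E(N₁)`.
import Cfsg.Agent.Helper63.N14Defs

set_option autoImplicit false

namespace Cfsg.Agent.Helper85.N14

open Cfsg.Agent.Helper63.N14

/-- D3a. The subspace `W = C_E(K) ∩ C_E(N₁)` (`h2fix` is G1). -/
theorem core_W {S : Type*} [Group S] [Finite S] {E : Type*} [AddCommGroup E]
    [Module (ZMod 2) E] [Finite E] (ρ : Representation (ZMod 2) S E)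
    (A : Subgroup S) (hAab : ∀ a ∈ A, ∀ b ∈ A, a * b = b * a)
    (S₂ Sq : Subgroup S) (K : Subgroup S) (hKA : K ≤ A)
    (hKne : ∃ w : E, w ≠ 0 ∧ ∀ k ∈ K, ρ k w = w)
    (hKq : ∀ x ∈ Sq, ∀ k ∈ K, x * k * x⁻¹ ∈ K)
    (N₁ : Subgroup S) (hN₁2 : IsPGroup 2 N₁)
    (hN₁K : ∀ n ∈ N₁, (∀ k ∈ K, n * k * n⁻¹ ∈ K) ∧ ∀ a ∈ A, n * a * n⁻¹ * a⁻¹ ∈ K)
    (hN₁q : ∀ x ∈ Sq, ∀ n ∈ N₁, x * n * x⁻¹ ∈ N₁)
    (hN₁t : ∀ t ∈ S₂, (∀ k ∈ K, t * k * t⁻¹ ∈ K) → ∀ n ∈ N₁, t * n * t⁻¹ ∈ N₁)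
    (hN₁c : ∀ x ∈ Sq, ∀ t ∈ S₂, (∀ k ∈ K, t * k * t⁻¹ ∈ K) → x * t * x⁻¹ * t⁻¹ ∈ N₁)
    (h2fix : ∀ P' : Subgroup S, IsPGroup 2 P' → ∀ W : Submodule (ZMod 2) E,
      (∀ s ∈ P', ∀ w ∈ W, ρ s w ∈ W) → W ≠ ⊥ → ∃ w ∈ W, w ≠ 0 ∧ ∀ s ∈ P', ρ s w = w) :
    ∃ W : Submodule (ZMod 2) E, W ≠ ⊥ ∧ (∀ w ∈ W, ∀ k ∈ K, ρ k w = w) ∧
      (∀ a ∈ A, ∀ w ∈ W, ρ a w ∈ W) ∧ (∀ x ∈ Sq, ∀ w ∈ W, ρ x w ∈ W) ∧
      (∀ t ∈ S₂, (∀ k ∈ K, t * k * t⁻¹ ∈ K) → ∀ w ∈ W, ρ t w ∈ W) ∧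
      (∀ x ∈ Sq, ∀ t ∈ S₂, (∀ k ∈ K, t * k * t⁻¹ ∈ K) → ∀ w ∈ W,
        ρ x (ρ t w) = ρ t (ρ x w)) := by
  classical
  -- basic rewriting facts
  have hmul : ∀ (g h : S) (w : E), ρ (g * h) w = ρ g (ρ h w) := by
    intro g h w
    rw [map_mul]
    rfl
  have key : ∀ (s g : S) (w : E), ρ (s⁻¹ * g * s) w = w → ρ g (ρ s w) = ρ s w := by
    intro s g w h
    have h1 : ρ g (ρ s w) = ρ s (ρ (s⁻¹ * g * s) w) := by
      rw [← hmul, ← hmul]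
      congr 2
      group
    rw [h1, h]
  -- the submodule of `K`-fixed vectors
  let CK : Submodule (ZMod 2) E :=
    { carrier := {w | ∀ k ∈ K, ρ k w = w}
      add_mem' := by
        intro a b ha hb k hk
        rw [map_add, ha k hk, hb k hk]
      zero_mem' := by
        intro k _
        exact map_zero _
      smul_mem' := by
        intro c w hw k hk
        rw [map_smul, hw k hk] }
  let W : Submodule (ZMod 2) E :=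
    { carrier := {w | (∀ k ∈ K, ρ k w = w) ∧ ∀ n ∈ N₁, ρ n w = w}
      add_mem' := by
        intro a b ha hb
        refine ⟨fun k hk => ?_, fun n hn => ?_⟩
        · rw [map_add, ha.1 k hk, hb.1 k hk]
        · rw [map_add, ha.2 n hn, hb.2 n hn]
      zero_mem' := ⟨fun k _ => map_zero _, fun n _ => map_zero _⟩
      smul_mem' := by
        intro c w hw
        refine ⟨fun k hk => ?_, fun n hn => ?_⟩
        · rw [map_smul, hw.1 k hk]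
        · rw [map_smul, hw.2 n hn] }
  have hWmem : ∀ w : E, w ∈ W ↔ (∀ k ∈ K, ρ k w = w) ∧ ∀ n ∈ N₁, ρ n w = w := fun w => Iff.rfl
  have hCKmem : ∀ w : E, w ∈ CK ↔ ∀ k ∈ K, ρ k w = w := fun w => Iff.rfl
  -- `W ≠ ⊥`
  have hCKinv : ∀ s ∈ N₁, ∀ w ∈ CK, ρ s w ∈ CK := by
    intro n hn w hw
    rw [hCKmem] at hw ⊢
    intro k hk
    exact key n k w (hw _ (conj_inv_mem K n (hN₁K n hn).1 k hk))
  have hCKne : CK ≠ ⊥ := by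
    obtain ⟨w, hw0, hw⟩ := hKne
    intro h
    have : w ∈ CK := (hCKmem w).mpr hw
    rw [h, Submodule.mem_bot] at this
    exact hw0 this
  obtain ⟨w₀, hw₀CK, hw₀0, hw₀N⟩ := h2fix N₁ hN₁2 CK hCKinv hCKne
  have hWne : W ≠ ⊥ := by
    intro h
    have : w₀ ∈ W := (hWmem w₀).mpr ⟨(hCKmem w₀).mp hw₀CK, hw₀N⟩
    rw [h, Submodule.mem_bot] at this
    exact hw₀0 this
  -- invariance under elements normalising `K` and `N₁`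
  have hinv : ∀ s : S, (∀ k ∈ K, s * k * s⁻¹ ∈ K) → (∀ n ∈ N₁, s * n * s⁻¹ ∈ N₁) →
      ∀ w ∈ W, ρ s w ∈ W := by
    intro s hsK hsN w hw
    rw [hWmem] at hw ⊢
    refine ⟨fun k hk => ?_, fun n hn => ?_⟩
    · exact key s k w (hw.1 _ (conj_inv_mem K s hsK k hk))
    · exact key s n w (hw.2 _ (conj_inv_mem N₁ s hsN n hn))
  have hA : ∀ a ∈ A, ∀ w ∈ W, ρ a w ∈ W := by
    intro a ha w hw
    rw [hWmem] at hw ⊢
    have hKfix : ∀ k ∈ K, ρ k (ρ a w) = ρ a w := by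
      intro k hk
      rw [← hmul, hAab k (hKA hk) a ha, hmul, hw.1 k hk]
    refine ⟨hKfix, fun n hn => ?_⟩
    have h1 : n * a = (n * a * n⁻¹ * a⁻¹) * (a * n) := by group
    rw [← hmul, h1, hmul (n * a * n⁻¹ * a⁻¹) (a * n) w, hmul a n w, hw.2 n hn]
    exact hKfix _ ((hN₁K n hn).2 a ha)
  have hq : ∀ x ∈ Sq, ∀ w ∈ W, ρ x w ∈ W := fun x hx =>
    hinv x (hKq x hx) (hN₁q x hx)
  have ht : ∀ t ∈ S₂, (∀ k ∈ K, t * k * t⁻¹ ∈ K) → ∀ w ∈ W, ρ t w ∈ W := fun t ht htK =>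
    hinv t htK (hN₁t t ht htK)
  refine ⟨W, hWne, fun w hw => ((hWmem w).mp hw).1, hA, hq, ht, ?_⟩
  intro x hx t htS htK w hw
  have h1 : x * t = (x * t * x⁻¹ * t⁻¹) * (t * x) := by group
  have h2 : ρ t (ρ x w) ∈ W := ht t htS htK _ (hq x hx w hw)
  rw [← hmul, h1, hmul (x * t * x⁻¹ * t⁻¹) (t * x) w, hmul t x w]
  exact ((hWmem _).mp h2).2 _ (hN₁c x hx t htS htK)

end Cfsg.Agent.Helper85.N14
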