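import Mathlib
import Cfsg.Agent.Helper95.OTSDefs

set_option autoImplicit false

/-!
# CALL S5972 (helper95), piece SINGPERP

The number of singular vectors orthogonal to a totally singular independent family in the
standard odd orthogonal space.
-/

namespace Cfsg.Agent.Helper85.OTS

open Module Polynomial
open Cfsg.Agent.Helper13.TIsp Cfsg.Agent.Helper42.SpGroup Cfsg.Agent.Helper42.SpModels
open Cfsg.Agent.Helper95.OTS

section abstract

variable {F : Type*} [Field F] [Fintype F] {V : Type*} [AddCommGroup V] [Module F V] [Finite V]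
  (B : LinearMap.BilinForm F V) (Q : V → F)

theorem otssingperp_card_sub {α : Type*} [Fintype α] (p : α → Prop) [DecidablePred p] :
    Nat.card {x : α // p x} = (Finset.univ.filter p).card := by
  rw [Nat.card_eq_fintype_card, Fintype.card_subtype]

omit [Fintype F] [Finite V] in
theorem otssingperp_mem_orth {ι : Type*} (f : ι → V) (y : V) :
    y ∈ B.orthogonal (Submodule.span F (Set.range f)) ↔ ∀ i, B (f i) y = 0 := by
  rw [LinearMap.BilinForm.mem_orthogonal_iff]
  constructor
  · intro h i
    exact h _ (Submodule.subset_span (Set.mem_range_self i))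
  · intro h n hn
    induction hn using Submodule.span_induction with
    | mem x hx => obtain ⟨i, rfl⟩ := hx; exact h i
    | zero => simp
    | add x z _ _ hx hz => rw [map_add, LinearMap.add_apply, hx, hz, add_zero]
    | smul c x _ hx => rw [map_smul, LinearMap.smul_apply, hx, smul_zero]

theorem otssingperp_exists_u (hB : B.Nondegenerate)
    (hadd : ∀ x y, Q (x + y) = Q x + Q y + B x y)
    (hsm : ∀ (c : F) x, Q (c • x) = c * c * Q x)
    (hsymm : ∀ x y, B x y = B y x) (hself : ∀ x, B x x = 2 * Q x)
    (j : ℕ) (v : Fin (j + 1) → V) (hli : LinearIndependent F v)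
    (hQ : ∀ a, Q (v a) = 0) (hBv : ∀ a b, B (v a) (v b) = 0) :
    ∃ u : V, Q u = 0 ∧ B u (v (Fin.last j)) = 1 ∧ ∀ a : Fin j, B u (v a.castSucc) = 0 := by
  classical
  have hli' : LinearIndependent F (fun a : Fin j => v a.castSucc) :=
    hli.comp _ (Fin.castSucc_injective j)
  have h1 : finrank F (B.orthogonal (Submodule.span F (Set.range (fun a : Fin j => v a.castSucc))))
      = finrank F V - j := by
    rw [LinearMap.BilinForm.finrank_orthogonal hB, finrank_span_eq_card hli', Fintype.card_fin]
  have h2 : finrank F (B.orthogonal (Submodule.span F (Set.range v))) = finrank F V - (j + 1) := by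
    rw [LinearMap.BilinForm.finrank_orthogonal hB, finrank_span_eq_card hli, Fintype.card_fin]
  have h3 : j + 1 ≤ finrank F V := by
    have := hli.fintype_card_le_finrank
    simpa using this
  obtain ⟨y, hy1, hy2⟩ : ∃ y, y ∈ B.orthogonal (Submodule.span F
      (Set.range (fun a : Fin j => v a.castSucc))) ∧
      y ∉ B.orthogonal (Submodule.span F (Set.range v)) := by
    by_contra hcon
    push_neg at hcon
    have hle : B.orthogonal (Submodule.span F (Set.range (fun a : Fin j => v a.castSucc))) ≤
        B.orthogonal (Submodule.span F (Set.range v)) := fun y hy => hcon y hy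
    have := Submodule.finrank_mono hle
    omega
  rw [otssingperp_mem_orth] at hy1 hy2
  have hwy : B (v (Fin.last j)) y ≠ 0 := by
    intro h0
    apply hy2
    intro a
    induction a using Fin.lastCases with
    | last => exact h0
    | cast a => exact hy1 a
  have hu0w : B ((B (v (Fin.last j)) y)⁻¹ • y) (v (Fin.last j)) = 1 := by
    rw [map_smul, LinearMap.smul_apply, smul_eq_mul, hsymm y, inv_mul_cancel₀ hwy]
  have hu0v : ∀ a : Fin j, B ((B (v (Fin.last j)) y)⁻¹ • y) (v a.castSucc) = 0 := by
    intro a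
    rw [map_smul, LinearMap.smul_apply, smul_eq_mul, hsymm y, hy1 a, mul_zero]
  generalize (B (v (Fin.last j)) y)⁻¹ • y = u0 at hu0w hu0v
  refine ⟨u0 + (-(Q u0)) • v (Fin.last j), ?_, ?_, ?_⟩
  · rw [hadd, hsm, map_smul, smul_eq_mul, hu0w, hQ]
    ring
  · rw [map_add, LinearMap.add_apply, map_smul, LinearMap.smul_apply, smul_eq_mul, hu0w, hself,
      hQ]
    ring
  · intro a
    rw [map_add, LinearMap.add_apply, map_smul, LinearMap.smul_apply, smul_eq_mul, hu0v a, hBv]
    ring

theorem otssingperp_step (hB : B.Nondegenerate)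
    (hadd : ∀ x y, Q (x + y) = Q x + Q y + B x y)
    (hsm : ∀ (c : F) x, Q (c • x) = c * c * Q x)
    (hsymm : ∀ x y, B x y = B y x) (hself : ∀ x, B x x = 2 * Q x)
    (j : ℕ) (v : Fin (j + 1) → V) (hli : LinearIndependent F v)
    (hQ : ∀ a, Q (v a) = 0) (hBv : ∀ a b, B (v a) (v b) = 0) :
    j + 2 ≤ finrank F V ∧
    Nat.card {x : V // Q x = 0 ∧ ∀ a : Fin j, B x (v a.castSucc) = 0} =
      Nat.card {x : V // Q x = 0 ∧ ∀ a : Fin (j + 1), B x (v a) = 0} +
        (Fintype.card F - 1) * Fintype.card F ^ (finrank F V - (j + 2)) := by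
  classical
  haveI : Fintype V := Fintype.ofFinite V
  obtain ⟨u, hu, huw, huv⟩ := otssingperp_exists_u B Q hB hadd hsm hsymm hself j v hli hQ hBv
  have hw : Q (v (Fin.last j)) = 0 := hQ _
  have huu : B u u = 0 := by rw [hself, hu, mul_zero]
  have hww : B (v (Fin.last j)) (v (Fin.last j)) = 0 := hBv _ _
  have hQneg : ∀ z, Q (-z) = Q z := by
    intro z
    rw [← neg_one_smul F z, hsm]
    ring
  have hli2 : LinearIndependent F (Fin.cons u v : Fin (j + 2) → V) := by
    rw [linearIndependent_fin_cons]
    refine ⟨hli, ?_⟩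
    intro hmem
    have hall : ∀ n ∈ Submodule.span F (Set.range v), B n (v (Fin.last j)) = 0 := by
      intro n hn
      induction hn using Submodule.span_induction with
      | mem x hx => obtain ⟨i, rfl⟩ := hx; exact hBv i _
      | zero => simp
      | add x z _ _ hx hz => rw [map_add, LinearMap.add_apply, hx, hz, add_zero]
      | smul c x _ hx => rw [map_smul, LinearMap.smul_apply, hx, smul_zero]
    have h0 := hall u hmem
    rw [huw] at h0
    exact one_ne_zero h0
  have hdim : j + 2 ≤ finrank F V := by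
    have := hli2.fintype_card_le_finrank
    rw [Fintype.card_fin] at this
    exact this
  refine ⟨hdim, ?_⟩
  have hKmem : ∀ y, y ∈ B.orthogonal (Submodule.span F
      (Set.range (Fin.cons u v : Fin (j + 2) → V))) ↔
      B u y = 0 ∧ ∀ a : Fin (j + 1), B (v a) y = 0 := by
    intro y
    rw [otssingperp_mem_orth, Fin.forall_fin_succ]
    simp
  have hKcard : Nat.card (B.orthogonal (Submodule.span F
      (Set.range (Fin.cons u v : Fin (j + 2) → V)))) =
      Fintype.card F ^ (finrank F V - (j + 2)) := by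
    rw [Module.natCard_eq_pow_finrank (K := F), Nat.card_eq_fintype_card,
      LinearMap.BilinForm.finrank_orthogonal hB, finrank_span_eq_card hli2, Fintype.card_fin]
  generalize B.orthogonal (Submodule.span F
      (Set.range (Fin.cons u v : Fin (j + 2) → V))) = K at hKmem hKcard
  rw [otssingperp_card_sub, otssingperp_card_sub]
  have hfib := Finset.card_eq_sum_card_fiberwise
    (s := Finset.univ.filter (fun x : V => Q x = 0 ∧ ∀ a : Fin j, B x (v a.castSucc) = 0))
    (t := Finset.univ) (f := fun x => B x (v (Fin.last j))) (fun _ _ => Finset.mem_univ _)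
  rw [← Finset.add_sum_erase _ _ (Finset.mem_univ (0 : F))] at hfib
  have hfib0 : (Finset.univ.filter
      (fun x : V => Q x = 0 ∧ ∀ a : Fin j, B x (v a.castSucc) = 0)).filter
      (fun x => B x (v (Fin.last j)) = 0) =
      Finset.univ.filter (fun x : V => Q x = 0 ∧ ∀ a : Fin (j + 1), B x (v a) = 0) := by
    ext x
    simp only [Finset.mem_filter, Finset.mem_univ, true_and, Fin.forall_fin_succ']
    tauto
  have hfibc : ∀ c ∈ Finset.univ.erase (0 : F),
      ((Finset.univ.filter
        (fun x : V => Q x = 0 ∧ ∀ a : Fin j, B x (v a.castSucc) = 0)).filter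
        (fun x => B x (v (Fin.last j)) = c)).card =
      ((Finset.univ.filter
        (fun x : V => Q x = 0 ∧ ∀ a : Fin j, B x (v a.castSucc) = 0)).filter
        (fun x => B x (v (Fin.last j)) = 1)).card := by
    intro c hc
    have hc0 : c ≠ 0 := Finset.ne_of_mem_erase hc
    apply Finset.card_nbij' (fun x => c⁻¹ • x) (fun x => c • x)
    · intro x hx
      simp only [Finset.coe_filter, Finset.mem_filter, Finset.mem_univ, true_and,
        Set.mem_ofPred_eq] at hx ⊢
      obtain ⟨⟨h1, h2⟩, h3⟩ := hx
      refine ⟨⟨?_, ?_⟩, ?_⟩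
      · rw [hsm, h1, mul_zero]
      · intro a; rw [map_smul, LinearMap.smul_apply, h2 a, smul_zero]
      · rw [map_smul, LinearMap.smul_apply, h3, smul_eq_mul, inv_mul_cancel₀ hc0]
    · intro x hx
      simp only [Finset.coe_filter, Finset.mem_filter, Finset.mem_univ, true_and,
        Set.mem_ofPred_eq] at hx ⊢
      obtain ⟨⟨h1, h2⟩, h3⟩ := hx
      refine ⟨⟨?_, ?_⟩, ?_⟩
      · rw [hsm, h1, mul_zero]
      · intro a; rw [map_smul, LinearMap.smul_apply, h2 a, smul_zero]
      · rw [map_smul, LinearMap.smul_apply, h3, smul_eq_mul, mul_one]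
    · intro x _; exact smul_inv_smul₀ hc0 x
    · intro x _; exact inv_smul_smul₀ hc0 x
  rw [Finset.sum_congr rfl hfibc, Finset.sum_const, smul_eq_mul,
    Finset.card_erase_of_mem (Finset.mem_univ _), Finset.card_univ, hfib0] at hfib
  rw [hfib]
  congr 2
  rw [← hKcard, otssingperp_card_sub]
  apply Finset.card_nbij' (fun x => x + (-u) + (-(B x u)) • v (Fin.last j))
    (fun y => u + y + (-(Q y)) • v (Fin.last j))
  · intro x hx
    simp only [Finset.coe_filter, Finset.mem_filter, Finset.mem_univ, true_and,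
      Set.mem_ofPred_eq] at hx ⊢
    obtain ⟨⟨h1, h2⟩, h3⟩ := hx
    rw [hKmem]
    refine ⟨?_, ?_⟩
    · rw [map_add, map_add, map_neg, map_smul, smul_eq_mul, huu, huw, hsymm u x]
      ring
    · intro a
      induction a using Fin.lastCases with
      | last =>
        rw [map_add, map_add, map_neg, map_smul, smul_eq_mul, hww, hsymm _ x, h3, hsymm _ u, huw]
        ring
      | cast a =>
        rw [map_add, map_add, map_neg, map_smul, smul_eq_mul, hsymm _ x, h2 a, hsymm _ u, huv a,
          hBv]
        ring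
  · intro y hy
    simp only [Finset.coe_filter, Finset.mem_filter, Finset.mem_univ, true_and,
      Set.mem_ofPred_eq] at hy ⊢
    rw [hKmem] at hy
    obtain ⟨hy1, hy2⟩ := hy
    refine ⟨⟨?_, ?_⟩, ?_⟩
    · rw [hadd, hadd, hsm, hu, hw, hy1, map_smul, smul_eq_mul, map_add, LinearMap.add_apply, huw,
        hsymm y, hy2 (Fin.last j)]
      ring
    · intro a
      rw [map_add, map_add, LinearMap.add_apply, LinearMap.add_apply, map_smul,
        LinearMap.smul_apply, smul_eq_mul, huv a, hsymm y, hy2, hBv]
      ring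
    · rw [map_add, map_add, LinearMap.add_apply, LinearMap.add_apply, map_smul,
        LinearMap.smul_apply, smul_eq_mul, huw, hsymm y, hy2, hww]
      ring
  · intro x hx
    simp only [Finset.coe_filter, Finset.mem_filter, Finset.mem_univ, true_and,
      Set.mem_ofPred_eq] at hx
    obtain ⟨⟨h1, h2⟩, h3⟩ := hx
    have hQi : Q (x + (-u) + (-(B x u)) • v (Fin.last j)) = -(B x u) := by
      rw [hadd, hadd, hQneg, hsm, h1, hu, hw, map_neg, map_smul, smul_eq_mul, map_add,
        LinearMap.add_apply, map_neg, LinearMap.neg_apply, h3, huw]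
      ring
    show u + (x + (-u) + (-(B x u)) • v (Fin.last j)) +
      (-(Q (x + (-u) + (-(B x u)) • v (Fin.last j)))) • v (Fin.last j) = x
    rw [hQi, neg_neg, neg_smul]
    abel
  · intro y hy
    simp only [Finset.coe_filter, Finset.mem_filter, Finset.mem_univ, true_and,
      Set.mem_ofPred_eq] at hy
    rw [hKmem] at hy
    obtain ⟨hy1, hy2⟩ := hy
    have hBv2 : B (u + y + (-(Q y)) • v (Fin.last j)) u = -(Q y) := by
      rw [map_add, map_add, LinearMap.add_apply, LinearMap.add_apply, map_smul,
        LinearMap.smul_apply, smul_eq_mul, huu, hsymm y u, hy1, hsymm _ u, huw]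
      ring
    show (u + y + (-(Q y)) • v (Fin.last j)) + (-u) +
      (-(B (u + y + (-(Q y)) • v (Fin.last j)) u)) • v (Fin.last j) = y
    rw [hBv2, neg_neg, neg_smul]
    abel

theorem otssingperp_abs (hB : B.Nondegenerate)
    (hadd : ∀ x y, Q (x + y) = Q x + Q y + B x y)
    (hsm : ∀ (c : F) x, Q (c • x) = c * c * Q x)
    (hsymm : ∀ x y, B x y = B y x) (hself : ∀ x, B x x = 2 * Q x) (n : ℕ)
    (hn : finrank F V = n + 1)
    (h0 : Nat.card {x : V // Q x = 0} = Fintype.card F ^ n) :
    ∀ j, ∀ v : Fin j → V, LinearIndependent F v → (∀ a, Q (v a) = 0) →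
      (∀ a b, B (v a) (v b) = 0) →
      Nat.card {x : V // Q x = 0 ∧ ∀ a, B x (v a) = 0} = Fintype.card F ^ (n - j) := by
  intro j
  induction j with
  | zero =>
    intro v _ _ _
    rw [Nat.sub_zero, ← h0]
    apply Nat.card_congr
    exact Equiv.subtypeEquivRight (fun x => by simp)
  | succ j ih =>
    intro v hli hQ hBv
    obtain ⟨hdim, hstep⟩ := otssingperp_step B Q hB hadd hsm hsymm hself j v hli hQ hBv
    have hih := ih (fun a => v a.castSucc) (hli.comp _ (Fin.castSucc_injective j))
      (fun a => hQ _) (fun a b => hBv _ _)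
    rw [hih] at hstep
    rw [hn] at hstep hdim
    have e1 : n + 1 - (j + 2) = n - (j + 1) := by omega
    have e2 : n - j = (n - (j + 1)) + 1 := by omega
    rw [e1, e2, pow_succ] at hstep
    have hq : 1 ≤ Fintype.card F := Fintype.card_pos
    obtain ⟨t, ht⟩ : ∃ t, Fintype.card F = t + 1 := ⟨Fintype.card F - 1, by omega⟩
    rw [ht] at hstep ⊢
    simp only [Nat.add_sub_cancel] at hstep
    generalize (t + 1) ^ (n - (j + 1)) = P at hstep ⊢
    have e3 : P * (t + 1) = t * P + P := by ring
    omega

end abstract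

/-- PIECE SINGPERP (heavy): singular vectors orthogonal to a totally singular independent family.
Induction on `j`.  Step: `S' = {x sing, x ⟂ v_0..v_{j-1}}`, `S = {x ∈ S' : oB x v_j = 0}`; the
fibres of `x ↦ oB x v_j` on `S'` over nonzero values are in bijection by scaling, so
`|S'| = |S| + (q - 1) |fibre 1|`; choose `u` singular with `oB u v_j = 1`, `oB u v_a = 0` (`a < j`);
`fibre 1 ≃ {y : y ⟂ v_0..v_j, y ⟂ u}` via `y ↦ u + y - Q(y) • v_j`, a subspace with
`q ^ (2d+1-(j+2))` elements. -/
theorem osing_perp (F : Type*) [Field F] [Fintype F] (h2 : (2 : F) ≠ 0) (d : ℕ)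
    (h0 : Nat.card {x : Unit ⊕ (Fin d ⊕ Fin d) → F // Cfsg.quadFormOdd d F x = 0} =
      Fintype.card F ^ (2 * d)) :
    ∀ j, j ≤ d → ∀ v : Fin j → (Unit ⊕ (Fin d ⊕ Fin d) → F), LinearIndependent F v →
      (∀ a, Cfsg.quadFormOdd d F (v a) = 0) → (∀ a b, oB d F (v a) (v b) = 0) →
      Nat.card {x : Unit ⊕ (Fin d ⊕ Fin d) → F //
        Cfsg.quadFormOdd d F x = 0 ∧ ∀ a, oB d F x (v a) = 0} = Fintype.card F ^ (2 * d - j) := by
  intro j _ v hli hQ hBv
  have hB : (oB d F).Nondegenerate := Cfsg.Agent.Helper43.PrimeOrdO.oddQF_nondeg h2 d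
  exact otssingperp_abs (oB d F) (Cfsg.quadFormOdd d F) hB
    (fun x y => by rw [oB_apply]; ring)
    (fun c x => by
      have h := QuadraticMap.map_smul (Cfsg.Agent.Helper43.oddQF d F) c x
      rw [smul_eq_mul] at h
      exact h)
    (oB_symm d F) (oB_self d F) (2 * d) (finrank_oV d F) h0 j v hli hQ hBv

end Cfsg.Agent.Helper85.OTS
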