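import Cfsg.Agent.Helper85.PiGen
import Cfsg.Agent.Helper85.SatCritB

/-!
# CALL S5113, piece DL2: an element of the candidate subsystem defined on a subgroup of `N_T(A)` strictly
containing `A` has trivial degree at `A` (helper85)
-/

set_option autoImplicit false

namespace Cfsg.Agent.Helper85.PiDL2

open Cfsg Cfsg.FusionSystem
open Cfsg.Agent.Helper85 Cfsg.Agent.Helper88

variable {Ω : Type*} [Group Ω] {S : Subgroup Ω}

theorem pi_dl2 [Finite S] {p : ℕ} [Fact p.Prime] (hS : IsPGroup p S) {F : FusionSystem S}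
    {T R : Subgroup Ω} (c : PiCtx F p T R) (hbrc : PiBrc F p T) (hhfa : PiHfa F p) (hc : PiConjS F p T)
    {A N : Subgroup Ω} {α : Ω → Ω} (hAR : F.IsConj A R) (hAN : A ≤ N) (hN : N ≤ normalizerIn T A)
    (hlt : Nat.card A < Nat.card N) (hα : PiGen F p T N α) : PiQ F p T R A α := by
  intro χ₁ χ₂ a b u β₀ h1 h2 hu hβ₀ heq
  obtain ⟨hχ₁, hχ₁R, ha, he₁⟩ := h1
  obtain ⟨hχ₂, hχ₂R, hb, he₂⟩ := h2
  have hh := c.hyp
  have hTS := hh.le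
  have hRS : R ≤ S := c.fn.1
  haveI : Finite R := Helper88.finite_of_le hRS
  have hNT : N ≤ T := hN.trans inf_le_left
  have hαm : IsMap F N α := piGen_isMap hTS hα
  have hχ₁N : IsMap F N χ₁ := hχ₁.restrict hN
  have hχ₁A : IsMap F A χ₁ := hχ₁N.restrict hAN
  have hRN₁ : R ≤ img N χ₁ := by
    rw [← hχ₁R]
    exact hχ₁N.img_restrict_le hAN
  have hN₁T : img N χ₁ ≤ T := by
    intro y hy
    obtain ⟨n, hn, rfl⟩ := hχ₁N.mem_img.1 hy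
    exact pi_mapsTo hS hh hχ₁N n hn (hNT hn)
  have hN₁N : img N χ₁ ≤ normalizerIn S R := by
    intro y hy
    obtain ⟨n, hn, rfl⟩ := hχ₁N.mem_img.1 hy
    have h := Helper85.isMap_mem_normalizerIn hχ₁N hAN hn (hN hn).2
    rwa [hχ₁R] at h
  have hαN : ∀ n ∈ N, α n ∈ normalizerIn T (img A α) := fun n hn =>
    ⟨piGen_mapsTo hS hh hα n hn, Helper85.isMap_mem_normalizer hαm hAN hn (hN hn).2⟩
  obtain ⟨g₁, hg₁, hg₁1, hg₁2, -⟩ := hχ₁N.exists_inv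
  -- the map `γ = χ₂ ∘ α ∘ χ₁⁻¹` on `N₁ = χ₁(N)`
  have hγ : IsMap F (img N χ₁) (χ₂ ∘ (α ∘ g₁)) := by
    have h1 : IsMap F (img N χ₁) (α ∘ g₁) := hg₁.comp hαm (fun y hy => (hg₁2 y hy).1)
    exact h1.comp hχ₂ (fun y hy => hαN _ (hg₁2 y hy).1)
  have hγR : img R (χ₂ ∘ (α ∘ g₁)) = R := by
    have hγR' : IsMap F R (χ₂ ∘ (α ∘ g₁)) := hγ.restrict hRN₁
    have hle : img R (χ₂ ∘ (α ∘ g₁)) ≤ R := by
      unfold img
      rw [Subgroup.closure_le]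
      rintro _ ⟨r, hr, rfl⟩
      have hr' : r ∈ img A χ₁ := by rw [hχ₁R]; exact hr
      obtain ⟨x, hx, rfl⟩ := hχ₁A.mem_img.1 hr'
      show χ₂ (α (g₁ (χ₁ x))) ∈ (R : Set Ω)
      rw [hg₁1 x (hAN hx)]
      have h3 : χ₂ (α x) ∈ img (img A α) χ₂ :=
        Subgroup.subset_closure ⟨α x, Subgroup.subset_closure ⟨x, hx, rfl⟩, rfl⟩
      rw [hχ₂R] at h3
      exact h3
    exact Subgroup.eq_of_le_of_card_ge hle (le_of_eq hγR'.card_img.symm)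
  obtain ⟨u', hu', β₀', hβ₀', hγu, hegen⟩ :=
    hbrc R (img N χ₁) (χ₂ ∘ (α ∘ g₁)) c.fn hRN₁ hN₁N hN₁T hγ hγR
  -- conjugate by `a`
  have hea := hc (img N χ₁) _ a⁻¹ hegen (S.inv_mem ha)
  have he₁N : PiGen F p T N (fun x => a⁻¹ * χ₁ x * a) := piGen_restrict he₁ hN
  have hcomp1 : PiGen F p T N
      ((fun y => a⁻¹ * (fun x => u'⁻¹ * (χ₂ ∘ (α ∘ g₁)) x * u') (a⁻¹⁻¹ * y * a⁻¹) * a⁻¹⁻¹) ∘
        (fun x => a⁻¹ * χ₁ x * a)) :=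
    PiGen.comp he₁N hea (fun n hn =>
      Subgroup.subset_closure ⟨χ₁ n, hχ₁N.apply_mem_img hn, by simp⟩)
  obtain ⟨κ, hκ⟩ : ∃ κ : Ω → Ω, κ = (fun y => a⁻¹ * (fun x => u'⁻¹ * (χ₂ ∘ (α ∘ g₁)) x * u')
      (a⁻¹⁻¹ * y * a⁻¹) * a⁻¹⁻¹) ∘ (fun x => a⁻¹ * χ₁ x * a) := ⟨_, rfl⟩
  rw [← hκ] at hcomp1
  have hkey : ∀ n ∈ N, κ n = a⁻¹ * (u'⁻¹ * χ₂ (α n) * u') * a := by
    intro n hn
    rw [hκ]
    show a⁻¹ * (u'⁻¹ * χ₂ (α (g₁ (a⁻¹⁻¹ * (a⁻¹ * χ₁ n * a) * a⁻¹))) * u') * a⁻¹⁻¹ = _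
    have h3 : a⁻¹⁻¹ * (a⁻¹ * χ₁ n * a) * a⁻¹ = χ₁ n := by group
    rw [h3, hg₁1 n hn, inv_inv]
  have hκm : IsMap F N κ := piGen_isMap hTS hcomp1
  obtain ⟨ginv, hginv, hginv1⟩ := piGen_exists_inv hS hh hcomp1
  -- conjugation by `s₀ = b⁻¹ u' a` on `M = κ(N)`
  have hgenM : PiGen F p T (img N κ) (fun x => (b⁻¹ * u' * a) * x * (b⁻¹ * u' * a)⁻¹) := by
    have h3 : PiGen F p T (img N κ) (α ∘ ginv) := PiGen.comp hginv hα (fun y hy => by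
      obtain ⟨n, hn, rfl⟩ := hκm.mem_img.1 hy
      rw [hginv1 n hn]; exact hn)
    have h4 : PiGen F p T (img N κ) ((fun x => b⁻¹ * χ₂ x * b) ∘ (α ∘ ginv)) :=
      PiGen.comp h3 he₂ (fun y hy => by
        obtain ⟨n, hn, rfl⟩ := hκm.mem_img.1 hy
        show α (ginv (κ n)) ∈ _
        rw [hginv1 n hn]; exact hαN n hn)
    refine PiGen.congr h4 (fun y hy => ?_)
    obtain ⟨n, hn, rfl⟩ := hκm.mem_img.1 hy
    show _ = b⁻¹ * χ₂ (α (ginv (κ n))) * b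
    rw [hginv1 n hn, hkey n hn]
    group
  have hMT : img N κ ≤ T := piGen_img_le hS hh hcomp1
  have hMH : PiH F T (img N κ) := by
    refine ⟨hMT, fun M' hM' => ?_⟩
    obtain ⟨φ, hφ, rfl⟩ := (Helper88.isConj_iff F).1 hM'
    have hA₁ : img A κ ≤ img N κ := hκm.img_restrict_le hAN
    have hφA : IsMap F (img A κ) φ := hφ.restrict hA₁
    have hconj : F.IsConj R (img (img A κ) φ) :=
      Helper88.isConj_trans F (Helper88.isConj_symm F hAR)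
        (Helper88.isConj_trans F (hκm.restrict hAN).isConj hφA.isConj)
    have h5 := c.hR.2 _ hconj
    have h6 : img (img A κ) φ ≤ img (img N κ) φ := hφ.img_restrict_le hA₁
    exact (inf_le_inf_left S (Subgroup.centralizer_le h6)).trans h5
  have hcardM : Nat.card R < Nat.card (img N κ) := by
    rw [hκm.card_img, Helper88.isConj_card_eq hAR]
    exact hlt
  have hs₀S : b⁻¹ * u' * a ∈ S := S.mul_mem (S.mul_mem (S.inv_mem hb) hu'.1) ha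
  have hs₀ : b⁻¹ * u' * a ∈ T := c.ih _ hMH hcardM _ hs₀S hgenM
  -- compare `u` and `u'`
  have hrr : ∀ r ∈ R, u * autFun β₀ r * u⁻¹ = u' * autFun β₀' r * u'⁻¹ := by
    intro r hr
    have hr' : r ∈ img A χ₁ := by rw [hχ₁R]; exact hr
    obtain ⟨x, hx, rfl⟩ := hχ₁A.mem_img.1 hr'
    rw [← heq x hx, ← hγu (χ₁ x) hr]
    show χ₂ (α x) = χ₂ (α (g₁ (χ₁ x)))
    rw [hg₁1 x (hAN hx)]
  have hw : u'⁻¹ * u ∈ normalizerIn S R := (normalizerIn S R).mul_mem ((normalizerIn S R).inv_mem hu') hu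
  have hβ : β₀' * β₀⁻¹ ∈ PiO F p R := Subgroup.mul_mem _ hβ₀' (Subgroup.inv_mem _ hβ₀)
  have hβw : ∀ x ∈ R, autFun (β₀' * β₀⁻¹) x = (u'⁻¹ * u) * x * (u'⁻¹ * u)⁻¹ := by
    intro x hx
    rw [autFun_mul _ _ hx]
    have h7 := hrr (autFun β₀⁻¹ x) (autFun_mem _ hx)
    rw [autFun_apply_inv β₀ hx] at h7
    have h8 : autFun β₀' (autFun β₀⁻¹ x) = u'⁻¹ * (u' * autFun β₀' (autFun β₀⁻¹ x) * u'⁻¹) * u' := by group
    rw [h8, ← h7]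
    group
  have hwT : u'⁻¹ * u ∈ T :=
    (sup_le hh.hyp (c.hR.2 R (Helper88.isConj_refl F hRS))) (hhfa R _ _ c.fn hw hβ hβw)
  have hfin := T.mul_mem hs₀ (hh.norm a⁻¹ (S.inv_mem ha) _ hwT)
  have h9 : b⁻¹ * u' * a * (a⁻¹ * (u'⁻¹ * u) * a⁻¹⁻¹) = b⁻¹ * u * a := by group
  rwa [h9] at hfin

end Cfsg.Agent.Helper85.PiDL2
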