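import Cfsg.Agent.Helper85.PiGen
import Cfsg.Agent.Helper84.FusionSat2

/-!
# CALL S5113, piece HFAC: an element of `N_S(R)` inducing an element of `O^p(Aut_F(R))` on the fully
normalized subgroup `R` lies in `hyp(F) C_S(R)` (assembly of the pieces HFAA and HFAB; helper85)
-/

set_option autoImplicit false

namespace Cfsg.Agent.Helper85.PiHFAC

open Cfsg Cfsg.FusionSystem
open Cfsg.Agent.Helper85 Cfsg.Agent.Helper88

variable {Ω : Type*} [Group Ω] {S : Subgroup Ω}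

theorem pi_hfa [Finite S] {p : ℕ} [Fact p.Prime] (hS : IsPGroup p S) {F : FusionSystem S}
    (hF : F.IsSaturated p)
    (ha : ∀ (R : Subgroup Ω), F.IsFullyNormalized R → ∀ (P : Sylow p (F.autGroup R)),
      (P : Subgroup (F.autGroup R)) ⊓ pResidual p (F.autGroup R) ≤
        Subgroup.closure {z : F.autGroup R | ∃ (Y : Subgroup (F.autGroup R)) (y g : F.autGroup R) (k : ℕ),
          Y ≤ (P : Subgroup (F.autGroup R)) ∧ y ∈ Y ∧ g ∈ Subgroup.normalizer (Y : Set (F.autGroup R)) ∧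
          k.Coprime p ∧ (∀ y' ∈ Y, g ^ k * y' * (g ^ k)⁻¹ = y') ∧ z = y⁻¹ * (g * y * g⁻¹)})
    (hb : ∀ (R : Subgroup Ω), F.IsFullyNormalized R → ∀ (Y : Subgroup (F.autGroup R)),
      Y ≤ (autInducedBy S R).subgroupOf (F.autGroup R) → ∀ (y g : F.autGroup R) (k : ℕ), y ∈ Y →
      g ∈ Subgroup.normalizer (Y : Set (F.autGroup R)) → k.Coprime p →
      (∀ y' ∈ Y, g ^ k * y' * (g ^ k)⁻¹ = y') →
      ∃ h ∈ F.hyperfocalSubgroup p, h ∈ normalizerIn S R ∧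
        ∀ x ∈ R, autFun ((y⁻¹ * (g * y * g⁻¹) : F.autGroup R) : MulAut R) x = h * x * h⁻¹) :
    PiHfa F p := by
  intro R w β hR hw hβ hβw
  obtain ⟨P₀, hP₀⟩ := (Helper84.saturated_fullyNormalized hS F hF hR).1.2
  obtain ⟨β', hβ', rfl⟩ := hβ
  have hβP : β' ∈ (P₀ : Subgroup (F.autGroup R)) := by
    rw [hP₀, Subgroup.mem_subgroupOf, Helper88.mem_autInducedBy_iff]
    refine ⟨w, hw.1, fun x => ?_⟩
    have h1 := hβw x x.2
    rw [autFun_apply] at h1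
    exact h1
  have hmem := ha R hR P₀ ⟨hβP, hβ'⟩
  have key : ∀ z : F.autGroup R, z ∈ Subgroup.closure {z : F.autGroup R |
      ∃ (Y : Subgroup (F.autGroup R)) (y g : F.autGroup R) (k : ℕ),
          Y ≤ (P₀ : Subgroup (F.autGroup R)) ∧ y ∈ Y ∧ g ∈ Subgroup.normalizer (Y : Set (F.autGroup R)) ∧
          k.Coprime p ∧ (∀ y' ∈ Y, g ^ k * y' * (g ^ k)⁻¹ = y') ∧ z = y⁻¹ * (g * y * g⁻¹)} →
      ∃ h ∈ F.hyperfocalSubgroup p, h ∈ normalizerIn S R ∧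
        ∀ x ∈ R, autFun (z : MulAut R) x = h * x * h⁻¹ := by
    intro z hz
    induction hz using Subgroup.closure_induction with
    | mem z hz =>
      obtain ⟨Y, y, g, k, hY, hy, hg, hk, hgk, rfl⟩ := hz
      exact hb R hR Y (by rw [← hP₀]; exact hY) y g k hy hg hk hgk
    | one =>
      refine ⟨1, Subgroup.one_mem _, Subgroup.one_mem _, fun x hx => ?_⟩
      show autFun (1 : MulAut R) x = _
      rw [autFun_one hx]
      simp
    | mul z₁ z₂ _ _ ih₁ ih₂ =>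
      obtain ⟨h₁, hh₁, hn₁, e₁⟩ := ih₁
      obtain ⟨h₂, hh₂, hn₂, e₂⟩ := ih₂
      refine ⟨h₁ * h₂, Subgroup.mul_mem _ hh₁ hh₂, Subgroup.mul_mem _ hn₁ hn₂, fun x hx => ?_⟩
      show autFun ((z₁ : MulAut R) * (z₂ : MulAut R)) x = _
      rw [autFun_mul _ _ hx, e₂ x hx, e₁ _ (Helper88.conj_mem_of_mem_normalizer hn₂.2 hx)]
      group
    | inv z _ ih =>
      obtain ⟨h, hh, hn, e⟩ := ih
      refine ⟨h⁻¹, Subgroup.inv_mem _ hh, Subgroup.inv_mem _ hn, fun x hx => ?_⟩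
      show autFun ((z : MulAut R)⁻¹) x = h⁻¹ * x * h⁻¹⁻¹
      have hx' : h⁻¹ * x * h⁻¹⁻¹ ∈ R :=
        Helper88.conj_mem_of_mem_normalizer ((normalizerIn S R).inv_mem hn).2 hx
      have h1 := e _ hx'
      have h2 : autFun (z : MulAut R)⁻¹ (autFun (z : MulAut R) (h⁻¹ * x * h⁻¹⁻¹)) = h⁻¹ * x * h⁻¹⁻¹ :=
        autFun_inv_apply _ hx'
      rw [h1] at h2
      have h3 : h * (h⁻¹ * x * h⁻¹⁻¹) * h⁻¹ = x := by group
      rw [h3] at h2
      exact h2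
  obtain ⟨h, hh, hn, e⟩ := key β' hmem
  have hcent : h⁻¹ * w ∈ centralizerIn S R := by
    rw [Helper88.mem_centralizerIn_iff]
    refine ⟨S.mul_mem (S.inv_mem hn.1) hw.1, fun y hy => ?_⟩
    have h3 : h * y * h⁻¹ = w * y * w⁻¹ := (e y hy).symm.trans (hβw y hy)
    calc y * (h⁻¹ * w) = h⁻¹ * (h * y * h⁻¹) * w := by group
      _ = h⁻¹ * (w * y * w⁻¹) * w := by rw [h3]
      _ = h⁻¹ * w * y := by group
  have hw' : w = h * (h⁻¹ * w) := by group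
  rw [hw']
  exact Subgroup.mul_mem_sup hh hcent

end Cfsg.Agent.Helper85.PiHFAC
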