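import Cfsg.Agent.Helper85.PiGen
import Cfsg.Agent.Helper84.FusionSat2

/-!
# CALL S5113, piece SHA: a fully normalized subgroup at which the degree lemma holds is fully automized in
the candidate subsystem (helper85)
-/

set_option autoImplicit false

namespace Cfsg.Agent.Helper85.PiSHA

open Cfsg Cfsg.FusionSystem
open Cfsg.Agent.Helper85 Cfsg.Agent.Helper88

variable {Ω : Type*} [Group Ω] {S : Subgroup Ω}

theorem pi_automized_of_deg [Finite S] {p : ℕ} [Fact p.Prime] (hS : IsPGroup p S) {F : FusionSystem S}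
    {T : Subgroup Ω} (hh : PiHyp F p T) {E : FusionSystem T} (hE : PiSys F p E) {P : Subgroup Ω}
    (hP : F.IsFullyNormalized P) (hPT : P ≤ T)
    (hsyl : ∀ (P₀ : Sylow p (F.autGroup P)) (X : Subgroup (F.autGroup P)), pResidual p (F.autGroup P) ≤ X →
      ∃ R : Sylow p X, (R : Subgroup X) = (P₀ : Subgroup (F.autGroup P)).subgroupOf X)
    (hdeg : PiDeg F p T P) : E.IsFullyAutomized p P := by
  have hTS := hh.le
  have hPS : P ≤ S := hPT.trans hTS
  have hBA : E.autGroup P ≤ F.autGroup P := by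
    intro α hα
    rw [Helper88.mem_autGroup_iff F hPS]
    exact piGen_isMap hTS ((hE P _).1 ((Helper88.mem_autGroup_iff E hPT α).1 hα))
  have hres : pResidual p (F.autGroup P) ≤ (E.autGroup P).subgroupOf (F.autGroup P) := by
    intro β hβ
    rw [Subgroup.mem_subgroupOf, Helper88.mem_autGroup_iff E hPT]
    have hβ' : (β : MulAut P) ∈ PiO F p P := ⟨β, hβ, rfl⟩
    exact (hE P _).2 (PiGen.base hPT hβ' le_rfl)
  obtain ⟨P₀, hP₀⟩ := (Helper84.saturated_fullyNormalized hS F hh.sat hP).1.2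
  obtain ⟨R, hR⟩ := hsyl P₀ _ hres
  refine ⟨hPT, ?_⟩
  let e := Subgroup.subgroupOfEquivOfLe hBA
  have hinj : Function.Injective (e.symm : ↥(E.autGroup P) →* ↥((E.autGroup P).subgroupOf (F.autGroup P))) :=
    e.symm.injective
  have hrange : (R : Subgroup ((E.autGroup P).subgroupOf (F.autGroup P))) ≤
      (e.symm : ↥(E.autGroup P) →* ↥((E.autGroup P).subgroupOf (F.autGroup P))).range := by
    intro x _
    exact ⟨e x, e.symm_apply_apply x⟩
  refine ⟨R.comapOfInjective _ hinj hrange, ?_⟩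
  ext β
  rw [Sylow.coe_comapOfInjective, Subgroup.mem_comap, hR, Subgroup.mem_subgroupOf, hP₀,
    Subgroup.mem_subgroupOf, Subgroup.mem_subgroupOf]
  have hcoe : (((e.symm β : ↥((E.autGroup P).subgroupOf (F.autGroup P))) : ↥(F.autGroup P)) : MulAut P) =
      (β : MulAut P) := rfl
  show (((e.symm β : ↥((E.autGroup P).subgroupOf (F.autGroup P))) : ↥(F.autGroup P)) : MulAut P) ∈
    autInducedBy S P ↔ (β : MulAut P) ∈ autInducedBy T P
  rw [hcoe, Helper88.mem_autInducedBy_iff, Helper88.mem_autInducedBy_iff]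
  constructor
  · rintro ⟨s, hs, h⟩
    refine ⟨s, ?_, h⟩
    have hg : PiGen F p T P (autFun (β : MulAut P)) := (hE P _).1 ((Helper88.mem_autGroup_iff E hPT _).1 β.2)
    refine hdeg s hs (PiGen.congr hg (fun x hx => ?_))
    rw [autFun_apply' _ hx, h]
  · rintro ⟨t, ht, h⟩
    exact ⟨t, hTS ht, h⟩

end Cfsg.Agent.Helper85.PiSHA
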