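import Cfsg.Agent.Helper85.PiGen
import Cfsg.Agent.Helper84.FusionSat2

/-!
# CALL S5113, piece SXA: a fully normalized subgroup whose centralizer is not in `T` is fully automized in
the candidate subsystem (helper85)
-/

set_option autoImplicit false

namespace Cfsg.Agent.Helper85.PiSXA

open Cfsg Cfsg.FusionSystem
open Cfsg.Agent.Helper85 Cfsg.Agent.Helper88

variable {Ω : Type*} [Group Ω] {S : Subgroup Ω}

theorem pi_automized_of_cent [Finite S] {p : ℕ} [Fact p.Prime] (hS : IsPGroup p S) {F : FusionSystem S}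
    {T : Subgroup Ω} (hh : PiHyp F p T) (hsp : PiSplit S T) {E : FusionSystem T} (hE : PiSys F p E)
    {P : Subgroup Ω} (hP : F.IsFullyNormalized P) (hPT : P ≤ T) (hX : ¬ centralizerIn S P ≤ T) :
    E.IsFullyAutomized p P := by
  have hTS := hh.le
  have hPS : P ≤ S := hPT.trans hTS
  haveI : Finite P := Helper88.finite_of_le hPS
  obtain ⟨c, hc, hcT⟩ := SetLike.not_le_iff_exists.1 hX
  have hcS : c ∈ S := hc.1
  have hci : ∀ (i : ℤ), ∀ y ∈ P, (c ^ i)⁻¹ * y * c ^ i = y := by
    intro i y hy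
    have h1 : c ^ i ∈ centralizerIn S P := (centralizerIn S P).zpow_mem hc i
    have h2 := (Helper88.mem_centralizerIn_iff.1 h1).2 y hy
    rw [mul_assoc, h2, inv_mul_cancel_left]
  have h1 : autInducedBy T P = autInducedBy S P := by
    ext α
    rw [Helper88.mem_autInducedBy_iff, Helper88.mem_autInducedBy_iff]
    constructor
    · rintro ⟨g, hg, h⟩
      exact ⟨g, hTS hg, h⟩
    · rintro ⟨g, hg, h⟩
      obtain ⟨i, t, ht, rfl⟩ := hsp c hcS hcT g hg
      refine ⟨t, ht, fun x => ?_⟩
      have h3 := h x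
      have h4 := hci i _ (α x).2
      rw [← h4, h3]
      group
  have h2 : E.autGroup P = F.autGroup P := by
    apply le_antisymm
    · intro α hα
      rw [Helper88.mem_autGroup_iff F hPS]
      exact piGen_isMap hTS ((hE P _).1 ((Helper88.mem_autGroup_iff E hPT α).1 hα))
    · intro α hα
      obtain ⟨P₀, hP₀⟩ := (Helper84.saturated_fullyNormalized hS F hh.sat hP).1.2
      obtain ⟨σ, hσ, β, hβ, hαeq⟩ := exists_sylow_mul_pResidual P₀ ⟨α, hα⟩
      have hαeq' : α = (σ : MulAut P) * (β : MulAut P) := congrArg Subtype.val hαeq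
      rw [hP₀, Subgroup.mem_subgroupOf, ← h1] at hσ
      obtain ⟨t, ht, hσt⟩ := (Helper88.mem_autInducedBy_iff T P _).1 hσ
      have hβ' : (β : MulAut P) ∈ PiO F p P := ⟨β, hβ, rfl⟩
      have hg1 : PiGen F p T P (autFun (β : MulAut P)) := PiGen.base hPT hβ' le_rfl
      have hg2 : PiGen F p T P (fun x => t * x * t⁻¹) := PiGen.conj hPT ht
      have hg3 : PiGen F p T P ((fun x => t * x * t⁻¹) ∘ autFun (β : MulAut P)) :=
        PiGen.comp hg1 hg2 (fun x hx => autFun_mem _ hx)
      have hg4 : PiGen F p T P (autFun α) := by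
        refine PiGen.congr hg3 (fun x hx => ?_)
        rw [hαeq', autFun_mul _ _ hx, autFun_apply' _ (autFun_mem _ hx), hσt]
        rfl
      rw [Helper88.mem_autGroup_iff E hPT]
      exact (hE P _).2 hg4
  refine ⟨hPT, ?_⟩
  obtain ⟨R, hR⟩ := (Helper84.saturated_fullyNormalized hS F hh.sat hP).1.2
  rw [h2, h1]
  exact ⟨R, hR⟩

end Cfsg.Agent.Helper85.PiSXA
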