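import Cfsg.Agent.Helper85.PiGen
import Cfsg.Agent.Helper10.PiHFAA
import Cfsg.Agent.Helper14.PiSXR
import Cfsg.Agent.Helper19.PiSHR
import Cfsg.Agent.Helper20.PiBASE
import Cfsg.Agent.Helper20.PiFRAT
import Cfsg.Agent.Helper29.PiBRC
import Cfsg.Agent.Helper3.PiDL3
import Cfsg.Agent.Helper34.PiCX
import Cfsg.Agent.Helper34.PiGI
import Cfsg.Agent.Helper41.PiDL4
import Cfsg.Agent.Helper41.PiIDX
import Cfsg.Agent.Helper41.PiSUB
import Cfsg.Agent.Helper41.PiTR
import Cfsg.Agent.Helper66.PiHFAB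
import Cfsg.Agent.Helper73.PiGENC
import Cfsg.Agent.Helper73.PiSCONJ
import Cfsg.Agent.Helper80.PiMAX
import Cfsg.Agent.Helper80.PiNGROW
import Cfsg.Agent.Helper80.PiSPLIT
import Cfsg.Agent.Helper80.PiSYLX
import Cfsg.Agent.Helper85.PiDL2
import Cfsg.Agent.Helper85.PiHFAC
import Cfsg.Agent.Helper85.PiSHA
import Cfsg.Agent.Helper85.PiSXA
import Cfsg.Agent.Helper86.Residual
import Cfsg.Agent.Helper84.FusionBasic

/-!
# Subsystems of `p`-power index: the main induction and the assembly (helper85, CALL S5113)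
-/

set_option autoImplicit false

namespace Cfsg.Agent.Helper85

open Cfsg Cfsg.FusionSystem
open Cfsg.Agent.Helper88

variable {Ω : Type*} [Group Ω] {S : Subgroup Ω}

theorem pi_img_id (P : Subgroup Ω) : img P id = P := by
  unfold img
  rw [Set.image_id, Subgroup.closure_eq]

theorem piQ_congr {F : FusionSystem S} {p : ℕ} {T R A : Subgroup Ω} {f g : Ω → Ω}
    (h : ∀ x ∈ A, g x = f x) (hf : PiQ F p T R A f) : PiQ F p T R A g := by
  intro χ₁ χ₂ a b u β₀ h1 h2 hu hβ heq
  have himg : img A g = img A f := img_congr h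
  rw [himg] at h2
  exact hf χ₁ χ₂ a b u β₀ h1 h2 hu hβ (fun x hx => by rw [← h x hx]; exact heq x hx)

theorem piH_of_isConj [Finite S] {p : ℕ} [Fact p.Prime] (hS : IsPGroup p S) {F : FusionSystem S}
    {T : Subgroup Ω} (hh : PiHyp F p T) {R R' : Subgroup Ω} (hR : PiH F T R) (hc : F.IsConj R R') :
    PiH F T R' := by
  obtain ⟨f, hf, rfl⟩ := (Helper88.isConj_iff F).1 hc
  refine ⟨?_, fun R'' h'' => hR.2 R'' (Helper88.isConj_trans F hc h'')⟩
  unfold img
  rw [Subgroup.closure_le]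
  rintro _ ⟨x, hx, rfl⟩
  exact pi_mapsTo hS hh hf x hx (hR.1 hx)

/-- The main induction: the degree lemma at a fully normalized `R < T`, given it for larger subgroups. -/
theorem pi_main [Finite S] {p : ℕ} [Fact p.Prime] (hS : IsPGroup p S) {F : FusionSystem S}
    {T R : Subgroup Ω} (c : PiCtx F p T R) (hbrc : PiBrc F p T) (hhfa : PiHfa F p) (hc : PiConjS F p T)
    (htr : PiTr F p) (hgi : PiGi F p T)
    (hdl2 : ∀ {A N : Subgroup Ω} {α : Ω → Ω}, F.IsConj A R → A ≤ N → N ≤ normalizerIn T A →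
      Nat.card A < Nat.card N → PiGen F p T N α → PiQ F p T R A α)
    (hdl3 : ∀ {A : Subgroup Ω}, F.IsConj A R → A ≤ T → ∀ {α : MulAut A}, α ∈ PiO F p A →
      PiQ F p T R A id → PiQ F p T R A (autFun α))
    (hdl4 : ∀ {A : Subgroup Ω} {f g : Ω → Ω}, F.IsConj A R → A ≤ T → IsMap F A f → IsMap F (img A f) g →
      PiQ F p T R A f → PiQ F p T R (img A f) g → PiQ F p T R A (g ∘ f))
    (hng : ∀ {T' A : Subgroup Ω}, T' ≤ S → A ≤ T' → Nat.card A < Nat.card T' →
      A ≤ normalizerIn T' A ∧ Nat.card A < Nat.card (normalizerIn T' A)) :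
    PiDeg F p T R := by
  have hh := c.hyp
  have hTS := hh.le
  have hRT : R ≤ T := c.hR.1
  have hRS : R ≤ S := hRT.trans hTS
  have hcard : ∀ A, F.IsConj A R → Nat.card A = Nat.card R := fun A hA => (Helper88.isConj_card_eq hA).symm
  have hAT : ∀ A, F.IsConj A R → A ≤ T := fun A hA => (piH_of_isConj hS hh c.hR (Helper88.isConj_symm F hA)).1
  have key : ∀ (P : Subgroup Ω) (f : Ω → Ω), PiGen F p T P f → ∀ A : Subgroup Ω, A ≤ P → F.IsConj A R →
      PiQ F p T R A f := by
    intro P f h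
    induction h with
    | @base P Q α hQT hα hP =>
      intro A hA hAR
      have hAT' := hAT A hAR
      have hltA : Nat.card A < Nat.card T := by rw [hcard A hAR]; exact c.lt
      by_cases hAQ : A = Q
      · subst hAQ
        obtain ⟨hle, hlt⟩ := hng hTS hAT' hltA
        have hid : PiQ F p T R A id := hdl2 hAR hle le_rfl hlt (piGen_id inf_le_left)
        exact hdl3 hAR hAT' hα hid
      · have hAQ' : A ≤ Q := hA.trans hP
        have hQS : Q ≤ S := hQT.trans hTS
        haveI : Finite Q := finite_of_le hQS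
        have hltQ : Nat.card A < Nat.card Q := by
          by_contra hcon
          exact hAQ (Subgroup.eq_of_le_of_card_ge hAQ' (not_lt.1 hcon))
        obtain ⟨hle, hlt⟩ := hng hQS hAQ' hltQ
        exact hdl2 hAR hle (inf_le_inf_right _ hQT) hlt (PiGen.base hQT hα inf_le_left)
    | @conj P t hP ht =>
      intro A hA hAR
      have hltA : Nat.card A < Nat.card T := by rw [hcard A hAR]; exact c.lt
      obtain ⟨hle, hlt⟩ := hng hTS (hAT A hAR) hltA
      exact hdl2 hAR hle le_rfl hlt (PiGen.conj inf_le_left ht)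
    | @comp P Q f g hf hg h ihf ihg =>
      intro A hA hAR
      have hfm : IsMap F A f := (piGen_isMap hTS hf).restrict hA
      have himgQ : img A f ≤ Q := by
        unfold img
        rw [Subgroup.closure_le]
        rintro _ ⟨x, hx, rfl⟩
        exact h x (hA hx)
      have hgm : IsMap F (img A f) g := (piGen_isMap hTS hg).restrict himgQ
      have hconj : F.IsConj (img A f) R := Helper88.isConj_trans F (Helper88.isConj_symm F hfm.isConj) hAR
      exact hdl4 hAR (hAT A hAR) hfm hgm (ihf A hA hAR) (ihg (img A f) himgQ hconj)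
    | @congr P f g hf h ih =>
      intro A hA hAR
      exact piQ_congr (fun x hx => h x (hA hx)) (ih A hA hAR)
  intro s hs hgen
  have hQ := key R _ hgen R le_rfl (Helper88.isConj_refl F hRS)
  have hN1 : normalizerIn T R ≤ S := inf_le_left.trans hTS
  have hgood1 : PiGood F p T R id R 1 := by
    refine ⟨isMap_id F hN1, pi_img_id R, S.one_mem, ?_⟩
    exact PiGen.congr (piGen_id inf_le_left) (fun x _ => by simp)
  have hcs : IsMap F R (fun x => s * x * s⁻¹) := isMap_conj F hRS hs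
  have hN2 : normalizerIn T (img R (fun x => s * x * s⁻¹)) ≤ S := inf_le_left.trans hTS
  have hgood2 : PiGood F p T R (fun y => s⁻¹ * y * s) (img R (fun x => s * x * s⁻¹)) s⁻¹ := by
    refine ⟨?_, ?_, S.inv_mem hs, ?_⟩
    · exact (isMap_conj F hN2 (S.inv_mem hs)).congr (fun x _ => by simp)
    · have h1 : IsMap F (img R (fun x => s * x * s⁻¹)) (fun y => s⁻¹ * y * s) :=
        (isMap_conj F hcs.img_le (S.inv_mem hs)).congr (fun x _ => by simp)
      rw [← img_comp hcs h1]
      have h2 : img R ((fun y => s⁻¹ * y * s) ∘ (fun x => s * x * s⁻¹)) = img R id :=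
        img_congr (fun x _ => by simp [mul_assoc])
      rw [h2, pi_img_id]
    · exact PiGen.congr (piGen_id inf_le_left) (fun x _ => by simp [mul_assoc])
  have hfin := hQ id (fun y => s⁻¹ * y * s) 1 s⁻¹ 1 1 hgood1 hgood2 (Subgroup.one_mem _)
    (Subgroup.one_mem _) (fun x hx => by
      rw [id, autFun_one hx]
      simp [mul_assoc])
  simpa using hfin

/-- The degree lemma for all subgroups `R` with `PiH`. -/
theorem pi_deg [Finite S] {p : ℕ} [Fact p.Prime] (hS : IsPGroup p S) {F : FusionSystem S}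
    {T : Subgroup Ω} (hh : PiHyp F p T) (hfr : PiFrat F p T) (hbrc : PiBrc F p T) (hhfa : PiHfa F p)
    (hc : PiConjS F p T) (htr : PiTr F p) (hgi : PiGi F p T)
    (hfn : ∀ {P : Subgroup Ω}, P ≤ T → ∃ e, PiGen F p T P e ∧ F.IsFullyNormalized (img P e))
    (hbase : centralizerIn S T ≤ T → PiDeg F p T T)
    (hdl2 : ∀ {R : Subgroup Ω}, PiCtx F p T R → ∀ {A N : Subgroup Ω} {α : Ω → Ω}, F.IsConj A R → A ≤ N →
      N ≤ normalizerIn T A → Nat.card A < Nat.card N → PiGen F p T N α → PiQ F p T R A α)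
    (hdl3 : ∀ {R : Subgroup Ω}, PiCtx F p T R → ∀ {A : Subgroup Ω}, F.IsConj A R → A ≤ T →
      ∀ {α : MulAut A}, α ∈ PiO F p A → PiQ F p T R A id → PiQ F p T R A (autFun α))
    (hdl4 : ∀ {R : Subgroup Ω}, PiCtx F p T R → ∀ {A : Subgroup Ω} {f g : Ω → Ω}, F.IsConj A R → A ≤ T →
      IsMap F A f → IsMap F (img A f) g → PiQ F p T R A f → PiQ F p T R (img A f) g →
      PiQ F p T R A (g ∘ f))
    (hng : ∀ {T' A : Subgroup Ω}, T' ≤ S → A ≤ T' → Nat.card A < Nat.card T' →
      A ≤ normalizerIn T' A ∧ Nat.card A < Nat.card (normalizerIn T' A)) :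
    ∀ R : Subgroup Ω, PiH F T R → PiDeg F p T R := by
  have hTS := hh.le
  haveI : Finite T := finite_of_le hTS
  suffices key : ∀ n : ℕ, ∀ R : Subgroup Ω, PiH F T R → Nat.card T - Nat.card R = n → PiDeg F p T R from
    fun R hR => key _ R hR rfl
  intro n
  induction n using Nat.strong_induction_on with
  | _ n IH =>
    intro R hR hn s hs hgen
    have hRT := hR.1
    obtain ⟨e, he, hfn'⟩ := hfn hRT
    have hem := piGen_isMap hTS he
    have hR2H : PiH F T (img R e) := piH_of_isConj hS hh hR hem.isConj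
    have hcardR2 : Nat.card (img R e) = Nat.card R := hem.card_img
    obtain ⟨g, hg, hg1⟩ := piGen_exists_inv hS hh he
    have hes := hc R e s he hs
    have hgen2 : PiGen F p T (img R e) (fun x => s * x * s⁻¹) := by
      have h1 : PiGen F p T (img R e) ((fun x => s * x * s⁻¹) ∘ g) :=
        PiGen.comp hg hgen (fun y hy => by
          obtain ⟨x, hx, rfl⟩ := hem.mem_img.1 hy
          rw [hg1 x hx]; exact hx)
      have h2 : PiGen F p T (img R e)
          ((fun y => s * e (s⁻¹ * y * s) * s⁻¹) ∘ ((fun x => s * x * s⁻¹) ∘ g)) :=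
        PiGen.comp h1 hes (fun y hy => by
          obtain ⟨x, hx, rfl⟩ := hem.mem_img.1 hy
          show s * g (e x) * s⁻¹ ∈ img R (fun x => s * x * s⁻¹)
          rw [hg1 x hx]
          exact Subgroup.subset_closure ⟨x, hx, rfl⟩)
      refine PiGen.congr h2 (fun y hy => ?_)
      obtain ⟨x, hx, rfl⟩ := hem.mem_img.1 hy
      show s * e x * s⁻¹ = s * e (s⁻¹ * (s * g (e x) * s⁻¹) * s) * s⁻¹
      rw [hg1 x hx]
      have h3 : s⁻¹ * (s * x * s⁻¹) * s = x := by group
      rw [h3]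
    by_cases hcard : Nat.card (img R e) = Nat.card T
    · have hR2T : img R e = T := Subgroup.eq_of_le_of_card_ge hR2H.1 (le_of_eq hcard.symm)
      have hC : centralizerIn S T ≤ T := hR2H.2 T (by rw [hR2T]; exact Helper88.isConj_refl F hTS)
      have hgen3 : PiGen F p T T (fun x => s * x * s⁻¹) := by
        have h := hgen2
        rwa [hR2T] at h
      exact hbase hC s hs hgen3
    · have hlt : Nat.card (img R e) < Nat.card T :=
        lt_of_le_of_ne (Subgroup.card_le_of_le hR2H.1) hcard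
      have c : PiCtx F p T (img R e) := ⟨hh, hfn', hR2H, hlt, fun R₁ hR₁ hlt₁ =>
        IH (Nat.card T - Nat.card R₁) (by
          have := Subgroup.card_le_of_le hR₁.1
          omega) R₁ hR₁ rfl⟩
      exact pi_main hS c hbrc hhfa hc htr hgi (hdl2 c) (hdl3 c) (hdl4 c) hng s hs hgen2

/-- Saturation of the candidate subsystem. -/
theorem pi_saturated [Finite S] {p : ℕ} [Fact p.Prime] (hS : IsPGroup p S) {F : FusionSystem S}
    {T : Subgroup Ω} (hh : PiHyp F p T)
    (hdeg : ∀ R : Subgroup Ω, PiH F T R → PiDeg F p T R) {E : FusionSystem T} (hE : PiSys F p E)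
    (hfn : ∀ {P : Subgroup Ω}, P ≤ T → ∃ e, PiGen F p T P e ∧ F.IsFullyNormalized (img P e))
    (hcx : ∀ {P : Subgroup Ω}, F.IsFullyNormalized P → P ≤ T → ¬ PiH F T P → ¬ centralizerIn S P ≤ T)
    (hxa : ∀ {P : Subgroup Ω}, F.IsFullyNormalized P → P ≤ T → ¬ centralizerIn S P ≤ T →
      E.IsFullyAutomized p P)
    (hxr : ∀ {P : Subgroup Ω}, F.IsFullyNormalized P → P ≤ T → ¬ centralizerIn S P ≤ T →
      E.IsReceptive P)
    (hha : ∀ {P : Subgroup Ω}, F.IsFullyNormalized P → P ≤ T → PiDeg F p T P → E.IsFullyAutomized p P)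
    (hhr : ∀ {P : Subgroup Ω}, F.IsFullyNormalized P → P ≤ T →
      (∀ R : Subgroup Ω, F.IsConj P R → PiDeg F p T R) → E.IsReceptive P) :
    E.IsSaturated p := by
  intro P hPT
  obtain ⟨e, he, hfn'⟩ := hfn hPT
  have hP'T : img P e ≤ T := piGen_img_le hS hh he
  refine ⟨img P e, (Helper88.isConj_iff E).2 ⟨e, (hE P e).2 he, rfl⟩, ?_, ?_⟩
  · by_cases hH : PiH F T (img P e)
    · exact hha hfn' hP'T (hdeg _ hH)
    · exact hxa hfn' hP'T (hcx hfn' hP'T hH)
  · by_cases hH : PiH F T (img P e)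
    · exact hhr hfn' hP'T (fun R hR => hdeg R (piH_of_isConj hS hh hH hR))
    · exact hxr hfn' hP'T (hcx hfn' hP'T hH)

/-- The index-`p` step. -/
theorem pi_step [Finite S] {p : ℕ} [Fact p.Prime] (hS : IsPGroup p S) {F : FusionSystem S}
    {T : Subgroup Ω} (hh : PiHyp F p T) :
    ∃ E : FusionSystem T, E.IsSaturated p ∧ E.HasPPowerIndexIn F p := by
  have htr : PiTr F p := Cfsg.Agent.Helper41.PiTR.pi_transport F
  have hc : PiConjS F p T := Cfsg.Agent.Helper73.PiGENC.pi_conjS hS hh htr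
  have hfr : PiFrat F p T := Cfsg.Agent.Helper20.PiFRAT.pi_frattini hS hh hc
  have hhfa : PiHfa F p := Cfsg.Agent.Helper85.PiHFAC.pi_hfa hS hh.sat
    (fun R hR P => by
      haveI : Finite R := finite_of_le hR.1
      exact Cfsg.Agent.Helper10.PiHFAA.pi_hfa_group P)
    (fun R hR Y hY y g k hy hg hk hgk => Cfsg.Agent.Helper66.PiHFAB.pi_hfa_gen hS hh.sat hR Y hY y g k hy hg hk hgk)
  have hbrc : PiBrc F p T := Cfsg.Agent.Helper29.PiBRC.pi_brc hS hh hc
  have hgi : PiGi F p T := Cfsg.Agent.Helper34.PiGI.pi_exists_good hS hh hfr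
  have hsp : PiSplit S T := Cfsg.Agent.Helper80.PiSPLIT.pi_split hh.le hh.norm hh.index
  have hfn : ∀ {P : Subgroup Ω}, P ≤ T → ∃ e, PiGen F p T P e ∧ F.IsFullyNormalized (img P e) :=
    fun hP => Cfsg.Agent.Helper73.PiSCONJ.pi_exists_fn hS hh hfr hP
  have hdeg := pi_deg hS hh hfr hbrc hhfa hc htr hgi hfn (fun hC => Cfsg.Agent.Helper20.PiBASE.pi_base hS hh hhfa hC)
    (fun c _ _ _ hAR hAN hN hlt hα => Cfsg.Agent.Helper85.PiDL2.pi_dl2 hS c hbrc hhfa hc hAR hAN hN hlt hα)
    (fun c _ hAR hAT _ hα hid => Cfsg.Agent.Helper3.PiDL3.pi_dl3 hS c htr hAR hAT hα hid)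
    (fun c _ _ _ hAR hAT hf hg h1 h2 => Cfsg.Agent.Helper41.PiDL4.pi_dl4 hS c hgi hAR hAT hf hg h1 h2)
    (fun hTS hAT hlt => Cfsg.Agent.Helper80.PiNGROW.pi_card_lt_normalizerIn hS hTS hAT hlt)
  obtain ⟨E, hE⟩ := Cfsg.Agent.Helper41.PiSUB.pi_exists_sys hS hh
  refine ⟨E, pi_saturated hS hh hdeg hE hfn
    (fun hP hPT hnot => Cfsg.Agent.Helper34.PiCX.pi_cent_not_le hS hh hP hPT hnot)
    (fun hP hPT hX => Cfsg.Agent.Helper85.PiSXA.pi_automized_of_cent hS hh hsp hE hP hPT hX)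
    (fun hP hPT hX => Cfsg.Agent.Helper14.PiSXR.pi_receptive_of_cent hS hh hsp hfr hE hP hPT hX)
    (fun {P} hP hPT hd => by
      haveI : Finite P := finite_of_le (hPT.trans hh.le)
      exact Cfsg.Agent.Helper85.PiSHA.pi_automized_of_deg hS hh hE hP hPT (fun P₀ X hX => Cfsg.Agent.Helper80.PiSYLX.pi_sylow_of_pResidual_le P₀ X hX) hd)
    (fun hP hPT hd => Cfsg.Agent.Helper19.PiSHR.pi_receptive_of_deg hS hh hfr hE hP hPT hd), Cfsg.Agent.Helper41.PiIDX.pi_index hS hh hE⟩

/-- Existence of a saturated subsystem of `p`-power index over every subgroup containing the hyperfocal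
subgroup. -/
theorem pi_chain {p : ℕ} [Fact p.Prime] : ∀ (n : ℕ) (S : Subgroup Ω) [Finite S] (_ : IsPGroup p S)
    (F : FusionSystem S) (_ : F.IsSaturated p) (T : Subgroup Ω) (_ : T ≤ S)
    (_ : F.hyperfocalSubgroup p ≤ T), Nat.card S - Nat.card T = n →
    ∃ E : FusionSystem T, E.IsSaturated p ∧ E.HasPPowerIndexIn F p := by
  intro n
  induction n using Nat.strong_induction_on with
  | _ n IH =>
    intro S _ hS F hF T hTS hT hn
    by_cases hne : T = S
    · subst hne
      exact ⟨F, hF, Helper86.hasPPowerIndexIn_self F p⟩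
    · obtain ⟨T₁, hTT₁, hT₁S, hnorm, hidx⟩ := Cfsg.Agent.Helper80.PiMAX.pi_exists_max hS hTS hne
      have hh : PiHyp F p T₁ := ⟨hF, hT₁S, hnorm, hT.trans hTT₁, hidx⟩
      obtain ⟨E₁, hE₁s, hE₁i⟩ := pi_step hS hh
      haveI : Finite T₁ := finite_of_le hT₁S
      have hT₁p : IsPGroup p T₁ :=
        hS.of_injective (Subgroup.inclusion hT₁S) (Subgroup.inclusion_injective hT₁S)
      have hhyp : E₁.hyperfocalSubgroup p ≤ T :=
        (Helper86.hyperfocal_le_of_subsystem F E₁ hE₁i.1 p).trans hT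
      have hpos : 0 < Nat.card T₁ := Nat.card_pos
      have hp2 : 2 ≤ p := (Fact.out : p.Prime).two_le
      have hlt : Nat.card T₁ - Nat.card T < n := by
        have h1 : Nat.card T ≤ Nat.card T₁ := Subgroup.card_le_of_le hTT₁
        have h2 : Nat.card T₁ < Nat.card S := by rw [hidx]; nlinarith
        omega
      obtain ⟨E, hEs, hEi⟩ := IH _ hlt T₁ hT₁p E₁ hE₁s T hTT₁ hhyp rfl
      exact ⟨E, hEs, Helper86.hasPPowerIndexIn_trans F E₁ hE₁i E hEi hT⟩

end Cfsg.Agent.Helper85
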