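import Cfsg.Agent.S5110
import Cfsg.Prelude.Def_FusionComponents

set_option autoImplicit false
set_option maxHeartbeats 1000000

namespace Cfsg.Agent.Helper85

open Cfsg Cfsg.FusionSystem Cfsg.Agent.Helper88

variable {Ω₁ Ω₂ : Type*} [Group Ω₁] [Group Ω₂] {S₁ : Subgroup Ω₁} {S₂ : Subgroup Ω₂}

theorem prodSys_map_fst (P₁ : Subgroup Ω₁) (P₂ : Subgroup Ω₂) :
    (P₁.prod P₂).map (MonoidHom.fst Ω₁ Ω₂) = P₁ := by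
  ext x
  constructor
  · rintro ⟨y, hy, rfl⟩
    exact hy.1
  · intro hx
    exact ⟨(x, 1), ⟨hx, P₂.one_mem⟩, rfl⟩

theorem prodSys_map_snd (P₁ : Subgroup Ω₁) (P₂ : Subgroup Ω₂) :
    (P₁.prod P₂).map (MonoidHom.snd Ω₁ Ω₂) = P₂ := by
  ext x
  constructor
  · rintro ⟨y, hy, rfl⟩
    exact hy.2
  · intro hx
    exact ⟨(1, x), ⟨P₁.one_mem, hx⟩, rfl⟩

theorem prodSys_le_prod (P : Subgroup (Ω₁ × Ω₂)) :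
    P ≤ (P.map (MonoidHom.fst Ω₁ Ω₂)).prod (P.map (MonoidHom.snd Ω₁ Ω₂)) :=
  fun x hx => ⟨⟨x, hx, rfl⟩, ⟨x, hx, rfl⟩⟩

theorem prodSys_card_prod (P₁ : Subgroup Ω₁) (P₂ : Subgroup Ω₂) :
    Nat.card ↥(P₁.prod P₂) = Nat.card P₁ * Nat.card P₂ := by
  rw [Nat.card_congr (Subgroup.prodEquiv P₁ P₂).toEquiv, Nat.card_prod]

theorem prodSys_finite [Finite S₁] [Finite S₂] : Finite ↥(S₁.prod S₂) :=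
  Finite.of_equiv _ (Subgroup.prodEquiv S₁ S₂).symm.toEquiv

theorem prodSys_isPGroup {p : ℕ} (h₁ : IsPGroup p S₁) (h₂ : IsPGroup p S₂) :
    IsPGroup p ↥(S₁.prod S₂) := by
  intro g
  obtain ⟨k₁, hk₁⟩ := h₁ ⟨g.1.1, g.2.1⟩
  obtain ⟨k₂, hk₂⟩ := h₂ ⟨g.1.2, g.2.2⟩
  refine ⟨k₁ + k₂, ?_⟩
  apply Subtype.ext
  apply Prod.ext
  · show (g.1 ^ p ^ (k₁ + k₂)).1 = 1
    have h : g.1.1 ^ p ^ k₁ = 1 := congrArg Subtype.val hk₁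
    rw [Prod.pow_fst, pow_add, pow_mul, h, one_pow]
  · show (g.1 ^ p ^ (k₁ + k₂)).2 = 1
    have h : g.1.2 ^ p ^ k₂ = 1 := congrArg Subtype.val hk₂
    rw [Prod.pow_snd, pow_add, mul_comm, pow_mul, h, one_pow]

section

variable {F₁ : FusionSystem S₁} {F₂ : FusionSystem S₂} {E : FusionSystem (S₁.prod S₂)}
  (hE : IsProductSystem F₁ F₂ E)

include hE

/-- maps of the product system, in ambient form -/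
theorem prodSys_isMap_iff (P : Subgroup (Ω₁ × Ω₂)) (f : Ω₁ × Ω₂ → Ω₁ × Ω₂) :
    IsMap E P f ↔ P ≤ S₁.prod S₂ ∧ ∃ f₁ f₂, IsMap F₁ (P.map (MonoidHom.fst Ω₁ Ω₂)) f₁ ∧
      IsMap F₂ (P.map (MonoidHom.snd Ω₁ Ω₂)) f₂ ∧ ∀ x ∈ P, f x = (f₁ x.1, f₂ x.2) := by
  constructor
  · rintro ⟨φ, hφ, hφf⟩
    obtain ⟨hP, φ₁, hφ₁, φ₂, hφ₂, hval⟩ := (hE P φ).1 hφ
    refine ⟨hP, extHom φ₁, extHom φ₂, isMap_extHom hφ₁, isMap_extHom hφ₂, fun x hx => ?_⟩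
    have h1 : x.1 ∈ P.map (MonoidHom.fst Ω₁ Ω₂) := ⟨x, hx, rfl⟩
    have h2 : x.2 ∈ P.map (MonoidHom.snd Ω₁ Ω₂) := ⟨x, hx, rfl⟩
    rw [← hφf ⟨x, hx⟩, hval ⟨x, hx⟩ h1 h2, extHom_apply' φ₁ h1, extHom_apply' φ₂ h2]
  · rintro ⟨hP, f₁, f₂, ⟨φ₁, hφ₁, h1⟩, ⟨φ₂, hφ₂, h2⟩, hval⟩
    refine ⟨(φ₁.comp ((MonoidHom.fst Ω₁ Ω₂).subgroupMap P)).prod
      (φ₂.comp ((MonoidHom.snd Ω₁ Ω₂).subgroupMap P)), ?_, fun x => ?_⟩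
    · exact (hE P _).2 ⟨hP, φ₁, hφ₁, φ₂, hφ₂, fun x _ _ => rfl⟩
    · rw [hval x x.2]
      exact Prod.ext (h1 _) (h2 _)

/-- maps of the product system on a product subgroup -/
theorem prodSys_isMap_prod {P₁ : Subgroup Ω₁} {P₂ : Subgroup Ω₂} (hP₁ : P₁ ≤ S₁) (hP₂ : P₂ ≤ S₂)
    (f : Ω₁ × Ω₂ → Ω₁ × Ω₂) :
    IsMap E (P₁.prod P₂) f ↔ ∃ f₁ f₂, IsMap F₁ P₁ f₁ ∧ IsMap F₂ P₂ f₂ ∧
      ∀ x ∈ P₁.prod P₂, f x = (f₁ x.1, f₂ x.2) := by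
  rw [prodSys_isMap_iff hE, prodSys_map_fst, prodSys_map_snd]
  constructor
  · rintro ⟨-, h⟩
    exact h
  · intro h
    exact ⟨Subgroup.prod_mono hP₁ hP₂, h⟩

omit hE in
/-- the image of a product subgroup under a product map -/
theorem prodSys_img_prod {P₁ : Subgroup Ω₁} {P₂ : Subgroup Ω₂} {f : Ω₁ × Ω₂ → Ω₁ × Ω₂}
    {f₁ : Ω₁ → Ω₁} {f₂ : Ω₂ → Ω₂} (hf : IsMap E (P₁.prod P₂) f) (hf₁ : IsMap F₁ P₁ f₁)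
    (hf₂ : IsMap F₂ P₂ f₂) (hval : ∀ x ∈ P₁.prod P₂, f x = (f₁ x.1, f₂ x.2)) :
    img (P₁.prod P₂) f = (img P₁ f₁).prod (img P₂ f₂) := by
  ext y
  rw [hf.mem_img, Subgroup.mem_prod, hf₁.mem_img, hf₂.mem_img]
  constructor
  · rintro ⟨x, hx, rfl⟩
    rw [hval x hx]
    exact ⟨⟨x.1, hx.1, rfl⟩, ⟨x.2, hx.2, rfl⟩⟩
  · rintro ⟨⟨x₁, hx₁, h1⟩, ⟨x₂, hx₂, h2⟩⟩
    refine ⟨(x₁, x₂), ⟨hx₁, hx₂⟩, ?_⟩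
    rw [hval _ ⟨hx₁, hx₂⟩]
    exact Prod.ext h1 h2

omit hE in
/-- the projections of the image of a subgroup under a product map -/
theorem prodSys_map_fst_img {P : Subgroup (Ω₁ × Ω₂)} {f : Ω₁ × Ω₂ → Ω₁ × Ω₂}
    {f₁ : Ω₁ → Ω₁} {f₂ : Ω₂ → Ω₂} (hf : IsMap E P f)
    (hf₁ : IsMap F₁ (P.map (MonoidHom.fst Ω₁ Ω₂)) f₁)
    (hval : ∀ x ∈ P, f x = (f₁ x.1, f₂ x.2)) :
    (img P f).map (MonoidHom.fst Ω₁ Ω₂) = img (P.map (MonoidHom.fst Ω₁ Ω₂)) f₁ := by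
  ext y
  rw [hf₁.mem_img]
  constructor
  · rintro ⟨z, hz, rfl⟩
    obtain ⟨x, hx, rfl⟩ := hf.mem_img.1 hz
    refine ⟨x.1, ⟨x, hx, rfl⟩, ?_⟩
    rw [hval x hx]
    rfl
  · rintro ⟨x₁, ⟨x, hx, rfl⟩, rfl⟩
    refine ⟨f x, hf.apply_mem_img hx, ?_⟩
    rw [hval x hx]
    rfl

omit hE in
theorem prodSys_map_snd_img {P : Subgroup (Ω₁ × Ω₂)} {f : Ω₁ × Ω₂ → Ω₁ × Ω₂}
    {f₁ : Ω₁ → Ω₁} {f₂ : Ω₂ → Ω₂} (hf : IsMap E P f)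
    (hf₂ : IsMap F₂ (P.map (MonoidHom.snd Ω₁ Ω₂)) f₂)
    (hval : ∀ x ∈ P, f x = (f₁ x.1, f₂ x.2)) :
    (img P f).map (MonoidHom.snd Ω₁ Ω₂) = img (P.map (MonoidHom.snd Ω₁ Ω₂)) f₂ := by
  ext y
  rw [hf₂.mem_img]
  constructor
  · rintro ⟨z, hz, rfl⟩
    obtain ⟨x, hx, rfl⟩ := hf.mem_img.1 hz
    refine ⟨x.2, ⟨x, hx, rfl⟩, ?_⟩
    rw [hval x hx]
    rfl
  · rintro ⟨x₂, ⟨x, hx, rfl⟩, rfl⟩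
    refine ⟨f x, hf.apply_mem_img hx, ?_⟩
    rw [hval x hx]
    rfl

end

end Cfsg.Agent.Helper85
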