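import Cfsg.Agent.Helper85.ProdSys

set_option autoImplicit false
set_option maxHeartbeats 1000000

namespace Cfsg.Agent.Helper85

open Cfsg Cfsg.FusionSystem Cfsg.Agent.Helper88

variable {Ω₁ Ω₂ : Type*} [Group Ω₁] [Group Ω₂] {S₁ : Subgroup Ω₁} {S₂ : Subgroup Ω₂}

/-- the product of two automorphisms, as an automorphism of the product subgroup -/
def prodAutHom (Q₁ : Subgroup Ω₁) (Q₂ : Subgroup Ω₂) :
    MulAut Q₁ × MulAut Q₂ →* MulAut ↥(Q₁.prod Q₂) where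
  toFun a := (Subgroup.prodEquiv Q₁ Q₂).trans
    ((MulEquiv.prodCongr a.1 a.2).trans (Subgroup.prodEquiv Q₁ Q₂).symm)
  map_one' := by
    apply MulEquiv.ext
    intro x
    rfl
  map_mul' a b := by
    apply MulEquiv.ext
    intro x
    rfl

theorem prodAutHom_apply (Q₁ : Subgroup Ω₁) (Q₂ : Subgroup Ω₂) (a : MulAut Q₁ × MulAut Q₂)
    (x : ↥(Q₁.prod Q₂)) :
    ((prodAutHom Q₁ Q₂ a x : ↥(Q₁.prod Q₂)) : Ω₁ × Ω₂) =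
      ((a.1 ⟨x.1.1, x.2.1⟩ : Ω₁), (a.2 ⟨x.1.2, x.2.2⟩ : Ω₂)) := rfl

theorem autFun_prodAutHom {Q₁ : Subgroup Ω₁} {Q₂ : Subgroup Ω₂} (a : MulAut Q₁ × MulAut Q₂)
    {x : Ω₁ × Ω₂} (hx : x ∈ Q₁.prod Q₂) :
    autFun (prodAutHom Q₁ Q₂ a) x = (autFun a.1 x.1, autFun a.2 x.2) := by
  rw [autFun_apply' _ hx, autFun_apply' _ hx.1, autFun_apply' _ hx.2]
  rfl

theorem prodAutHom_injective (Q₁ : Subgroup Ω₁) (Q₂ : Subgroup Ω₂) :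
    Function.Injective (prodAutHom Q₁ Q₂) := by
  intro a b hab
  apply Prod.ext
  · apply autFun_ext
    intro x hx
    have h1 : autFun (prodAutHom Q₁ Q₂ a) (x, 1) = autFun (prodAutHom Q₁ Q₂ b) (x, 1) := by rw [hab]
    rw [autFun_prodAutHom a ⟨hx, Q₂.one_mem⟩, autFun_prodAutHom b ⟨hx, Q₂.one_mem⟩] at h1
    exact congrArg Prod.fst h1
  · apply autFun_ext
    intro x hx
    have h1 : autFun (prodAutHom Q₁ Q₂ a) (1, x) = autFun (prodAutHom Q₁ Q₂ b) (1, x) := by rw [hab]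
    rw [autFun_prodAutHom a ⟨Q₁.one_mem, hx⟩, autFun_prodAutHom b ⟨Q₁.one_mem, hx⟩] at h1
    exact congrArg Prod.snd h1

theorem prodAutHom_mem_autInducedBy_iff {Q₁ : Subgroup Ω₁} {Q₂ : Subgroup Ω₂}
    (a : MulAut Q₁ × MulAut Q₂) :
    prodAutHom Q₁ Q₂ a ∈ autInducedBy (S₁.prod S₂) (Q₁.prod Q₂) ↔
      a.1 ∈ autInducedBy S₁ Q₁ ∧ a.2 ∈ autInducedBy S₂ Q₂ := by
  rw [Helper88.mem_autInducedBy_iff, Helper88.mem_autInducedBy_iff, Helper88.mem_autInducedBy_iff]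
  constructor
  · rintro ⟨g, hg, hga⟩
    refine ⟨⟨g.1, hg.1, fun x => ?_⟩, ⟨g.2, hg.2, fun x => ?_⟩⟩
    · have h := hga ⟨((x : Ω₁), 1), ⟨x.2, Q₂.one_mem⟩⟩
      rw [prodAutHom_apply] at h
      exact congrArg Prod.fst h
    · have h := hga ⟨(1, (x : Ω₂)), ⟨Q₁.one_mem, x.2⟩⟩
      rw [prodAutHom_apply] at h
      exact congrArg Prod.snd h
  · rintro ⟨⟨g₁, hg₁, h1⟩, ⟨g₂, hg₂, h2⟩⟩
    refine ⟨(g₁, g₂), ⟨hg₁, hg₂⟩, fun x => ?_⟩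
    rw [prodAutHom_apply]
    exact Prod.ext (h1 _) (h2 _)

section

variable [Finite S₁] [Finite S₂] {F₁ : FusionSystem S₁} {F₂ : FusionSystem S₂}
  {E : FusionSystem (S₁.prod S₂)} (hE : IsProductSystem F₁ F₂ E)

include hE

theorem prodAutHom_mem_autGroup_iff {Q₁ : Subgroup Ω₁} {Q₂ : Subgroup Ω₂} (hQ₁ : Q₁ ≤ S₁)
    (hQ₂ : Q₂ ≤ S₂) (a : MulAut Q₁ × MulAut Q₂) :
    prodAutHom Q₁ Q₂ a ∈ E.autGroup (Q₁.prod Q₂) ↔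
      a.1 ∈ F₁.autGroup Q₁ ∧ a.2 ∈ F₂.autGroup Q₂ := by
  rw [Helper88.mem_autGroup_iff E (Subgroup.prod_mono hQ₁ hQ₂), Helper88.mem_autGroup_iff F₁ hQ₁,
    Helper88.mem_autGroup_iff F₂ hQ₂, prodSys_isMap_prod hE hQ₁ hQ₂]
  constructor
  · rintro ⟨f₁, f₂, hf₁, hf₂, hval⟩
    refine ⟨hf₁.congr (fun x hx => ?_), hf₂.congr (fun x hx => ?_)⟩
    · have h := hval (x, 1) ⟨hx, Q₂.one_mem⟩
      rw [autFun_prodAutHom a ⟨hx, Q₂.one_mem⟩] at h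
      exact congrArg Prod.fst h
    · have h := hval (1, x) ⟨Q₁.one_mem, hx⟩
      rw [autFun_prodAutHom a ⟨Q₁.one_mem, hx⟩] at h
      exact congrArg Prod.snd h
  · rintro ⟨h1, h2⟩
    exact ⟨autFun a.1, autFun a.2, h1, h2, fun x hx => autFun_prodAutHom a hx⟩

theorem exists_prodAutHom_eq {Q₁ : Subgroup Ω₁} {Q₂ : Subgroup Ω₂} (hQ₁ : Q₁ ≤ S₁)
    (hQ₂ : Q₂ ≤ S₂) {α : MulAut ↥(Q₁.prod Q₂)} (hα : α ∈ E.autGroup (Q₁.prod Q₂)) :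
    ∃ a : MulAut Q₁ × MulAut Q₂, prodAutHom Q₁ Q₂ a = α := by
  have h := (Helper88.mem_autGroup_iff E (Subgroup.prod_mono hQ₁ hQ₂) α).1 hα
  obtain ⟨f₁, f₂, hf₁, hf₂, hval⟩ := (prodSys_isMap_prod hE hQ₁ hQ₂ _).1 h
  have hm₁ : ∀ x ∈ Q₁, f₁ x ∈ Q₁ := by
    intro x hx
    have h1 := hval (x, 1) ⟨hx, Q₂.one_mem⟩
    have h2 : autFun α (x, 1) ∈ Q₁.prod Q₂ := autFun_mem α ⟨hx, Q₂.one_mem⟩
    rw [h1] at h2
    exact h2.1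
  have hm₂ : ∀ x ∈ Q₂, f₂ x ∈ Q₂ := by
    intro x hx
    have h1 := hval (1, x) ⟨Q₁.one_mem, hx⟩
    have h2 : autFun α (1, x) ∈ Q₁.prod Q₂ := autFun_mem α ⟨Q₁.one_mem, hx⟩
    rw [h1] at h2
    exact h2.2
  obtain ⟨a₁, -, ha₁⟩ := hf₁.exists_aut (hf₁.img_eq_of_mapsTo hm₁)
  obtain ⟨a₂, -, ha₂⟩ := hf₂.exists_aut (hf₂.img_eq_of_mapsTo hm₂)
  refine ⟨(a₁, a₂), ?_⟩
  apply autFun_ext
  intro x hx
  rw [autFun_prodAutHom _ hx, hval x hx, ha₁ _ hx.1, ha₂ _ hx.2]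

/-- a product of fully automized subgroups is fully automized in the product system -/
theorem prodSys_fullyAutomized {p : ℕ} [Fact p.Prime] (h₁ : IsPGroup p S₁) (h₂ : IsPGroup p S₂)
    {Q₁ : Subgroup Ω₁} {Q₂ : Subgroup Ω₂} (hfa₁ : F₁.IsFullyAutomized p Q₁)
    (hfa₂ : F₂.IsFullyAutomized p Q₂) : E.IsFullyAutomized p (Q₁.prod Q₂) := by
  have hQ₁ : Q₁ ≤ S₁ := hfa₁.1
  have hQ₂ : Q₂ ≤ S₂ := hfa₂.1
  have hfin₁ : Finite Q₁ := Helper88.finite_of_le hQ₁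
  have hfin₂ : Finite Q₂ := Helper88.finite_of_le hQ₂
  have hfinS : Finite ↥(S₁.prod S₂) := prodSys_finite
  have hQS : Q₁.prod Q₂ ≤ S₁.prod S₂ := Subgroup.prod_mono hQ₁ hQ₂
  have hfin : Finite ↥(Q₁.prod Q₂) := Helper88.finite_of_le hQS
  have hs₁ : SylIn p (autInducedBy S₁ Q₁) (F₁.autGroup Q₁) := hfa₁.2
  have hs₂ : SylIn p (autInducedBy S₂ Q₂) (F₂.autGroup Q₂) := hfa₂.2
  obtain ⟨-, hmax₁⟩ := sylIn_iff.1 hs₁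
  obtain ⟨-, hmax₂⟩ := sylIn_iff.1 hs₂
  refine ⟨hQS, ?_⟩
  show SylIn p (autInducedBy (S₁.prod S₂) (Q₁.prod Q₂)) (E.autGroup (Q₁.prod Q₂))
  refine sylIn_iff.2 ⟨(isPGroup_autInducedBy (prodSys_isPGroup h₁ h₂) _).to_le inf_le_left,
    fun Y hYK hYp => ?_⟩
  have hinj := prodAutHom_injective Q₁ Q₂
  have hYr : Y ≤ (prodAutHom Q₁ Q₂).range := by
    intro y hy
    obtain ⟨a, ha⟩ := exists_prodAutHom_eq hE hQ₁ hQ₂ (hYK hy)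
    exact ⟨a, ha⟩
  have hcardY : Nat.card Y = Nat.card ↥(Y.comap (prodAutHom Q₁ Q₂)) := by
    conv_lhs => rw [← Subgroup.map_comap_eq_self hYr]
    exact Subgroup.card_map_of_injective hinj
  have hY'p : IsPGroup p ↥(Y.comap (prodAutHom Q₁ Q₂)) := hYp.comap_of_injective _ hinj
  have hle : Y.comap (prodAutHom Q₁ Q₂) ≤
      ((Y.comap (prodAutHom Q₁ Q₂)).map (MonoidHom.fst _ _)).prod
        ((Y.comap (prodAutHom Q₁ Q₂)).map (MonoidHom.snd _ _)) := prodSys_le_prod _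
  have hA₁ : (Y.comap (prodAutHom Q₁ Q₂)).map (MonoidHom.fst _ _) ≤ F₁.autGroup Q₁ := by
    rintro _ ⟨a, ha, rfl⟩
    exact ((prodAutHom_mem_autGroup_iff hE hQ₁ hQ₂ a).1 (hYK ha)).1
  have hA₂ : (Y.comap (prodAutHom Q₁ Q₂)).map (MonoidHom.snd _ _) ≤ F₂.autGroup Q₂ := by
    rintro _ ⟨a, ha, rfl⟩
    exact ((prodAutHom_mem_autGroup_iff hE hQ₁ hQ₂ a).1 (hYK ha)).2
  have hc₁ := hmax₁ _ hA₁ (hY'p.map _)
  have hc₂ := hmax₂ _ hA₂ (hY'p.map _)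
  have hc₃ := Subgroup.card_le_of_le hle
  rw [prodSys_card_prod] at hc₃
  have himg : ((autInducedBy S₁ Q₁ ⊓ F₁.autGroup Q₁).prod
      (autInducedBy S₂ Q₂ ⊓ F₂.autGroup Q₂)).map (prodAutHom Q₁ Q₂) ≤
      autInducedBy (S₁.prod S₂) (Q₁.prod Q₂) ⊓ E.autGroup (Q₁.prod Q₂) := by
    rintro _ ⟨a, ha, rfl⟩
    exact ⟨(prodAutHom_mem_autInducedBy_iff a).2 ⟨ha.1.1, ha.2.1⟩,
      (prodAutHom_mem_autGroup_iff hE hQ₁ hQ₂ a).2 ⟨ha.1.2, ha.2.2⟩⟩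
  have hc₄ := Subgroup.card_le_of_le himg
  rw [Subgroup.card_map_of_injective hinj, prodSys_card_prod] at hc₄
  rw [hcardY]
  calc Nat.card ↥(Y.comap (prodAutHom Q₁ Q₂))
      ≤ Nat.card ↥((Y.comap (prodAutHom Q₁ Q₂)).map (MonoidHom.fst _ _)) *
        Nat.card ↥((Y.comap (prodAutHom Q₁ Q₂)).map (MonoidHom.snd _ _)) := hc₃
    _ ≤ Nat.card ↥(autInducedBy S₁ Q₁ ⊓ F₁.autGroup Q₁) *
        Nat.card ↥(autInducedBy S₂ Q₂ ⊓ F₂.autGroup Q₂) := Nat.mul_le_mul hc₁ hc₂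
    _ ≤ _ := hc₄

end

end Cfsg.Agent.Helper85
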