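import Cfsg.Agent.Helper85.ProdSys2

set_option autoImplicit false
set_option maxHeartbeats 1000000

namespace Cfsg.Agent.Helper85

open Cfsg Cfsg.FusionSystem Cfsg.Agent.Helper88

variable {Ω₁ Ω₂ : Type*} [Group Ω₁] [Group Ω₂] {S₁ : Subgroup Ω₁} {S₂ : Subgroup Ω₂}

/-- a product of receptive subgroups is receptive in the product system -/
theorem prodSys_receptive [Finite S₁] [Finite S₂] {F₁ : FusionSystem S₁} {F₂ : FusionSystem S₂}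
    {E : FusionSystem (S₁.prod S₂)} (hE : IsProductSystem F₁ F₂ E)
    {Q₁ : Subgroup Ω₁} {Q₂ : Subgroup Ω₂} (hr₁ : F₁.IsReceptive Q₁) (hr₂ : F₂.IsReceptive Q₂) :
    E.IsReceptive (Q₁.prod Q₂) := by
  have hQ₁ : Q₁ ≤ S₁ := hr₁.1
  have hQ₂ : Q₂ ≤ S₂ := hr₂.1
  have hfinS : Finite ↥(S₁.prod S₂) := prodSys_finite
  refine ⟨Subgroup.prod_mono hQ₁ hQ₂, fun R φ hφ hrange => ?_⟩
  have hφf : ∀ x : R, φ x = extHom φ x := fun x => (extHom_apply φ x).symm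
  have hg : IsMap E R (extHom φ) := isMap_extHom hφ
  have hgQ : img R (extHom φ) = Q₁.prod Q₂ := (img_eq_range hφf).trans hrange
  obtain ⟨hRS, g₁, g₂, hg₁, hg₂, hval⟩ := (prodSys_isMap_iff hE R _).1 hg
  have himg₁ : img (R.map (MonoidHom.fst Ω₁ Ω₂)) g₁ = Q₁ := by
    rw [← prodSys_map_fst_img hg hg₁ hval, hgQ, prodSys_map_fst]
  have himg₂ : img (R.map (MonoidHom.snd Ω₁ Ω₂)) g₂ = Q₂ := by
    rw [← prodSys_map_snd_img hg hg₂ hval, hgQ, prodSys_map_snd]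
  obtain ⟨R₁, hR₁⟩ : ∃ R₁, R₁ = R.map (MonoidHom.fst Ω₁ Ω₂) := ⟨_, rfl⟩
  obtain ⟨R₂, hR₂⟩ : ∃ R₂, R₂ = R.map (MonoidHom.snd Ω₁ Ω₂) := ⟨_, rfl⟩
  rw [← hR₁] at hg₁ himg₁
  rw [← hR₂] at hg₂ himg₂
  have hR₁S : R₁ ≤ S₁ := hg₁.le
  have hR₂S : R₂ ≤ S₂ := hg₂.le
  have hRle : R ≤ R₁.prod R₂ := by
    rw [hR₁, hR₂]
    exact prodSys_le_prod R
  have hĝ : IsMap E (R₁.prod R₂) (fun x => (g₁ x.1, g₂ x.2)) :=
    (prodSys_isMap_prod hE hR₁S hR₂S _).2 ⟨g₁, g₂, hg₁, hg₂, fun _ _ => rfl⟩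
  have hReq : R = R₁.prod R₂ := by
    have hfinR : Finite ↥(R₁.prod R₂) := Helper88.finite_of_le (Subgroup.prod_mono hR₁S hR₂S)
    apply Subgroup.eq_of_le_of_card_ge hRle
    have h1 : Nat.card ↥(img (R₁.prod R₂) (fun x => (g₁ x.1, g₂ x.2))) = Nat.card ↥(R₁.prod R₂) :=
      hĝ.card_img
    have h2 : img (R₁.prod R₂) (fun x => (g₁ x.1, g₂ x.2)) = Q₁.prod Q₂ := by
      rw [prodSys_img_prod hĝ hg₁ hg₂ (fun _ _ => rfl), himg₁, himg₂]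
    have h3 : Nat.card ↥(img R (extHom φ)) = Nat.card R := hg.card_img
    rw [h2] at h1
    rw [hgQ] at h3
    rw [← h1, h3]
  have hfinR₁ : Finite R₁ := Helper88.finite_of_le hR₁S
  have hfinR₂ : Finite R₂ := Helper88.finite_of_le hR₂S
  have hmem₁ : ∀ x₁ ∈ R₁, ((x₁, 1) : Ω₁ × Ω₂) ∈ R := fun x₁ h => by
    rw [hReq]
    exact ⟨h, R₂.one_mem⟩
  have hmem₂ : ∀ x₂ ∈ R₂, ((1, x₂) : Ω₁ × Ω₂) ∈ R := fun x₂ h => by
    rw [hReq]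
    exact ⟨R₁.one_mem, h⟩
  have hEXmem := fun n => mem_extender_iff (S := S₁.prod S₂) hφf n
  have hEXS : extender (S₁.prod S₂) R φ ≤ S₁.prod S₂ := fun n hn => ((hEXmem n).1 hn).1
  obtain ⟨f'₁, hf'₁, hf'₁g⟩ := receptive_extend hr₁ hg₁ himg₁
    (N := (extender (S₁.prod S₂) R φ).map (MonoidHom.fst Ω₁ Ω₂)) (fun n₁ hn₁ => by
      obtain ⟨n, hn, rfl⟩ := hn₁
      obtain ⟨hnS, hnN, h, hhS, hh⟩ := (hEXmem n).1 hn
      refine ⟨hnS.1, ?_, h.1, hhS.1, fun x₁ hx₁ => ?_⟩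
      · apply mem_normalizer_of_conj_mem
        intro x₁ hx₁
        have h1 : n * (x₁, 1) * n⁻¹ ∈ R := conj_mem_of_mem_normalizer hnN (hmem₁ x₁ hx₁)
        rw [hReq] at h1
        exact h1.1
      · have h2 := hh (x₁, 1) (hmem₁ x₁ hx₁)
        rw [hval _ (conj_mem_of_mem_normalizer hnN (hmem₁ x₁ hx₁)), hval _ (hmem₁ x₁ hx₁)] at h2
        exact congrArg Prod.fst h2)
  obtain ⟨f'₂, hf'₂, hf'₂g⟩ := receptive_extend hr₂ hg₂ himg₂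
    (N := (extender (S₁.prod S₂) R φ).map (MonoidHom.snd Ω₁ Ω₂)) (fun n₂ hn₂ => by
      obtain ⟨n, hn, rfl⟩ := hn₂
      obtain ⟨hnS, hnN, h, hhS, hh⟩ := (hEXmem n).1 hn
      refine ⟨hnS.2, ?_, h.2, hhS.2, fun x₂ hx₂ => ?_⟩
      · apply mem_normalizer_of_conj_mem
        intro x₂ hx₂
        have h1 : n * (1, x₂) * n⁻¹ ∈ R := conj_mem_of_mem_normalizer hnN (hmem₂ x₂ hx₂)
        rw [hReq] at h1
        exact h1.2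
      · have h2 := hh (1, x₂) (hmem₂ x₂ hx₂)
        rw [hval _ (conj_mem_of_mem_normalizer hnN (hmem₂ x₂ hx₂)), hval _ (hmem₂ x₂ hx₂)] at h2
        exact congrArg Prod.snd h2)
  have hψ : IsMap E (extender (S₁.prod S₂) R φ) (fun x => (f'₁ x.1, f'₂ x.2)) :=
    (prodSys_isMap_iff hE _ _).2 ⟨hEXS, f'₁, f'₂, hf'₁.restrict le_sup_left,
      hf'₂.restrict le_sup_left, fun _ _ => rfl⟩
  obtain ⟨ψ, hψmem, hψeq⟩ := hψ
  refine ⟨ψ, hψmem, fun x hP hN => ?_⟩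
  have hx1 : x.1 ∈ R₁ := by
    rw [hR₁]
    exact ⟨x, hP, rfl⟩
  have hx2 : x.2 ∈ R₂ := by
    rw [hR₂]
    exact ⟨x, hP, rfl⟩
  rw [hψeq ⟨x, hN⟩, ← extHom_apply' φ hP, hval x hP]
  show (f'₁ x.1, f'₂ x.2) = (g₁ x.1, g₂ x.2)
  rw [hf'₁g _ hx1, hf'₂g _ hx2]

end Cfsg.Agent.Helper85
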